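import Mathlib
import Cfsg.Agent.Lib.Helper32.Uniq8
import Cfsg.Agent.S1450

set_option autoImplicit false

/-!
# S1402 (B&G 9.5), piece J8 (helper88, for helper3)
-/

open Cfsg Cfsg.Agent.Lib.Helper34 Cfsg.Agent.Lib.Helper32
open scoped commutatorElement

universe u

namespace Cfsg.Agent.Lib.Helper88.U95

variable {G : Type u} [Group G] [Finite G]

/-- **J8**: in a minimal simple group of odd order, let `H` be a proper subgroup of `s`-rank at
most 2 and `A ≤ [H, H]` a `p`-subgroup, `p ≠ s`. Then `A` centralizes every `A`-invariant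
`s`-subgroup of `H`. -/
theorem le_centralizer_of_prankLE (hG : IsMinSimpleOddOrder G) {p s : ℕ} [Fact p.Prime]
    [Fact s.Prime] (hsp : s ≠ p) {A H Y : Subgroup G} (hH : H ≠ ⊤) (hAp : IsPGroup p A)
    (hAH : A ≤ ⁅H, H⁆) (hr : PRankLE s 2 ↥H) (hYH : Y ≤ H) (hYs : IsPGroup s Y)
    (hAY : A ≤ Subgroup.normalizer (Y : Set G)) : A ≤ Subgroup.centralizer (Y : Set G) := by
  have hsP : s.Prime := Fact.out
  have hpP : p.Prime := Fact.out
  obtain ⟨k, hk⟩ := IsPGroup.iff_card.mp hYs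
  by_cases hsH : s ∣ Nat.card ↥H
  swap
  · -- `Y` is trivial
    have h1 : Nat.card ↥Y ∣ Nat.card ↥H := Subgroup.card_dvd_of_le hYH
    have hk0 : k = 0 := by
      by_contra hk0
      apply hsH
      refine dvd_trans ?_ h1
      rw [hk]
      exact dvd_pow_self s hk0
    rw [hk0, pow_zero] at hk
    have hY : Y = ⊥ := Subgroup.card_eq_one.mp hk
    rw [hY]
    intro a _
    rw [Subgroup.mem_centralizer_iff]
    intro y hy
    rw [Subgroup.mem_bot.mp hy]
    simp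
  have : Group.IsSolvable ↥H := minSimple_solvable hG hH
  have hodd : Odd (Nat.card ↥H) := minSimple_odd_sub hG H
  obtain ⟨-, -, -, -, h5, -⟩ := Cfsg.Agent.S1450.result hodd s hsH hr
  have hcomm_le_H : ⁅H, H⁆ ≤ H := Subgroup.commutator_le.mpr (fun a ha b hb =>
    H.mul_mem (H.mul_mem (H.mul_mem ha hb) (H.inv_mem ha)) (H.inv_mem hb))
  -- `A ≤ O := O_{s'}(H)`
  have hAO : A ≤ pPrimeCoreOf s H := by
    intro a ha
    have haH : a ∈ H := hcomm_le_H (hAH ha)
    have ha2 : (⟨a, haH⟩ : ↥H) ∈ pPrimePCore s ↥H := by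
      apply h5
      have hmap : (commutator ↥H).map H.subtype = ⁅H, H⁆ := Subgroup.map_subtype_commutator H
      have h6 : a ∈ (commutator ↥H).map H.subtype := by rw [hmap]; exact hAH ha
      obtain ⟨b, hb, hba⟩ := h6
      have : b = ⟨a, haH⟩ := Subtype.ext hba
      rw [← this]
      exact hb
    obtain ⟨j, hj⟩ := relIndex_pPrimeCore_pPrimePCore (Λ := ↥H) s
    have hn : (pPrimeCore s ↥H).Normal := pPrimeCore_normal s ↥H
    have hn' : ((pPrimeCore s ↥H).subgroupOf (pPrimePCore s ↥H)).Normal := inferInstance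
    have h7 := Subgroup.pow_index_mem ((pPrimeCore s ↥H).subgroupOf (pPrimePCore s ↥H))
      (⟨⟨a, haH⟩, ha2⟩ : ↥(pPrimePCore s ↥H))
    have h8 : ((pPrimeCore s ↥H).subgroupOf (pPrimePCore s ↥H)).index = s ^ j := hj
    rw [h8, Subgroup.mem_subgroupOf] at h7
    have h9 : (⟨a, haH⟩ : ↥H) ^ (s ^ j) ∈ pPrimeCore s ↥H := h7
    obtain ⟨i, hi⟩ := hAp ⟨a, ha⟩
    have hai : (⟨a, haH⟩ : ↥H) ^ (p ^ i) = 1 := by
      apply Subtype.ext
      have := congrArg Subtype.val hi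
      simpa using this
    have hcop : (s ^ j).Coprime (orderOf (⟨a, haH⟩ : ↥H)) := by
      have hdvd : orderOf (⟨a, haH⟩ : ↥H) ∣ p ^ i := orderOf_dvd_of_pow_eq_one hai
      have h10 : (s ^ j).Coprime (p ^ i) :=
        Nat.Coprime.pow _ _ ((Nat.coprime_primes hsP hpP).mpr hsp)
      exact Nat.Coprime.coprime_dvd_right hdvd h10
    obtain ⟨m, hm⟩ := exists_pow_eq_self_of_coprime hcop
    have h11 : (⟨a, haH⟩ : ↥H) ∈ pPrimeCore s ↥H := by
      rw [← hm]
      exact Subgroup.pow_mem _ h9 m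
    exact ⟨⟨a, haH⟩, h11, rfl⟩
  have hcopOY : (Nat.card ↥(pPrimeCoreOf s H)).Coprime (Nat.card ↥Y) := by
    rw [hk]
    exact Nat.Coprime.pow_right k (pPrimeCoreOf_coprime (p := s) H)
  intro a ha
  rw [Subgroup.mem_centralizer_iff]
  intro y hy
  have hyH : y ∈ H := hYH hy
  have hc1 : a * y * a⁻¹ * y⁻¹ ∈ Y := by
    have h1 : a * y * a⁻¹ ∈ Y := (Subgroup.mem_normalizer_iff.mp (hAY ha) y).mp hy
    exact Y.mul_mem h1 (Y.inv_mem hy)
  have hc2 : a * y * a⁻¹ * y⁻¹ ∈ pPrimeCoreOf s H := by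
    have h1 : y * a⁻¹ * y⁻¹ ∈ pPrimeCoreOf s H :=
      (Subgroup.mem_normalizer_iff.mp (le_normalizer_pPrimeCoreOf (p := s) H hyH) a⁻¹).mp
        (Subgroup.inv_mem _ (hAO ha))
    have h2 : a * y * a⁻¹ * y⁻¹ = a * (y * a⁻¹ * y⁻¹) := by group
    rw [h2]
    exact Subgroup.mul_mem _ (hAO ha) h1
  have hc : a * y * a⁻¹ * y⁻¹ = 1 := Cfsg.Agent.Lib.Helper32.Bn.eq_one_of_mem_coprime hcopOY hc2 hc1
  have : a * y = y * a := by
    have h3 : a * y = (a * y * a⁻¹ * y⁻¹) * (y * a) := by group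
    rw [h3, hc, one_mul]
  exact this.symm

end Cfsg.Agent.Lib.Helper88.U95
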