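import Mathlib
import Cfsg.Agent.Lib.Helper18.LSDefs

/-! S2333 (helper18, project LS), piece PSI: a primitive additive character of a finite field;
every additive character is a multiplicative shift of it. -/

set_option autoImplicit false

namespace Cfsg.Agent.Lib.Helper18.LS

open Matrix

universe u

variable {F : Type u} [Field F] {n : ℕ}

-- piece PSI
theorem exists_psi [Fintype F] :
    ∃ ψ : AddChar F ℂ, (∀ φ : AddChar F ℂ, ∃ c : F, ∀ x : F, φ x = ψ (c * x)) ∧
      (∀ d : F, (∀ c : F, ψ (c * d) = 1) → d = 0) := by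
  classical
  obtain ⟨ψ, hψ⟩ : ∃ ψ : AddChar F ℂ, ψ.IsPrimitive :=
    ⟨AddChar.FiniteField.primitiveChar_to_Complex F,
      AddChar.FiniteField.primitiveChar_to_Complex_isPrimitive F⟩
  have hinj : Function.Injective ψ.mulShift := AddChar.to_mulShift_inj_of_isPrimitive hψ
  have hcard : Fintype.card (AddChar F ℂ) = Fintype.card F := AddChar.card_eq
  have hbij : Function.Bijective ψ.mulShift := by
    rw [Fintype.bijective_iff_injective_and_card]
    exact ⟨hinj, hcard.symm⟩
  refine ⟨ψ, ?_, ?_⟩
  · intro φ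
    obtain ⟨c, hc⟩ := hbij.2 φ
    refine ⟨c, fun x => ?_⟩
    rw [← hc, AddChar.mulShift_apply]
  · intro d hd
    by_contra hd0
    apply hψ hd0
    ext c
    rw [AddChar.mulShift_apply, mul_comm]
    simpa using hd c

end Cfsg.Agent.Lib.Helper18.LS
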