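import Mathlib
import Cfsg.Prelude.Def_Classical
import Cfsg.Agent.Lib.Helper18.UEDefs
import Cfsg.Agent.Lib.Helper18.UODefs

/-!
# Project UO (helper18, S2334), piece MULT

Every weight space of the centre of the Heisenberg radical has dimension at least `q`:
the operators `ρ (xs t)`, `t` in the fixed field, commute on the weight space, a common
eigenvector `y₀` has `q` translates `ρ (xs s) y₀` with pairwise distinct eigen-characters.
-/

set_option autoImplicit false

namespace Cfsg.Agent.Lib.Helper18.UE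

open Matrix

universe u

variable {F : Type u} [Field F] {m : ℕ}

private theorem mult_li {V : Type*} [AddCommGroup V] [Module ℂ V] {ι A : Type*}
    (T : A → V →ₗ[ℂ] V) (χ : ι → A → ℂ)
    (hχ : Function.Injective χ) (v : ι → V) (hv : ∀ i, v i ≠ 0)
    (h : ∀ i a, T a (v i) = χ i a • v i) : LinearIndependent ℂ v := by
  classical
  rw [linearIndependent_iff']
  intro s
  induction s using Finset.induction_on with
  | empty =>
    intro g _ i hi
    exact absurd hi (Finset.notMem_empty i)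
  | insert j s hj ih =>
    intro g hg
    rw [Finset.sum_insert hj] at hg
    have key : ∀ i ∈ s, g i = 0 := by
      intro i hi
      have hij : i ≠ j := fun h' => hj (h' ▸ hi)
      obtain ⟨a, ha⟩ : ∃ a, χ i a ≠ χ j a := by
        by_contra hcon
        push Not at hcon
        exact hij (hχ (funext hcon))
      have h1 : ∑ k ∈ s, (g k * (χ k a - χ j a)) • v k = 0 := by
        have h2 := congrArg (T a) hg
        rw [map_add, map_smul, map_sum, map_zero, h j a] at h2
        have h3 : ∑ k ∈ s, (T a) (g k • v k) = ∑ k ∈ s, (g k * χ k a) • v k := by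
          refine Finset.sum_congr rfl fun k _ => ?_
          rw [map_smul, h k a, smul_smul]
        rw [h3] at h2
        have h4 : χ j a • (g j • v j + ∑ k ∈ s, g k • v k) = 0 := by rw [hg, smul_zero]
        rw [smul_add, Finset.smul_sum] at h4
        have h5 : ∑ k ∈ s, (g k * (χ k a - χ j a)) • v k =
            (g j • χ j a • v j + ∑ k ∈ s, (g k * χ k a) • v k) -
              (χ j a • g j • v j + ∑ k ∈ s, χ j a • g k • v k) := by
          rw [add_sub_add_comm, smul_comm (g j) (χ j a) (v j), sub_self, zero_add,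
            ← Finset.sum_sub_distrib]
          refine Finset.sum_congr rfl fun k _ => ?_
          rw [smul_smul, ← sub_smul]
          congr 1
          ring
        rw [h5, h2, h4, sub_zero]
      have h6 := ih (fun k => g k * (χ k a - χ j a)) h1 i hi
      rcases mul_eq_zero.mp h6 with h7 | h7
      · exact h7
      · exact absurd (sub_eq_zero.mp h7) ha
    intro i hi
    rcases Finset.mem_insert.mp hi with h8 | hi'
    · have h1 : ∑ k ∈ s, g k • v k = 0 :=
        Finset.sum_eq_zero fun k hk => by rw [key k hk, zero_smul]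
      rw [h1, add_zero] at hg
      rw [h8]
      exact (smul_eq_zero.mp hg).resolve_right (hv j)
    · exact key i hi'

private theorem mult_comeig {V : Type*} [AddCommGroup V] [Module ℂ V] [FiniteDimensional ℂ V]
    {A : Type*} (T : A → V →ₗ[ℂ] V) (E : Submodule ℂ V) (hE : E ≠ ⊥)
    (hinv : ∀ a, ∀ w ∈ E, T a w ∈ E)
    (hcomm : ∀ a b, ∀ w ∈ E, T a (T b w) = T b (T a w)) :
    ∃ (y : V) (lam : A → ℂ), y ∈ E ∧ y ≠ 0 ∧ ∀ a, T a y = lam a • y := by
  classical
  let S : Set (Submodule ℂ V) := {W | W ≠ ⊥ ∧ W ≤ E ∧ ∀ a, ∀ w ∈ W, T a w ∈ W}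
  have hES : E ∈ S := ⟨hE, le_refl _, hinv⟩
  obtain ⟨W, hWS, hWmin⟩ := (wellFounded_lt (α := Submodule ℂ V)).has_min S ⟨E, hES⟩
  obtain ⟨hWne, hWE, hWinv⟩ := hWS
  have hsc : ∀ a, ∃ μ : ℂ, ∀ w ∈ W, T a w = μ • w := by
    intro a
    have hnt : Nontrivial W := Submodule.nontrivial_iff_ne_bot.mpr hWne
    obtain ⟨μ, hμ⟩ := Module.End.exists_eigenvalue ((T a).restrict (hWinv a))
    obtain ⟨x, hx⟩ := hμ.exists_hasEigenvector
    obtain ⟨Wp, hWp⟩ : ∃ Wp : Submodule ℂ V, Wp = W ⊓ LinearMap.ker (T a - μ • 1) := ⟨_, rfl⟩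
    have hmemWp : ∀ w, w ∈ Wp ↔ w ∈ W ∧ T a w = μ • w := by
      intro w
      rw [hWp, Submodule.mem_inf, LinearMap.mem_ker]
      simp only [LinearMap.sub_apply, LinearMap.smul_apply, Module.End.one_apply, sub_eq_zero]
    have hxW : (x : V) ∈ Wp := by
      rw [hmemWp]
      refine ⟨x.2, ?_⟩
      have h1 := hx.apply_eq_smul
      have h2 := congrArg Subtype.val h1
      simpa only [LinearMap.coe_restrict_apply, Submodule.coe_smul] using h2
    have hWpne : Wp ≠ ⊥ := by
      intro hbot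
      rw [hbot, Submodule.mem_bot] at hxW
      exact hx.2 (Subtype.ext hxW)
    have hWple : Wp ≤ W := fun w hw => ((hmemWp w).mp hw).1
    have hWpS : Wp ∈ S := by
      refine ⟨hWpne, hWple.trans hWE, ?_⟩
      intro b w hw
      rw [hmemWp] at hw ⊢
      refine ⟨hWinv b w hw.1, ?_⟩
      rw [hcomm a b w (hWE hw.1), hw.2, map_smul]
    have heq : Wp = W := by
      by_contra hneq
      exact hWmin Wp hWpS (lt_of_le_of_ne hWple hneq)
    refine ⟨μ, fun w hw => ?_⟩
    rw [← heq] at hw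
    exact ((hmemWp w).mp hw).2
  choose lam hlam using hsc
  obtain ⟨y, hyW, hy0⟩ := Submodule.exists_mem_ne_zero_of_ne_bot hWne
  exact ⟨y, lam, hWE hyW, hy0, fun a => hlam a y hyW⟩

private theorem mult_exists_inj [Fintype F] {q : ℕ} (hF : Fintype.card F = q ^ 2)
    (γ : F → F) (hγ : ∀ s s', γ s = γ s' → (s - s') ^ q = s - s') :
    ∃ s : Fin q → F, Function.Injective (γ ∘ s) := by
  classical
  have hq1 : 1 < q := by
    by_contra h
    have h1 : q ≤ 1 := by omega
    have h2 : q ^ 2 ≤ 1 := by nlinarith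
    have h3 := Fintype.one_lt_card (α := F)
    omega
  have hker : (Finset.univ.filter (fun x : F => x ^ q = x)).card ≤ q := by
    have hne : (Polynomial.X ^ q - Polynomial.X : Polynomial F) ≠ 0 :=
      FiniteField.X_pow_card_sub_X_ne_zero F hq1
    have hdeg : (Polynomial.X ^ q - Polynomial.X : Polynomial F).natDegree = q :=
      FiniteField.X_pow_card_sub_X_natDegree_eq F hq1
    have hsub : Finset.univ.filter (fun x : F => x ^ q = x) ⊆
        (Polynomial.X ^ q - Polynomial.X : Polynomial F).roots.toFinset := by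
      intro x hx
      rw [Finset.mem_filter] at hx
      rw [Multiset.mem_toFinset, Polynomial.mem_roots hne]
      simp [hx.2]
    calc (Finset.univ.filter (fun x : F => x ^ q = x)).card
        ≤ (Polynomial.X ^ q - Polynomial.X : Polynomial F).roots.toFinset.card :=
          Finset.card_le_card hsub
      _ ≤ Multiset.card (Polynomial.X ^ q - Polynomial.X : Polynomial F).roots :=
          Multiset.toFinset_card_le _
      _ ≤ (Polynomial.X ^ q - Polynomial.X : Polynomial F).natDegree :=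
          Polynomial.card_roots' _
      _ = q := hdeg
  have hfib : ∀ c ∈ Finset.univ.image γ,
      (Finset.univ.filter (fun s => γ s = c)).card ≤ q := by
    intro c hc
    obtain ⟨s₀, -, rfl⟩ := Finset.mem_image.mp hc
    refine le_trans (Finset.card_le_card_of_injOn (fun s => s - s₀) ?_ ?_) hker
    · intro s hs
      simp only [Finset.coe_filter, Set.mem_ofPred_eq, Finset.mem_univ, true_and] at hs ⊢
      exact hγ s s₀ hs
    · intro a _ b _ hab
      exact sub_left_injective hab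
  have hcard : q ^ 2 ≤ q * (Finset.univ.image γ).card := by
    rw [← hF, ← Finset.card_univ]
    exact Finset.card_le_mul_card_image _ _ hfib
  have hq : q ≤ (Finset.univ.image γ).card := by nlinarith
  have hq' : Fintype.card (Fin q) ≤ Fintype.card (Finset.univ.image γ : Finset F) := by
    rw [Fintype.card_fin, Fintype.card_coe]
    exact hq
  obtain ⟨e⟩ := Function.Embedding.nonempty_of_card_le hq'
  have hsurj : ∀ j, ∃ s, γ s = (e j : F) := fun j => by
    obtain ⟨s, -, hs⟩ := Finset.mem_image.mp (e j).2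
    exact ⟨s, hs⟩
  choose s hs using hsurj
  refine ⟨s, fun i j hij => ?_⟩
  simp only [Function.comp] at hij
  rw [hs, hs] at hij
  exact e.injective (Subtype.ext hij)

-- piece MULT
theorem weight_mult [Fintype F] {q : ℕ} (hF : Fintype.card F = q ^ 2) (σ : F →+* F)
    (hσ : ∀ x, σ x = x ^ q) (ψ₀ : AddChar F ℂ)
    (hψ : ∀ w : F, w ^ q = w → (∀ t : F, t ^ q = t → ψ₀ (t * w) = 1) → w = 0)
    {G : Type*} [Group G] {k : ℕ} (ρ : Representation ℂ G (Fin k → ℂ))
    (uH : Matrix (Fin m) (Fin m) F → G) (xs : F → G) (K : Matrix (Fin m) (Fin m) F)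
    (κ : F) (hκ0 : κ ≠ 0) (hκ : σ κ = -κ) (C : F → F → Matrix (Fin m) (Fin m) F)
    (hC : ∀ s t : F, IsHerm σ (C s t))
    (hCK : ∀ s t : F, trace (C s t * K) = κ * (s * σ t - t * σ s))
    (hcomm : ∀ (s : F) (H : Matrix (Fin m) (Fin m) F), IsHerm σ H →
      xs s * uH H = uH H * xs s)
    (hrel : ∀ s t : F, xs s * xs t = uH (C s t) * (xs t * xs s))
    (v : Fin k → ℂ) (hv : v ≠ 0)
    (hw : ∀ H : Matrix (Fin m) (Fin m) F, IsHerm σ H →
      ρ (uH H) v = ψ₀ (trace (H * K)) • v) :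
    ∃ w : Fin q → (Fin k → ℂ), LinearIndependent ℂ w ∧
      ∀ (j : Fin q) (H : Matrix (Fin m) (Fin m) F), IsHerm σ H →
        ρ (uH H) (w j) = ψ₀ (trace (H * K)) • w j := by
  classical
  have hσσ : ∀ x : F, σ (σ x) = x := by
    intro x
    rw [hσ, hσ, ← pow_mul, ← sq, ← hF, FiniteField.pow_card]
  obtain ⟨E, hEmem⟩ : ∃ E : Submodule ℂ (Fin k → ℂ), ∀ y, y ∈ E ↔
      ∀ H : Matrix (Fin m) (Fin m) F, IsHerm σ H → ρ (uH H) y = ψ₀ (trace (H * K)) • y :=
    ⟨{ carrier := {y | ∀ H : Matrix (Fin m) (Fin m) F, IsHerm σ H →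
          ρ (uH H) y = ψ₀ (trace (H * K)) • y}
       add_mem' := by
        intro a b ha hb H hH
        rw [map_add, ha H hH, hb H hH, smul_add]
       zero_mem' := by
        intro H hH
        rw [map_zero, smul_zero]
       smul_mem' := by
        intro c a ha H hH
        rw [map_smul, ha H hH, smul_comm] }, fun _ => Iff.rfl⟩
  have hvE : v ∈ E := (hEmem v).mpr hw
  have hEne : E ≠ ⊥ := by
    intro hbot
    rw [hbot, Submodule.mem_bot] at hvE
    exact hv hvE
  have hρmul : ∀ (g h : G) (y : Fin k → ℂ), ρ (g * h) y = ρ g (ρ h y) := by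
    intro g h y
    rw [map_mul]
    rfl
  have hEinv : ∀ (s : F) (y : Fin k → ℂ), y ∈ E → ρ (xs s) y ∈ E := by
    intro s y hy
    rw [hEmem] at hy ⊢
    intro H hH
    rw [← hρmul, ← hcomm s H hH, hρmul, hy H hH, map_smul]
  have hρinj : ∀ (g : G) (y : Fin k → ℂ), ρ g y = 0 → y = 0 := by
    intro g y hy
    have h1 : ρ (g⁻¹ * g) y = ρ g⁻¹ (ρ g y) := hρmul _ _ _
    rw [inv_mul_cancel, map_one, hy, map_zero] at h1
    exact h1
  have hTcomm : ∀ a b : {t : F // t ^ q = t}, ∀ y ∈ E,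
      ρ (xs a.1) (ρ (xs b.1) y) = ρ (xs b.1) (ρ (xs a.1) y) := by
    intro a b y hy
    have h1 : ρ (xs b.1) (ρ (xs a.1) y) ∈ E := hEinv _ _ (hEinv _ _ hy)
    have h2 := (hEmem _).mp h1 (C a.1 b.1) (hC _ _)
    rw [hCK, hσ, hσ, a.2, b.2, mul_comm a.1 b.1, sub_self, mul_zero,
      AddChar.map_zero_eq_one, one_smul] at h2
    rw [← hρmul, hrel a.1 b.1, hρmul, hρmul, h2]
  obtain ⟨y₀, lam, hy₀E, hy₀, hlam⟩ := mult_comeig
    (fun t : {t : F // t ^ q = t} => (ρ (xs t.1) : (Fin k → ℂ) →ₗ[ℂ] (Fin k → ℂ))) E hEne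
    (fun a y hy => hEinv a.1 y hy) hTcomm
  have hlam0 : ∀ a : {t : F // t ^ q = t}, lam a ≠ 0 := by
    intro a h0
    have h1 := hlam a
    rw [h0, zero_smul] at h1
    exact hy₀ (hρinj _ _ h1)
  obtain ⟨γ, hγdef⟩ : ∃ γ : F → F, ∀ s, γ s = κ * (σ s - s) :=
    ⟨fun s => κ * (σ s - s), fun _ => rfl⟩
  have hγfix : ∀ s, (γ s) ^ q = γ s := by
    intro s
    rw [← hσ, hγdef, map_mul, map_sub, hσσ, hκ]
    ring
  obtain ⟨sel, hsel⟩ := mult_exists_inj hF γ (by
    intro s s' h
    rw [hγdef, hγdef] at h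
    have h1 : σ s - s = σ s' - s' := mul_left_cancel₀ hκ0 h
    rw [← hσ, map_sub]
    linear_combination h1)
  refine ⟨fun j => ρ (xs (sel j)) y₀, ?_, fun j H hH =>
    (hEmem _).mp (hEinv _ _ hy₀E) H hH⟩
  have heig : ∀ (j : Fin q) (a : {t : F // t ^ q = t}),
      ρ (xs a.1) (ρ (xs (sel j)) y₀) =
        (lam a * ψ₀ (a.1 * γ (sel j))) • ρ (xs (sel j)) y₀ := by
    intro j a
    have h1 : ρ (xs a.1) y₀ = lam a • y₀ := hlam a
    have h2 := (hEmem _).mp (hEinv (sel j) _ hy₀E) (C a.1 (sel j)) (hC _ _)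
    have h3 : κ * (a.1 * σ (sel j) - sel j * σ a.1) = a.1 * γ (sel j) := by
      rw [hσ a.1, a.2, hγdef]
      ring
    rw [hCK, h3] at h2
    rw [← hρmul, hrel a.1 (sel j), hρmul, hρmul, h1, map_smul, map_smul, h2, smul_smul]
  refine mult_li (fun t : {t : F // t ^ q = t} =>
    (ρ (xs t.1) : (Fin k → ℂ) →ₗ[ℂ] (Fin k → ℂ)))
    (fun j a => lam a * ψ₀ (a.1 * γ (sel j))) ?_ _
    (fun j h0 => hy₀ (hρinj _ _ h0)) heig
  intro i j hij
  by_contra hne
  have hγne : γ (sel i) - γ (sel j) ≠ 0 := fun h => hne (hsel (sub_eq_zero.mp h))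
  have hfixw : (γ (sel i) - γ (sel j)) ^ q = γ (sel i) - γ (sel j) := by
    rw [← hσ, map_sub, hσ, hσ, hγfix, hγfix]
  have h3 : ∀ t : F, t ^ q = t → ψ₀ (t * (γ (sel i) - γ (sel j))) = 1 := by
    intro t ht
    have h4 := congrFun hij ⟨t, ht⟩
    have h5 : ψ₀ (t * γ (sel i)) = ψ₀ (t * γ (sel j)) :=
      mul_left_cancel₀ (hlam0 ⟨t, ht⟩) h4
    rw [mul_sub, sub_eq_add_neg, AddChar.map_add_eq_mul, h5, ← AddChar.map_add_eq_mul,
      add_neg_cancel, AddChar.map_zero_eq_one]
  exact hγne (hψ _ hfixw h3)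

end Cfsg.Agent.Lib.Helper18.UE
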