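import Mathlib
import Cfsg.Prelude.Def_CaseTheorems

set_option autoImplicit false

/-!
# Foundation for S5287 (fusion systems of supersoluble type on metacyclic groups)

Shared definitions for the pieces:

* the matrices `X = !![0, 1; 1, t]`, `Y = !![1, 0; t, -1]` in `GL₂(𝔽_q)`;
* `PrimeT n q t`: `q` is a prime with `q ≡ 2^(n-1) - 1 (mod 2^n)` and `X ^ 2^(n-1) = -1`;
* `SDData n q t`: the structure of `⟨X, Y⟩` (a quasidihedral Sylow 2-subgroup of `GL₂(q)`);
* `C1Stmt q`, `C2Stmt q`: conjugacy of involutions / of square roots of `-1` in `GL₂(q)`;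
* `CycModel p S`, `StarModel S`: finite-group models whose fusion systems on `S` have no
  supersoluble chain.
-/

namespace Cfsg.Agent.Lib.Helper88.SSol

/-- `GL₂(ℤ/q)`. -/
abbrev GL2 (q : ℕ) := Matrix.GeneralLinearGroup (Fin 2) (ZMod q)

/-- The matrix `X = !![0, 1; 1, t]`. -/
def xMat (q : ℕ) (t : ZMod q) : Matrix (Fin 2) (Fin 2) (ZMod q) := !![0, 1; 1, t]

/-- The matrix `Y = !![1, 0; t, -1]`. -/
def yMat (q : ℕ) (t : ZMod q) : Matrix (Fin 2) (Fin 2) (ZMod q) := !![1, 0; t, -1]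

theorem xMat_mul_inv (q : ℕ) (t : ZMod q) : xMat q t * !![-t, 1; 1, 0] = 1 := by
  unfold xMat
  ext i j
  fin_cases i <;> fin_cases j <;> simp [Matrix.mul_apply, Fin.sum_univ_two]

theorem xMat_inv_mul (q : ℕ) (t : ZMod q) : !![-t, 1; 1, 0] * xMat q t = 1 := by
  unfold xMat
  ext i j
  fin_cases i <;> fin_cases j <;> simp [Matrix.mul_apply, Fin.sum_univ_two]

theorem yMat_mul_self (q : ℕ) (t : ZMod q) : yMat q t * yMat q t = 1 := by
  unfold yMat
  ext i j
  fin_cases i <;> fin_cases j <;> simp [Matrix.mul_apply, Fin.sum_univ_two]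

/-- `X` as an element of `GL₂(ℤ/q)`. -/
def xU (q : ℕ) (t : ZMod q) : GL2 q :=
  ⟨xMat q t, !![-t, 1; 1, 0], xMat_mul_inv q t, xMat_inv_mul q t⟩

/-- `Y` as an element of `GL₂(ℤ/q)`. -/
def yU (q : ℕ) (t : ZMod q) : GL2 q :=
  ⟨yMat q t, yMat q t, yMat_mul_self q t, yMat_mul_self q t⟩

@[simp] theorem coe_xU (q : ℕ) (t : ZMod q) :
    ((xU q t : GL2 q) : Matrix (Fin 2) (Fin 2) (ZMod q)) = xMat q t := rfl

@[simp] theorem coe_yU (q : ℕ) (t : ZMod q) :
    ((yU q t : GL2 q) : Matrix (Fin 2) (Fin 2) (ZMod q)) = yMat q t := rfl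

theorem yU_mul_self (q : ℕ) (t : ZMod q) : yU q t * yU q t = 1 :=
  Units.ext (yMat_mul_self q t)

theorem yU_inv (q : ℕ) (t : ZMod q) : (yU q t)⁻¹ = yU q t :=
  inv_eq_of_mul_eq_one_left (yU_mul_self q t)

theorem yMat_mul_xMat (q : ℕ) (t : ZMod q) : yMat q t * xMat q t = !![0, 1; -1, 0] := by
  unfold xMat yMat
  ext i j
  fin_cases i <;> fin_cases j <;> simp [Matrix.mul_apply, Fin.sum_univ_two]

/-- `(Y X)² = -1`. -/
theorem yx_mul_self (q : ℕ) (t : ZMod q) : (yU q t * xU q t) * (yU q t * xU q t) = -1 := by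
  apply Units.ext
  show (yMat q t * xMat q t) * (yMat q t * xMat q t) = -1
  rw [yMat_mul_xMat]
  ext i j
  fin_cases i <;> fin_cases j <;> simp [Matrix.mul_apply, Fin.sum_univ_two]

/-- `Y X Y⁻¹ = -X⁻¹`. -/
theorem yU_conj_xU (q : ℕ) (t : ZMod q) : yU q t * xU q t * (yU q t)⁻¹ = -(xU q t)⁻¹ := by
  rw [yU_inv]
  have h := yx_mul_self q t
  have h2 : yU q t * xU q t * yU q t = -1 * (xU q t)⁻¹ := by
    rw [← h]
    group
  rw [h2, neg_one_mul]

/-- `det X = -1`. -/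
theorem det_xMat (q : ℕ) (t : ZMod q) : (xMat q t).det = -1 := by
  unfold xMat
  simp [Matrix.det_fin_two]

/-- `det Y = -1`. -/
theorem det_yMat (q : ℕ) (t : ZMod q) : (yMat q t).det = -1 := by
  unfold yMat
  simp [Matrix.det_fin_two]

/-- The number-theoretic data: a prime `q ≡ 2^(n-1) - 1 (mod 2^n)` and `t` with
`X ^ 2^(n-1) = -1`. -/
def PrimeT (n q : ℕ) (t : ZMod q) : Prop :=
  q.Prime ∧ q % 2 ^ n = 2 ^ (n - 1) - 1 ∧ xMat q t ^ 2 ^ (n - 1) = -1

/-- The structure of `⟨X, Y⟩` inside `GL₂(q)`: it is a (quasidihedral) subgroup of order `2^(n+1)`,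
the full power of `2` dividing the order of `GL₂(q)`. -/
structure SDData (n q : ℕ) (t : ZMod q) : Prop where
  orderOf_x : orderOf (xU q t) = 2 ^ n
  y_notMem : yU q t ∉ Subgroup.zpowers (xU q t)
  conj : yU q t * xU q t * (yU q t)⁻¹ = xU q t ^ (2 ^ (n - 1) - 1)
  card_closure : Nat.card (Subgroup.closure {xU q t, yU q t}) = 2 ^ (n + 1)
  card_GL : ∃ k : ℕ, Nat.card (GL2 q) = 2 ^ (n + 1) * k ∧ ¬ 2 ∣ k

/-- Any two involutions of `GL₂(q)` other than `-1` are conjugate. -/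
def C1Stmt (q : ℕ) : Prop :=
  ∀ g g' : GL2 q, g * g = 1 → g ≠ 1 → g ≠ -1 → g' * g' = 1 → g' ≠ 1 → g' ≠ -1 →
    ∃ h : GL2 q, h * g * h⁻¹ = g'

/-- Any two elements of `GL₂(q)` with square `-1` are conjugate under an element of
determinant `1`. -/
def C2Stmt (q : ℕ) : Prop :=
  ∀ g g' : GL2 q, g * g = -1 → g' * g' = -1 →
    ∃ h : GL2 q, Matrix.GeneralLinearGroup.det h = 1 ∧ h * g * h⁻¹ = g'

/-- A finite group `G` containing (a copy of) `S` as a Sylow `p`-subgroup in which every element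
of order `p` of `S` is conjugate to an element of `S` outside the subgroup it generates. -/
def CycModel (p : ℕ) (S : Type*) [Group S] : Prop :=
  ∃ (G : Type) (_ : Group G) (_ : Finite G) (ι : S →* G), Function.Injective ι ∧
    (∃ T : Sylow p G, (T : Subgroup G) = ι.range) ∧
    ∀ x : S, orderOf x = p → ∃ y : S, y ∉ Subgroup.zpowers x ∧ ∃ g : G, ι y = g * ι x * g⁻¹

/-- A finite group `G` containing (a copy of) the nonabelian group `S` as a Sylow `2`-subgroup in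
which every noncentral element `s` of `S` has a power conjugate to two noncommuting elements of
`S`. -/
def StarModel (S : Type*) [Group S] : Prop :=
  ∃ (G : Type) (_ : Group G) (_ : Finite G) (ι : S →* G), Function.Injective ι ∧
    (∃ T : Sylow 2 G, (T : Subgroup G) = ι.range) ∧ (∃ a b : S, a * b ≠ b * a) ∧
    ∀ s : S, s ∉ Subgroup.center S → ∃ (k : ℕ) (y₁ y₂ : S) (g₁ g₂ : G),
      ι y₁ = g₁ * ι (s ^ k) * g₁⁻¹ ∧ ι y₂ = g₂ * ι (s ^ k) * g₂⁻¹ ∧ y₁ * y₂ ≠ y₂ * y₁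

end Cfsg.Agent.Lib.Helper88.SSol
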