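import Mathlib
import Cfsg.Agent.Lib.Helper47.S76Defs

/-! S5976 (helper47, project S76), piece QDCENT: the centraliser in `Sp_2m(F)` of an element
acting as multiplication by `ω` on `K^m` is in bijection with `GU_m(K)`. Adapted from
`Helper47/Sp3Cent.lean` (CubeData replaced by QuadData). -/

set_option autoImplicit false

universe u

namespace Cfsg.Agent.Lib.Helper88.S76QDCENT

open Matrix Polynomial Module Cfsg.Agent.Lib.Helper47 Cfsg.Agent.Lib.Helper47.S76

variable {F : Type u} [Field F]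

section Aux

variable {K : Type u} [Fintype F] [Field K] [Fintype K] [Algebra F K] {q : ℕ} {ω : K}
  {τ : K →ₗ[F] F}

lemma qd_add_pow_q (D : QuadData F K q ω τ) (y z : K) : (y + z) ^ q = y ^ q + z ^ q := by
  obtain ⟨σ, hσq, -⟩ := exists_unitary_data K q D.cardK
  rw [← hσq, ← hσq, ← hσq, map_add]

lemma qd_pow_q_pow_q (D : QuadData F K q ω τ) (z : K) : (z ^ q) ^ q = z := by
  obtain ⟨σ, hσq, hσ, -⟩ := exists_unitary_data K q D.cardK
  rw [← hσq, ← hσq, hσ]

lemma qd_two_le_q (D : QuadData F K q ω τ) : 2 ≤ q := by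
  have h : 1 < Fintype.card F := Fintype.one_lt_card
  rw [D.cardF] at h
  omega

lemma qd_q_ne_zero (D : QuadData F K q ω τ) : q ≠ 0 := by
  have := qd_two_le_q D
  omega

lemma qd_finrank_eq (D : QuadData F K q ω τ) : finrank F K = 2 := by
  have h := Module.card_eq_pow_finrank (K := F) (V := K)
  rw [D.cardK, D.cardF] at h
  exact (Nat.pow_right_injective (qd_two_le_q D) h).symm

lemma qd_tau_norm (D : QuadData F K q ω τ) (z : K) : τ (z * z ^ q) = 0 := by
  have h1 : (z * z ^ q) ^ q = z * z ^ q := by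
    rw [mul_pow, qd_pow_q_pow_q D, mul_comm]
  have h2 := D.tau_pow (z * z ^ q)
  rw [h1] at h2
  have h3 : (2 : F) * τ (z * z ^ q) = 0 := by linear_combination h2
  rcases mul_eq_zero.1 h3 with h | h
  · exact absurd h D.two
  · exact h

lemma qd_isSForm (D : QuadData F K q ω τ) (m : ℕ) :
    IsSForm (RingHom.id F) (-1) (cubeForm m q τ) where
  add_left x y z := by
    simp [cubeForm, Cfsg.hermForm, add_mul, Finset.sum_add_distrib]
  smul_left c x y := by
    simp only [cubeForm, Cfsg.hermForm, Pi.smul_apply, smul_mul_assoc, ← Finset.smul_sum,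
      map_smul, smul_eq_mul]
  symm x y := by
    simp only [cubeForm, RingHom.id_apply, neg_one_mul]
    rw [← D.tau_pow]
    congr 1
    simp only [Cfsg.hermForm]
    obtain ⟨σ, hσq, hσ, -⟩ := exists_unitary_data K q D.cardK
    simp only [← hσq, map_sum, map_mul, hσ]
    exact Finset.sum_congr rfl (fun i _ => mul_comm _ _)

lemma qd_nondeg (D : QuadData F K q ω τ) (m : ℕ) : Nondeg (cubeForm m q τ) := by
  classical
  intro u hu
  funext i
  apply D.tau_nd
  intro c
  have h := hu (Pi.single i (c ^ q))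
  simp only [cubeForm, Cfsg.hermForm] at h
  rw [Finset.sum_eq_single i] at h
  · rwa [Pi.single_eq_same, qd_pow_q_pow_q D, mul_comm] at h
  · intro j _ hj
    rw [Pi.single_eq_of_ne hj, zero_pow (qd_q_ne_zero D), mul_zero]
  · intro h
    exact absurd (Finset.mem_univ i) h

lemma qd_alt (D : QuadData F K q ω τ) (m : ℕ) (u : Fin m → K) : cubeForm m q τ u u = 0 := by
  simp only [cubeForm, Cfsg.hermForm, map_sum]
  exact Finset.sum_eq_zero (fun i _ => qd_tau_norm D (u i))

lemma qd_isometry (D : QuadData F K q ω τ) (m : ℕ) (u v : Fin m → K) :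
    cubeForm m q τ (cubeMul F m ω u) (cubeMul F m ω v) = cubeForm m q τ u v := by
  simp only [cubeForm, cubeMul_apply, Cfsg.hermForm, Pi.smul_apply, smul_eq_mul, mul_pow]
  congr 1
  apply Finset.sum_congr rfl
  intro i _
  linear_combination (u i * v i ^ q) * D.norm

lemma qd_finrank_pi (D : QuadData F K q ω τ) (m : ℕ) : finrank F (Fin m → K) = 2 * m := by
  rw [Module.finrank_pi_fintype]
  simp [qd_finrank_eq D, mul_comm]

end Aux

theorem quad_forms {K : Type u} [Fintype F] [Field K] [Fintype K] [Algebra F K] {q : ℕ} {ω : K}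
    {τ : K →ₗ[F] F} (D : QuadData F K q ω τ) (m : ℕ) :
    IsSForm (RingHom.id F) (-1) (cubeForm m q τ) ∧ Nondeg (cubeForm m q τ) ∧
      (∀ u : Fin m → K, cubeForm m q τ u u = 0) ∧
      (∀ u v : Fin m → K, cubeForm m q τ (cubeMul F m ω u) (cubeMul F m ω v) = cubeForm m q τ u v) ∧
      Module.finrank F (Fin m → K) = 2 * m :=
  ⟨qd_isSForm D m, qd_nondeg D m, qd_alt D m, qd_isometry D m, qd_finrank_pi D m⟩

theorem quad_card_centralizer {K : Type u} [Fintype F] [Field K] [Fintype K] [Algebra F K] {q : ℕ}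
    {ω : K} {τ : K →ₗ[F] F} (D : QuadData F K q ω τ) {m : ℕ}
    (φ : (Fin m ⊕ Fin m → F) ≃ₗ[F] (Fin m → K)) (x : Matrix.symplecticGroup (Fin m) F)
    (hφg : ∀ v, φ ((x : Matrix (Fin m ⊕ Fin m) (Fin m ⊕ Fin m) F) *ᵥ v) = ω • φ v)
    (hφB : ∀ v w, cubeForm m q τ (φ v) (φ w) = spForm (Fin m) F v w) :
    Nat.card (Subgroup.centralizer ({x} : Set (Matrix.symplecticGroup (Fin m) F)))
      = Nat.card (Cfsg.GU m K q) := by
  classical
  have hsp : ∀ P : Matrix (Fin m) (Fin m) K,
      (∀ u v, Cfsg.hermForm m K q (P *ᵥ u) (P *ᵥ v) = Cfsg.hermForm m K q u v) →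
      cubeMat φ P ∈ Matrix.symplecticGroup (Fin m) F := by
    intro P hP
    apply mem_sp_of_isometry
    intro v w
    rw [cubeMat_mulVec, cubeMat_mulVec, ← hφB, LinearEquiv.apply_symm_apply,
      LinearEquiv.apply_symm_apply, cubeForm, hP, ← hφB]
    rfl
  have hcomm : ∀ P : Matrix (Fin m) (Fin m) K,
      (x : Matrix (Fin m ⊕ Fin m) (Fin m ⊕ Fin m) F) * cubeMat φ P
        = cubeMat φ P * (x : Matrix (Fin m ⊕ Fin m) (Fin m ⊕ Fin m) F) := by
    intro P
    apply Matrix.toLin'.injective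
    apply LinearMap.ext
    intro v
    rw [Matrix.toLin'_mul, Matrix.toLin'_mul, LinearMap.comp_apply, LinearMap.comp_apply,
      Matrix.toLin'_apply, Matrix.toLin'_apply, Matrix.toLin'_apply, Matrix.toLin'_apply,
      cubeMat_mulVec, cubeMat_mulVec]
    apply φ.injective
    rw [hφg, LinearEquiv.apply_symm_apply, LinearEquiv.apply_symm_apply, hφg, Matrix.mulVec_smul]
  symm
  apply Nat.card_congr
  refine Equiv.ofBijective (fun P => ⟨⟨cubeMat φ ((P : GL (Fin m) K) : Matrix (Fin m) (Fin m) K),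
    hsp _ ((Cfsg.Agent.Lib.Helper7.mem_GU_iff _).mp P.2)⟩, ?_⟩) ⟨?_, ?_⟩
  · rw [Subgroup.mem_centralizer_iff]
    intro h hh
    rw [Set.mem_singleton_iff] at hh
    subst hh
    apply Subtype.ext
    rw [Submonoid.coe_mul, Submonoid.coe_mul]
    exact hcomm _
  · intro P P' hPP
    have h1 : cubeMat φ ((P : GL (Fin m) K) : Matrix (Fin m) (Fin m) K)
        = cubeMat φ ((P' : GL (Fin m) K) : Matrix (Fin m) (Fin m) K) :=
      congrArg (fun z : Subgroup.centralizer ({x} : Set (Matrix.symplecticGroup (Fin m) F)) =>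
        ((z : Matrix.symplecticGroup (Fin m) F) : Matrix (Fin m ⊕ Fin m) (Fin m ⊕ Fin m) F)) hPP
    apply Subtype.ext
    apply Units.ext
    apply Matrix.toLin'.injective
    apply LinearMap.ext
    intro u
    have h2 := congrArg (fun M => φ (M *ᵥ φ.symm u)) h1
    simp only [cubeMat_mulVec, LinearEquiv.apply_symm_apply] at h2
    rw [Matrix.toLin'_apply, Matrix.toLin'_apply]
    exact h2
  · rintro ⟨⟨A, hA⟩, hAc⟩
    have hAx : (x : Matrix (Fin m ⊕ Fin m) (Fin m ⊕ Fin m) F) * A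
        = A * (x : Matrix (Fin m ⊕ Fin m) (Fin m ⊕ Fin m) F) := by
      have h1 := (Subgroup.mem_centralizer_iff.mp hAc) x (Set.mem_singleton x)
      have h2 := congrArg (fun z : Matrix.symplecticGroup (Fin m) F =>
        (z : Matrix (Fin m ⊕ Fin m) (Fin m ⊕ Fin m) F)) h1
      simpa only [Submonoid.coe_mul] using h2
    obtain ⟨T₀, hT₀⟩ : ∃ T₀ : Module.End F (Fin m → K), ∀ u, T₀ u = φ (A *ᵥ φ.symm u) :=
      ⟨φ.toLinearMap ∘ₗ Matrix.toLin' A ∘ₗ φ.symm.toLinearMap, fun u => rfl⟩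
    have hsymm : ∀ u, φ.symm (ω • u)
        = (x : Matrix (Fin m ⊕ Fin m) (Fin m ⊕ Fin m) F) *ᵥ φ.symm u := by
      intro u
      apply φ.injective
      rw [hφg, LinearEquiv.apply_symm_apply, LinearEquiv.apply_symm_apply]
    have hT₀ω : ∀ u, T₀ (ω • u) = ω • T₀ u := by
      intro u
      rw [hT₀, hT₀, hsymm, Matrix.mulVec_mulVec, ← hAx, ← Matrix.mulVec_mulVec, hφg]
    have hT₀iso : ∀ u v, cubeForm m q τ (T₀ u) (T₀ v) = cubeForm m q τ u v := by
      intro u v
      rw [hT₀, hT₀, hφB]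
      have h1 := spForm_isometry hA (φ.symm u) (φ.symm v)
      rw [Matrix.toLin'_apply, Matrix.toLin'_apply] at h1
      rw [h1, ← hφB, LinearEquiv.apply_symm_apply, LinearEquiv.apply_symm_apply]
    obtain ⟨T₁, hT₁⟩ : ∃ T₁ : (Fin m → K) →ₗ[K] (Fin m → K), ∀ u, T₁ u = T₀ u := by
      refine ⟨{ toFun := T₀, map_add' := T₀.map_add, map_smul' := ?_ }, fun u => rfl⟩
      intro z u
      obtain ⟨a, b, rfl⟩ := D.rep z
      simp only [RingHom.id_apply]
      rw [add_smul, mul_smul, algebraMap_smul, algebraMap_smul, map_add, map_smul, map_smul,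
        hT₀ω, add_smul, mul_smul, algebraMap_smul, algebraMap_smul]
    obtain ⟨P, hP⟩ : ∃ P : Matrix (Fin m) (Fin m) K, ∀ u, P *ᵥ u = T₀ u := by
      refine ⟨LinearMap.toMatrix' T₁, fun u => ?_⟩
      rw [← Matrix.toLin'_apply, Matrix.toLin'_toMatrix', hT₁]
    have hPherm : ∀ u v, Cfsg.hermForm m K q (P *ᵥ u) (P *ᵥ v) = Cfsg.hermForm m K q u v := by
      intro u v
      rw [← sub_eq_zero]
      apply D.tau_nd
      intro c
      rw [mul_sub, ← Cfsg.Agent.Lib.Helper7.hf_smul_left, ← Cfsg.Agent.Lib.Helper7.hf_smul_left,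
        ← Matrix.mulVec_smul, map_sub, sub_eq_zero, hP, hP]
      exact hT₀iso (c • u) v
    have hPinj : Function.Injective P.mulVec := by
      have key : ∀ u, P *ᵥ u = 0 → u = 0 := by
        intro u hu
        apply qd_nondeg D m u
        intro v
        rw [← hT₀iso u v, ← hP u, hu, (qd_isSForm D m).zero_left]
      intro u u' h
      have h1 : P *ᵥ (u - u') = 0 := by
        rw [Matrix.mulVec_sub]
        exact sub_eq_zero.mpr h
      exact sub_eq_zero.mp (key _ h1)
    obtain ⟨Pu, hPu⟩ := Matrix.mulVec_injective_iff_isUnit.mp hPinj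
    refine ⟨⟨Pu, (Cfsg.Agent.Lib.Helper7.mem_GU_iff Pu).mpr (by rw [hPu]; exact hPherm)⟩, ?_⟩
    apply Subtype.ext
    apply Subtype.ext
    show cubeMat φ ((Pu : GL (Fin m) K) : Matrix (Fin m) (Fin m) K) = A
    rw [hPu]
    apply Matrix.toLin'.injective
    apply LinearMap.ext
    intro v
    rw [Matrix.toLin'_apply, Matrix.toLin'_apply, cubeMat_mulVec, hP, hT₀,
      LinearEquiv.symm_apply_apply, LinearEquiv.symm_apply_apply]

end Cfsg.Agent.Lib.Helper88.S76QDCENT
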