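import Mathlib
import Cfsg.Agent.Lib.Helper48.QADefs

/-!
# Project QA (helper48, S2787), piece QA-BCENT (helper88)

In `SL₂(F)`, an element commuting with a non-scalar `c` is of the form `a + b c`.
-/

set_option autoImplicit false

universe u

namespace Cfsg.Agent.Lib.Helper48.QA

open Matrix Polynomial

local notation "SL2" F => Matrix.SpecialLinearGroup (Fin 2) F
local notation "PSL2" F => Matrix.ProjectiveSpecialLinearGroup (Fin 2) F
local notation "M2" F => Matrix (Fin 2) (Fin 2) F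

/-- a `2 × 2` matrix is `a + b C` as soon as its four entries are -/
theorem BCENT_key {F : Type*} [Field F] (G C : M2 F) (a b : F)
    (h1 : G 0 0 = a + b * C 0 0) (h2 : G 0 1 = b * C 0 1) (h3 : G 1 0 = b * C 1 0)
    (h4 : G 1 1 = a + b * C 1 1) : G = a • (1 : M2 F) + b • C := by
  ext i j
  fin_cases i <;> fin_cases j <;> simp [Matrix.one_apply, h1, h2, h3, h4]

/-- QA-BCENT -/
theorem cent_form {F : Type*} [Field F] (c g : SL2 F)
    (hc : ¬ ∃ a : F, (c : M2 F) = a • (1 : M2 F)) (hg : g * c = c * g) :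
    ∃ a b : F, (g : M2 F) = a • (1 : M2 F) + b • (c : M2 F) := by
  have hm : (g : M2 F) * (c : M2 F) = (c : M2 F) * (g : M2 F) := by
    rw [← Matrix.SpecialLinearGroup.coe_mul, ← Matrix.SpecialLinearGroup.coe_mul, hg]
  obtain ⟨C, hC⟩ : ∃ C : M2 F, C = (c : M2 F) := ⟨_, rfl⟩
  obtain ⟨G, hG⟩ : ∃ G : M2 F, G = (g : M2 F) := ⟨_, rfl⟩
  rw [← hC, ← hG] at hm
  rw [← hC] at hc
  rw [← hC, ← hG]
  have e11 := congrFun (congrFun hm 0) 0
  have e12 := congrFun (congrFun hm 0) 1
  have e21 := congrFun (congrFun hm 1) 0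
  simp only [Matrix.mul_apply, Fin.sum_univ_two] at e11 e12 e21
  by_cases h12 : C 0 1 = 0
  · by_cases h21 : C 1 0 = 0
    · have hne : C 0 0 - C 1 1 ≠ 0 := by
        intro h
        apply hc
        have h' : C 1 1 = C 0 0 := (sub_eq_zero.mp h).symm
        refine ⟨C 0 0, ?_⟩
        have hk := BCENT_key C C (C 0 0) 0 (by ring) (by rw [h12]; ring) (by rw [h21]; ring)
          (by rw [h']; ring)
        rw [hk]
        simp
      obtain ⟨b, hb⟩ : ∃ b : F, b * (C 0 0 - C 1 1) = G 0 0 - G 1 1 :=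
        ⟨(G 0 0 - G 1 1) / (C 0 0 - C 1 1), div_mul_cancel₀ _ hne⟩
      refine ⟨G 0 0 - b * C 0 0, b, BCENT_key G C _ b (by ring) ?_ ?_ ?_⟩
      · rw [h12, mul_zero]
        have h5 : G 0 1 * (C 0 0 - C 1 1) = 0 := by
          linear_combination -e12 + (G 0 0 - G 1 1) * h12
        rcases mul_eq_zero.mp h5 with h6 | h6
        · exact h6
        · exact absurd h6 hne
      · rw [h21, mul_zero]
        have h5 : G 1 0 * (C 0 0 - C 1 1) = 0 := by
          linear_combination e21 + (G 0 0 - G 1 1) * h21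
        rcases mul_eq_zero.mp h5 with h6 | h6
        · exact h6
        · exact absurd h6 hne
      · linear_combination hb
    · obtain ⟨b, hb⟩ : ∃ b : F, b * C 1 0 = G 1 0 := ⟨G 1 0 / C 1 0, div_mul_cancel₀ _ h21⟩
      refine ⟨G 0 0 - b * C 0 0, b, BCENT_key G C _ b (by ring) ?_ hb.symm ?_⟩
      · exact mul_right_cancel₀ h21 (by linear_combination e11 - C 0 1 * hb)
      · exact mul_right_cancel₀ h21 (by linear_combination e21 + (C 0 0 - C 1 1) * hb)
  · obtain ⟨b, hb⟩ : ∃ b : F, b * C 0 1 = G 0 1 := ⟨G 0 1 / C 0 1, div_mul_cancel₀ _ h12⟩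
    refine ⟨G 0 0 - b * C 0 0, b, BCENT_key G C _ b (by ring) hb.symm ?_ ?_⟩
    · exact mul_right_cancel₀ h12 (by linear_combination -e11 - C 1 0 * hb)
    · exact mul_right_cancel₀ h12 (by linear_combination -e12 + (C 0 0 - C 1 1) * hb)

end Cfsg.Agent.Lib.Helper48.QA
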