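import Mathlib
import Cfsg.Agent.Lib.Helper49.Sp4Base

set_option autoImplicit false

namespace Cfsg.Agent.Lib.Helper88.Sp4T

open Cfsg.Agent.Lib.Helper49.Sp4T

variable {F : Type*} [Field F] {V : Type*} [AddCommGroup V] [Module F V]
  (ω : LinearMap.BilinForm F V) (g : V ≃ₗ[F] V)

/-- PIECE D3 -/
theorem tame_D3 (hω : Symp ω) (hg : Isom ω g) (a : F) (ha : a * a = 1)
    (hD : ∀ v, hh g v = (a + a) • v) (hga : ∃ v, g v ≠ a • v) : TameE ω g a := by
  classical
  have hfin : Module.Finite F V := Module.finite_of_finrank_pos (by rw [hω.dim]; norm_num)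
  -- the map `M = a (g - a)`
  have hiso : ∀ x y : V, ω (a • g x - x) (a • g y - y) = 0 := by
    intro x y
    have h1 := hg.hh_left x y
    rw [hD, map_smul, LinearMap.smul_apply, smul_eq_mul] at h1
    have h2 := hg x y
    simp only [map_sub, map_smul, LinearMap.sub_apply, LinearMap.smul_apply, smul_eq_mul]
    linear_combination (a * a) * h2 + a * h1 - (ω x y) * ha
  have hinv : ∀ z : V, a • g z = z → g z = a • z := by
    intro z h
    calc g z = (a * a) • g z := by rw [ha, one_smul]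
      _ = a • (a • g z) := by rw [mul_smul]
      _ = a • z := by rw [h]
  -- the final step
  have key : ∀ v1 v2 : V, LinearIndependent F ![v1, v2] → ω v1 v2 = 0 →
      (∀ (α β : F) (x : V), α • v1 + β • v2 = a • g x - x → α • v1 + β • v2 = 0) →
      TameE ω g a := by
    intro v1 v2 hind h12 hint
    refine ⟨v1, v2, hind, h12, ?_, ?_⟩
    · rw [← hg.hh_left, hD, map_smul, LinearMap.smul_apply, h12, smul_zero]
    · intro α β hmem
      obtain ⟨α', β', hαβ⟩ := Submodule.mem_span_pair.mp hmem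
      have h1 : (a * α' - α) • v1 + (a * β' - β) • v2
          = a • g (α • v1 + β • v2) - (α • v1 + β • v2) := by
        rw [← hαβ]
        module
      have h2 := hint _ _ _ h1
      rw [h1] at h2
      exact hinv _ (sub_eq_zero.mp h2)
  obtain ⟨x0, hx0⟩ := hga
  have hk1' : a • g x0 - x0 ≠ 0 := fun h => hx0 (hinv _ (sub_eq_zero.mp h))
  obtain ⟨k1, hk1, hk1M, hMk1⟩ : ∃ k1 : V, k1 ≠ 0 ∧ (∀ x, ω k1 (a • g x - x) = 0) ∧
      (∀ x, ω (a • g x - x) k1 = 0) :=
    ⟨a • g x0 - x0, hk1', fun x => hiso x0 x, fun x => hiso x x0⟩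
  obtain ⟨l1, hk1l1⟩ : ∃ l1 : V, ω k1 l1 = 1 := by
    obtain ⟨l1', hl1'⟩ : ∃ y, ω k1 y ≠ 0 := by
      by_contra hcon
      push Not at hcon
      exact hk1 (hω.nondeg _ hcon)
    refine ⟨(ω k1 l1')⁻¹ • l1', ?_⟩
    rw [map_smul, smul_eq_mul, inv_mul_cancel₀ hl1']
  have hl1k1 : ω l1 k1 = -1 := by rw [hω.swap, hk1l1]
  by_cases hA : ∃ x1 : V, a • g x1 - x1 ≠ 0 ∧ ω (a • g x1 - x1) l1 = 0
  · -- the image of `M` has a second direction
    obtain ⟨x1, hk2', hk2l1'⟩ := hA
    obtain ⟨k2, hk2, hk2l1, hk2M, hk2k1⟩ : ∃ k2 : V, k2 ≠ 0 ∧ ω k2 l1 = 0 ∧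
        (∀ x, ω k2 (a • g x - x) = 0) ∧ ω k2 k1 = 0 :=
      ⟨a • g x1 - x1, hk2', hk2l1', fun x => hiso x1 x, hMk1 x1⟩
    obtain ⟨y, hy⟩ : ∃ y, ω k2 y ≠ 0 := by
      by_contra hcon
      push Not at hcon
      exact hk2 (hω.nondeg _ hcon)
    obtain ⟨l2, hk1l2, hl1l2, hk2l2⟩ : ∃ l2 : V, ω k1 l2 = 0 ∧ ω l1 l2 = 0 ∧ ω k2 l2 = 1 := by
      refine ⟨(ω k2 y)⁻¹ • (y + (ω l1 y) • k1 - (ω k1 y) • l1), ?_, ?_, ?_⟩
      · rw [map_smul, map_sub, map_add, map_smul, map_smul, hω.alt k1, hk1l1]
        simp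
      · rw [map_smul, map_sub, map_add, map_smul, map_smul, hω.alt l1, hl1k1]
        simp
      · rw [map_smul, map_sub, map_add, map_smul, map_smul, hk2k1, hk2l1]
        simp only [smul_eq_mul, mul_zero, add_zero, sub_zero]
        exact inv_mul_cancel₀ hy
    have hcoef : ∀ α β : F, ω k1 (α • l1 + β • l2) = α ∧ ω k2 (α • l1 + β • l2) = β := by
      intro α β
      constructor
      · rw [map_add, map_smul, map_smul, hk1l1, hk1l2]; simp
      · rw [map_add, map_smul, map_smul, hk2l1, hk2l2]; simp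
    apply key l1 l2
    · rw [LinearIndependent.pair_iff]
      intro s t hst
      have h4 := hcoef s t
      rw [hst, map_zero, map_zero] at h4
      exact ⟨h4.1.symm, h4.2.symm⟩
    · exact hl1l2
    · intro α β x hx
      have h4 := hcoef α β
      rw [hx] at h4
      have h5 : α = 0 := by rw [← h4.1]; exact hk1M x
      have h6 : β = 0 := by rw [← h4.2]; exact hk2M x
      rw [h5, h6]; simp
  · -- the image of `M` is the line through `k1`
    push Not at hA
    have hB : ∀ x : V, ω (a • g x - x) l1 = 0 → a • g x - x = 0 := by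
      intro x hx
      by_contra hne
      exact hA x hne hx
    have hex : ∃ y, y ∉ Submodule.span F ({k1, l1} : Set V) := by
      by_contra hcon
      push Not at hcon
      have htop : Submodule.span F ({k1, l1} : Set V) = ⊤ := eq_top_iff.mpr (fun y _ => hcon y)
      have h1 : Module.finrank F (Submodule.span F ({k1, l1} : Set V)) ≤ 2 := by
        have h3 := finrank_span_finset_le_card (R := F) ({k1, l1} : Finset V)
        have h2 : (({k1, l1} : Finset V) : Set V) = {k1, l1} := by simp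
        rw [Set.finrank, h2] at h3
        exact h3.trans Finset.card_le_two
      rw [htop, finrank_top, hω.dim] at h1
      omega
    obtain ⟨y, hy⟩ := hex
    obtain ⟨l2, hl1l2, hl2⟩ : ∃ l2 : V, ω l1 l2 = 0 ∧ ∀ s t : F, s • l1 + t • l2 = 0 → t = 0 := by
      refine ⟨y + (ω l1 y) • k1, ?_, ?_⟩
      · rw [map_add, map_smul, hl1k1]; simp
      · intro s t hst
        by_contra ht
        apply hy
        rw [Submodule.mem_span_pair]
        refine ⟨-(ω l1 y), -(t⁻¹ * s), ?_⟩
        apply smul_right_injective V ht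
        show t • (-(ω l1 y) • k1 + -(t⁻¹ * s) • l1) = t • y
        have e1 : t • y = -(s • l1) - (t * ω l1 y) • k1 := by
          rw [smul_add, smul_smul] at hst
          rw [eq_sub_iff_add_eq, eq_neg_iff_add_eq_zero]
          rw [← hst]; abel
        rw [e1, smul_add, smul_smul, smul_smul]
        have e2 : t * -(t⁻¹ * s) = -s := by field_simp
        rw [e2]
        module
    have hl2l1 : ω l2 l1 = 0 := by rw [hω.swap, hl1l2, neg_zero]
    apply key l1 l2
    · rw [LinearIndependent.pair_iff]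
      intro s t hst
      have ht : t = 0 := hl2 s t hst
      refine ⟨?_, ht⟩
      rw [ht, zero_smul, add_zero] at hst
      have h4 : ω k1 (s • l1) = 0 := by rw [hst, map_zero]
      rw [map_smul, hk1l1, smul_eq_mul, mul_one] at h4
      exact h4
    · exact hl1l2
    · intro α β x hx
      rw [hx]
      apply hB
      rw [← hx, map_add, map_smul, map_smul, LinearMap.add_apply, LinearMap.smul_apply,
        LinearMap.smul_apply, hω.alt l1, hl2l1]
      simp

end Cfsg.Agent.Lib.Helper88.Sp4T
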