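import Mathlib
import Cfsg.Agent.Lib.Helper49.Sp4Base

set_option autoImplicit false

namespace Cfsg.Agent.Lib.Helper88.Sp4T

open Cfsg.Agent.Lib.Helper49.Sp4T

variable {F : Type*} [Field F] {V : Type*} [AddCommGroup V] [Module F V]
  (ω : LinearMap.BilinForm F V) (g : V ≃ₗ[F] V)

/-- PIECE INVA -/
theorem invol_frame (hω : Symp ω) (hg : Isom ω g) (h2 : (2 : F) ≠ 0)
    (hgg : ∀ v, g (g v) = v) (hg1 : ∃ v, g v ≠ v) (hg2 : ∃ v, g v ≠ -v) :
    ∃ e1 e2 f1 f2 : V, Frame ω e1 e2 f1 f2 ∧ g e1 = -e1 ∧ g f1 = -f1 ∧ g e2 = e2 ∧ g f2 = f2 := by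
  -- the two eigenspaces are orthogonal
  have hperp : ∀ x y : V, g x = x → g y = -y → ω x y = 0 := by
    intro x y hx hy
    have h := hg x y
    rw [hx, hy, map_neg] at h
    have h' : (2 : F) * ω x y = 0 := by linear_combination -h
    exact (mul_eq_zero.mp h').resolve_left h2
  have hperp' : ∀ x y : V, g x = x → g y = -y → ω y x = 0 := by
    intro x y hx hy
    rw [hω.swap, hperp x y hx hy, neg_zero]
  have hminus : ∀ y : V, g (y - g y) = -(y - g y) := by
    intro y
    rw [map_sub, hgg]; abel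
  have hplus : ∀ y : V, g (y + g y) = y + g y := by
    intro y
    rw [map_add, hgg]; abel
  obtain ⟨x, hx⟩ := hg1
  obtain ⟨x', hx'⟩ := hg2
  -- e1, f1 in the (-1)-eigenspace
  have he1 : x - g x ≠ 0 := fun h => hx (sub_eq_zero.mp h).symm
  have hex1 : ∃ y, ω (x - g x) y ≠ 0 := by
    by_contra hcon
    push Not at hcon
    exact he1 (hω.nondeg _ hcon)
  obtain ⟨y, hy⟩ := hex1
  have hy2 : ω (y - g y) (x - g x) ≠ 0 := by
    have h1 : ω (y + g y) (x - g x) = 0 := hperp _ _ (hplus y) (hminus x)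
    have h3 : ω (y - g y) (x - g x) = 2 * ω y (x - g x) := by
      have e : ω (y - g y) (x - g x) = 2 * ω y (x - g x) - ω (y + g y) (x - g x) := by
        generalize x - g x = z
        simp only [map_sub, map_add, LinearMap.sub_apply, LinearMap.add_apply]
        ring
      rw [e, h1, sub_zero]
    rw [h3, hω.swap]
    exact mul_ne_zero h2 (neg_ne_zero.mpr hy)
  -- e2, f2 in the (+1)-eigenspace
  have he2 : x' + g x' ≠ 0 := fun h => hx' (by
    have : g x' = -x' := by
      rw [eq_neg_iff_add_eq_zero, add_comm]; exact h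
    exact this)
  have hex2 : ∃ y, ω (x' + g x') y ≠ 0 := by
    by_contra hcon
    push Not at hcon
    exact he2 (hω.nondeg _ hcon)
  obtain ⟨y', hy'⟩ := hex2
  have hy'2 : ω (y' + g y') (x' + g x') ≠ 0 := by
    have h1 : ω (y' - g y') (x' + g x') = 0 := hperp' _ _ (hplus x') (hminus y')
    have h3 : ω (y' + g y') (x' + g x') = 2 * ω y' (x' + g x') := by
      have e : ω (y' + g y') (x' + g x') = 2 * ω y' (x' + g x') - ω (y' - g y') (x' + g x') := by
        generalize x' + g x' = z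
        simp only [map_sub, map_add, LinearMap.sub_apply, LinearMap.add_apply]
        ring
      rw [e, h1, sub_zero]
    rw [h3, hω.swap]
    exact mul_ne_zero h2 (neg_ne_zero.mpr hy')
  set e1 : V := x - g x with he1d
  set e2 : V := x' + g x' with he2d
  set c1 : F := (ω (y - g y) e1)⁻¹ with hc1
  set c2 : F := (ω (y' + g y') e2)⁻¹ with hc2
  have hge1 : g e1 = -e1 := hminus x
  have hge2 : g e2 = e2 := hplus x'
  have hgf1 : g (c1 • (y - g y)) = -(c1 • (y - g y)) := by
    rw [map_smul, hminus y, smul_neg]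
  have hgf2 : g (c2 • (y' + g y')) = c2 • (y' + g y') := by
    rw [map_smul, hplus y']
  refine ⟨e1, e2, c1 • (y - g y), c2 • (y' + g y'), ⟨?_, ?_, ?_, ?_, ?_, ?_⟩, hge1, hgf1, hge2, hgf2⟩
  · exact hperp' e2 e1 hge2 hge1
  · exact hperp' _ _ hgf2 hgf1
  · rw [map_smul, LinearMap.smul_apply, smul_eq_mul, hc1]
    exact inv_mul_cancel₀ hy2
  · rw [map_smul, LinearMap.smul_apply, smul_eq_mul, hc2]
    exact inv_mul_cancel₀ hy'2
  · exact hperp' _ _ hge2 hgf1
  · exact hperp _ _ hgf2 hge1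

end Cfsg.Agent.Lib.Helper88.Sp4T
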