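import Mathlib
import Cfsg.Agent.Lib.Helper49.Sp4Base

set_option autoImplicit false

namespace Cfsg.Agent.Lib.Helper88.Sp4T

open Cfsg.Agent.Lib.Helper49.Sp4T

variable {F : Type*} [Field F]

theorem comp_sq_zero (ν : F) : comp (0 : F) (-ν) ^ 2 = ν • (1 : M2 F) := by
  rw [pow_two]
  ext i j
  fin_cases i <;> fin_cases j <;>
    simp [comp, Matrix.mul_apply, Fin.sum_univ_two]

theorem comp_pow8_three (h3 : (3 : F) = 0) : comp (1 : F) (-1) ^ 8 = 1 := by
  have hM2 : comp (1 : F) (-1) ^ 2 = !![1, 1; 1, 2] := by
    rw [pow_two]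
    ext i j
    fin_cases i <;> fin_cases j <;>
      simp [comp, Matrix.mul_apply, Fin.sum_univ_two] <;> ring
  have hM4 : comp (1 : F) (-1) ^ 4 = !![2, 0; 0, 2] := by
    have : comp (1 : F) (-1) ^ 4 = comp (1 : F) (-1) ^ 2 * comp (1 : F) (-1) ^ 2 := by
      rw [← pow_add]
    rw [this, hM2]
    ext i j
    fin_cases i <;> fin_cases j <;>
      simp [Matrix.mul_apply, Fin.sum_univ_two] <;>
      first | ring1 | linear_combination h3
  have hM8 : comp (1 : F) (-1) ^ 8 = comp (1 : F) (-1) ^ 4 * comp (1 : F) (-1) ^ 4 := by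
    rw [← pow_add]
  rw [hM8, hM4]
  ext i j
  fin_cases i <;> fin_cases j <;>
    simp [Matrix.mul_apply, Fin.sum_univ_two] <;>
      first | ring1 | linear_combination h3

/-- PIECE PARAM -/
theorem exists_param_odd [Fintype F] (p : ℕ) [Fact p.Prime] [CharP F p] (hp : p ≠ 2) :
    ∃ s n : F, n ≠ 0 ∧ n ≠ 1 ∧ 1 + n ≠ s ∧ 1 + n ≠ -s ∧
      (∃ N : ℕ, ¬ p ∣ N ∧ comp s n ^ N = 1) ∧
      ∃ a c : F, a * a - s * a + c * c + s * c + n = 0 := by
  classical
  have hpp : p.Prime := Fact.out
  have hchar : ringChar F ≠ 2 := by rw [ringChar.eq F p]; exact hp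
  have h2 : (2 : F) ≠ 0 := Ring.two_ne_zero hchar
  obtain ⟨k, -, hcard⟩ := FiniteField.card F p
  have hk : 0 < (k : ℕ) := k.pos
  by_cases hc3 : Fintype.card F = 3
  · -- the field with three elements
    have hp3 : p = 3 := by
      have hdvd : p ∣ 3 := by
        rw [← hc3, hcard]; exact dvd_pow_self p hk.ne'
      exact (Nat.prime_dvd_prime_iff_eq hpp Nat.prime_three).mp hdvd
    have h3 : (3 : F) = 0 := by
      have := CharP.cast_eq_zero F p
      rw [hp3] at this
      exact_mod_cast this
    refine ⟨1, -1, neg_ne_zero.mpr one_ne_zero, ?_, ?_, ?_, ⟨8, ?_, comp_pow8_three h3⟩, 2, 1, ?_⟩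
    · intro h
      apply h2
      linear_combination -h
    · intro h
      apply one_ne_zero (α := F)
      linear_combination -h
    · intro h
      apply one_ne_zero (α := F)
      linear_combination h
    · rw [hp3]; norm_num
    · linear_combination h3
  · -- at least five elements
    have hodd : Odd (Fintype.card F) := by
      rw [hcard]
      exact (hpp.odd_of_ne_two hp).pow
    have hge3 : 3 ≤ Fintype.card F := by
      rw [hcard]
      have hp3 : 3 ≤ p := by
        have := hpp.two_le
        omega
      calc 3 ≤ p := hp3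
        _ = p ^ 1 := (pow_one p).symm
        _ ≤ p ^ (k : ℕ) := Nat.pow_le_pow_right hpp.pos hk
    have hge5 : 5 ≤ Fintype.card F := by
      rcases hodd with ⟨t, ht⟩
      omega
    -- a nonsquare different from `-1`
    have hν : ∃ ν : F, ¬ IsSquare ν ∧ ν ≠ -1 := by
      obtain ⟨ν0, hν0⟩ := FiniteField.exists_nonsquare (F := F) hchar
      by_cases hm : ν0 = -1
      · have hex : ∃ c : F, c ∉ ({0, 1, -1} : Finset F) := by
          by_contra hcon
          push Not at hcon
          have hsub : (Finset.univ : Finset F) ⊆ {0, 1, -1} := fun x _ => hcon x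
          have h1 := Finset.card_le_card hsub
          have h3 : ({0, 1, -1} : Finset F).card ≤ 3 := Finset.card_le_three
          rw [Finset.card_univ] at h1
          omega
        obtain ⟨c, hc⟩ := hex
        simp only [Finset.mem_insert, Finset.mem_singleton, not_or] at hc
        obtain ⟨hc0, hc1, hcm⟩ := hc
        refine ⟨-(c * c), ?_, ?_⟩
        · rintro ⟨d, hd⟩
          apply hν0
          rw [hm]
          refine ⟨d / c, ?_⟩
          field_simp
          linear_combination hd
        · intro h
          have h' : (c - 1) * (c + 1) = 0 := by linear_combination -h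
          rcases mul_eq_zero.mp h' with h'' | h''
          · exact hc1 (by linear_combination h'')
          · exact hcm (by linear_combination h'')
      · exact ⟨ν0, hν0, hm⟩
    obtain ⟨ν, hνns, hνm⟩ := hν
    have hν0 : ν ≠ 0 := by
      rintro rfl
      exact hνns ⟨0, by simp⟩
    have hν1 : ν ≠ 1 := by
      rintro rfl
      exact hνns ⟨1, by simp⟩
    obtain ⟨a, c, hac⟩ : ∃ a c : F, a ^ 2 + c ^ 2 = ν := by
      have hdeg1 : (Polynomial.X ^ 2 : Polynomial F).degree = 2 := Polynomial.degree_X_pow 2
      have hdeg2 : (Polynomial.X ^ 2 - Polynomial.C ν : Polynomial F).degree = 2 :=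
        Polynomial.degree_X_pow_sub_C (by decide) _
      obtain ⟨a, b, hab⟩ := FiniteField.exists_root_sum_quadratic hdeg1 hdeg2
        (Nat.odd_iff.mp hodd)
      refine ⟨a, b, ?_⟩
      simp only [Polynomial.eval_C, Polynomial.eval_X, Polynomial.eval_pow,
        Polynomial.eval_sub] at hab
      linear_combination hab
    refine ⟨0, -ν, neg_ne_zero.mpr hν0, ?_, ?_, ?_, ⟨2 * (Fintype.card F - 1), ?_, ?_⟩, a, c, ?_⟩
    · intro h
      exact hνm (by linear_combination -h)
    · intro h
      exact hν1 (by linear_combination -h)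
    · intro h
      exact hν1 (by linear_combination -h)
    · intro hdvd
      rcases (Nat.Prime.dvd_mul hpp).mp hdvd with h | h
      · exact hp ((Nat.prime_dvd_prime_iff_eq hpp Nat.prime_two).mp h)
      · have hq : p ∣ Fintype.card F := by
          rw [hcard]; exact dvd_pow_self p hk.ne'
        have h1 : p ∣ 1 := by
          have := Nat.dvd_sub hq h
          have e : Fintype.card F - (Fintype.card F - 1) = 1 := by omega
          rwa [e] at this
        exact hpp.one_lt.ne' (Nat.dvd_one.mp h1)
    · rw [pow_mul, comp_sq_zero, smul_pow, one_pow, FiniteField.pow_card_sub_one_eq_one ν hν0,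
        one_smul]
    · linear_combination hac

end Cfsg.Agent.Lib.Helper88.Sp4T
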