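import Mathlib
import Cfsg.Agent.Lib.Helper40.SL2Gen
import Cfsg.Agent.Lib.Helper51.NMDefs

/-! S3009 (helper51, project NM), piece NM-A: the starting vector for the recognition of the
natural `SL₂(F)`-module. -/

set_option autoImplicit false

namespace Cfsg.Agent.Lib.Helper88.NMA

open Matrix Cfsg.Agent.Lib.Helper40 Cfsg.Agent.Lib.Helper51.NM

section Aux

variable {F : Type*} [Field F] {M : Type*} [AddCommGroup M]
  {act : SpecialLinearGroup (Fin 2) F → M → M}

/-- the Weyl element `!![0, 1; -1, 0]` -/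
def nmaW (F : Type*) [Field F] : SpecialLinearGroup (Fin 2) F :=
  ⟨!![0, 1; -1, 0], by simp [det_fin_two_of]⟩

@[simp] theorem nmaW_00 : nmaW F 0 0 = 0 := rfl
@[simp] theorem nmaW_01 : nmaW F 0 1 = 1 := rfl
@[simp] theorem nmaW_10 : nmaW F 1 0 = -1 := rfl
@[simp] theorem nmaW_11 : nmaW F 1 1 = 0 := rfl

theorem nma_lo_w (b : F) : sl2Lo b * nmaW F = nmaW F * sl2Up (-b) := by
  apply sl2_ext' <;> simp [sl2_mul_00, sl2_mul_01, sl2_mul_10, sl2_mul_11]

theorem nma_up_w (c : F) : sl2Up c * nmaW F = nmaW F * sl2Lo (-c) := by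
  apply sl2_ext' <;> simp [sl2_mul_00, sl2_mul_01, sl2_mul_10, sl2_mul_11]

/-- the additive map of an element -/
def nmaHom (h : IsIrrAct act) (g : SpecialLinearGroup (Fin 2) F) : M →+ M :=
  AddMonoidHom.mk' (act g) (h.add g)

theorem nmaHom_apply (h : IsIrrAct act) (g : SpecialLinearGroup (Fin 2) F) (m : M) :
    nmaHom h g m = act g m := rfl

theorem nma_act_zero (h : IsIrrAct act) (g : SpecialLinearGroup (Fin 2) F) : act g 0 = 0 :=
  (nmaHom h g).map_zero

theorem nma_act_neg (h : IsIrrAct act) (g : SpecialLinearGroup (Fin 2) F) (m : M) :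
    act g (-m) = - act g m :=
  (nmaHom h g).map_neg m

theorem nma_act_sub (h : IsIrrAct act) (g : SpecialLinearGroup (Fin 2) F) (m m' : M) :
    act g (m - m') = act g m - act g m' :=
  (nmaHom h g).map_sub m m'

theorem nma_inj (h : IsIrrAct act) (g : SpecialLinearGroup (Fin 2) F) :
    Function.Injective (act g) := by
  intro m m' hmm
  have h1 : act g⁻¹ (act g m) = act g⁻¹ (act g m') := by rw [hmm]
  rwa [← h.mul, ← h.mul, inv_mul_cancel, h.one, h.one] at h1

/-- the fixed points of the upper unitriangular group -/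
def nmaM0 (h : IsIrrAct act) : AddSubgroup M where
  carrier := {m | ∀ a : F, act (sl2Up a) m = m}
  zero_mem' := fun a => nma_act_zero h _
  add_mem' := fun {x y} hx hy a => by rw [h.add, hx a, hy a]
  neg_mem' := fun {x} hx a => by rw [nma_act_neg h, hx a]

theorem nma_mem_M0 (h : IsIrrAct act) {m : M} :
    m ∈ nmaM0 h ↔ ∀ a : F, act (sl2Up a) m = m := Iff.rfl

/-- the fixed points of the lower unitriangular group -/
def nmaM0' (h : IsIrrAct act) : AddSubgroup M where
  carrier := {m | ∀ a : F, act (sl2Lo a) m = m}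
  zero_mem' := fun a => nma_act_zero h _
  add_mem' := fun {x y} hx hy a => by rw [h.add, hx a, hy a]
  neg_mem' := fun {x} hx a => by rw [nma_act_neg h, hx a]

theorem nma_mem_M0' (h : IsIrrAct act) {m : M} :
    m ∈ nmaM0' h ↔ ∀ a : F, act (sl2Lo a) m = m := Iff.rfl

/-- the fixed points of the whole group -/
def nmaFix (h : IsIrrAct act) : AddSubgroup M where
  carrier := {m | ∀ g, act g m = m}
  zero_mem' := fun g => nma_act_zero h _
  add_mem' := fun {x y} hx hy g => by rw [h.add, hx g, hy g]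
  neg_mem' := fun {x} hx g => by rw [nma_act_neg h, hx g]

/-- the stabiliser of a point -/
def nmaStab (h : IsIrrAct act) (m : M) : Subgroup (SpecialLinearGroup (Fin 2) F) where
  carrier := {g | act g m = m}
  one_mem' := h.one m
  mul_mem' := fun {a b} ha hb => by
    show act (a * b) m = m
    have ha' : act a m = m := ha
    have hb' : act b m = m := hb
    rw [h.mul, hb', ha']
  inv_mem' := fun {a} ha => by
    show act a⁻¹ m = m
    have ha' : act a m = m := ha
    have h1 : act a⁻¹ (act a m) = m := by rw [← h.mul, inv_mul_cancel, h.one]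
    rwa [ha'] at h1

theorem nma_fact0 (h : IsIrrAct act) (m : M) (h1 : m ∈ nmaM0 h) (h2 : m ∈ nmaM0' h) : m = 0 := by
  have hU : unip2 F ≤ nmaStab h m := by
    intro g hg
    obtain ⟨x, rfl⟩ := mem_unip2_iff.1 hg
    exact h1 x
  have hlo : sl2Lo (1 : F) ∈ nmaStab h m := h2 1
  have htop : nmaStab h m = ⊤ := eq_top_of_unip2_le hU hlo (by simp)
  have hfix : m ∈ nmaFix h := by
    intro g
    have hg : g ∈ nmaStab h m := by
      rw [htop]
      exact Subgroup.mem_top g
    exact hg
  rcases h.irr (nmaFix h) (fun g m' hm' g' => by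
      have hm'' : ∀ g, act g m' = m' := hm'
      rw [hm'' g]
      exact hm'' g') with hN | hN
  · rw [hN] at hfix
    exact (AddSubgroup.mem_bot).1 hfix
  · exfalso
    obtain ⟨g, m', hne⟩ := h.nt
    have hm' : m' ∈ nmaFix h := by
      rw [hN]
      exact AddSubgroup.mem_top m'
    exact hne (hm' g)

theorem nma_w_up (h : IsIrrAct act) (m : M) (hm : m ∈ nmaM0 h) : act (nmaW F) m ∈ nmaM0' h := by
  intro b
  rw [← h.mul, nma_lo_w, h.mul, hm]

theorem nma_w_lo (h : IsIrrAct act) (m : M) (hm : m ∈ nmaM0' h) : act (nmaW F) m ∈ nmaM0 h := by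
  intro a
  rw [← h.mul, nma_up_w, h.mul, hm]

theorem nma_unip_fix (h : IsIrrAct act) (u : ↥(unip2 F)) (m : M) (hm : m ∈ nmaM0 h) :
    act (u : SpecialLinearGroup (Fin 2) F) m = m := by
  obtain ⟨x, hx⟩ := mem_unip2_iff.1 u.2
  rw [← hx]
  exact hm x

/-- the action of an upper unitriangular element on the quotient by the fixed points -/
def nmaQAct (h : IsIrrAct act) (u : ↥(unip2 F)) : (M ⧸ nmaM0 h) →+ (M ⧸ nmaM0 h) :=
  QuotientAddGroup.map (nmaM0 h) (nmaM0 h) (nmaHom h (u : SpecialLinearGroup (Fin 2) F))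
    (fun m hm => by
      rw [AddSubgroup.mem_comap, nmaHom_apply, nma_unip_fix h u m hm]
      exact hm)

theorem nmaQAct_mk (h : IsIrrAct act) (u : ↥(unip2 F)) (m : M) :
    nmaQAct h u (m : M ⧸ nmaM0 h)
      = ((act (u : SpecialLinearGroup (Fin 2) F) m : M) : M ⧸ nmaM0 h) := rfl

/-- the action of the upper unitriangular group on the quotient by its fixed points -/
@[reducible] def nmaMulAction (h : IsIrrAct act) : MulAction ↥(unip2 F) (M ⧸ nmaM0 h) where
  smul u q := nmaQAct h u q
  one_smul q := by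
    induction q using QuotientAddGroup.induction_on with
    | H m =>
      show nmaQAct h 1 (m : M ⧸ nmaM0 h) = m
      rw [nmaQAct_mk, OneMemClass.coe_one, h.one]
  mul_smul u u' q := by
    induction q using QuotientAddGroup.induction_on with
    | H m =>
      show nmaQAct h (u * u') (m : M ⧸ nmaM0 h) = nmaQAct h u (nmaQAct h u' m)
      rw [nmaQAct_mk, nmaQAct_mk, nmaQAct_mk, Subgroup.coe_mul, h.mul]

end Aux

theorem exists_start {F : Type*} [Field F] [Fintype F] {p : ℕ} [Fact p.Prime] (n : ℕ)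
    (hF : Fintype.card F = p ^ n)
    {M : Type*} [AddCommGroup M] [Finite M] (hpM : ∀ m : M, p • m = 0)
    (act : SpecialLinearGroup (Fin 2) F → M → M) (h : IsIrrAct act)
    (hyp : (∀ (a b : F) (m : M), act (sl2Up a) (act (sl2Up b) m - m) = act (sl2Up b) m - m) ∨
      Nat.card M ≤ Nat.card {m : M // ∀ a : F, act (sl2Up a) m = m} ^ 2) :
    ∃ x₀ : M, x₀ ≠ 0 ∧ (∀ b : F, act (sl2Lo b) x₀ = x₀) ∧
      ∀ a c : F, act (sl2Up c) (act (sl2Up a) x₀ - x₀) = act (sl2Up a) x₀ - x₀ := by
  classical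
  rcases hyp with hq | hcard
  · have hM0 : ∃ y : M, y ≠ 0 ∧ ∀ a : F, act (sl2Up a) y = y := by
      by_contra hcon
      push Not at hcon
      have hall : ∀ (b : F) (m : M), act (sl2Up b) m - m = 0 := by
        intro b m
        by_contra hne
        obtain ⟨a, ha⟩ := hcon _ hne
        exact ha (hq a b m)
      have hall2 : ∀ m : M, m = 0 := by
        intro m
        by_contra hne
        obtain ⟨a, ha⟩ := hcon m hne
        exact ha (sub_eq_zero.1 (hall a m))
      obtain ⟨g, m, hne⟩ := h.nt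
      exact hne ((hall2 (act g m)).trans (hall2 m).symm)
    obtain ⟨y, hy0, hy⟩ := hM0
    refine ⟨act (nmaW F) y, ?_, nma_w_up h y hy, fun a c => hq c a _⟩
    intro h0
    apply hy0
    apply nma_inj h (nmaW F)
    rw [h0, nma_act_zero h]
  · have hc0 : Nat.card {m : M // ∀ a : F, act (sl2Up a) m = m} = Nat.card ↥(nmaM0 h) :=
      Nat.card_congr (Equiv.subtypeEquivRight (fun m => (nma_mem_M0 h).symm))
    rw [hc0] at hcard
    have hle : Nat.card ↥(nmaM0 h) ≤ Nat.card ↥(nmaM0' h) :=
      Nat.card_le_card_of_injective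
        (fun y : ↥(nmaM0 h) => (⟨act (nmaW F) y, nma_w_up h y y.2⟩ : ↥(nmaM0' h)))
        (by
          intro y y' hyy
          exact Subtype.ext (nma_inj h _ (congrArg Subtype.val hyy)))
    obtain ⟨s, hsdef⟩ : ∃ s : ↥(nmaM0 h) × ↥(nmaM0' h) → M,
        ∀ z, s z = (z.1 : M) + (z.2 : M) := ⟨fun z => (z.1 : M) + (z.2 : M), fun _ => rfl⟩
    have hsinj : Function.Injective s := by
      rintro ⟨y, x⟩ ⟨y', x'⟩ hs
      rw [hsdef, hsdef] at hs
      have hs' : (y : M) + x = y' + x' := hs
      have hd : (y : M) - y' = x' - x := by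
        rw [sub_eq_sub_iff_add_eq_add, hs', add_comm]
      have hz : (y : M) - y' = 0 :=
        nma_fact0 h _ ((nmaM0 h).sub_mem y.2 y'.2) (by rw [hd]; exact (nmaM0' h).sub_mem x'.2 x.2)
      have hy : y = y' := Subtype.ext (sub_eq_zero.1 hz)
      have hx : x = x' := by
        apply Subtype.ext
        have hx0 : (x' : M) - x = 0 := by rw [← hd, hz]
        exact (sub_eq_zero.1 hx0).symm
      rw [hy, hx]
    have hsbij : Function.Bijective s := by
      apply Function.Injective.bijective_of_nat_card_le hsinj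
      rw [Nat.card_prod]
      calc Nat.card M ≤ Nat.card ↥(nmaM0 h) ^ 2 := hcard
        _ = Nat.card ↥(nmaM0 h) * Nat.card ↥(nmaM0 h) := sq _
        _ ≤ Nat.card ↥(nmaM0 h) * Nat.card ↥(nmaM0' h) := Nat.mul_le_mul_left _ hle
    have hM0top : ∃ m : M, m ∉ nmaM0 h := by
      by_contra hcon
      push Not at hcon
      have hall : ∀ m : M, m = 0 := by
        intro m
        apply nma_inj h (nmaW F)
        rw [nma_act_zero h]
        exact nma_fact0 h _ (hcon _) (nma_w_up h m (hcon m))
      obtain ⟨g, m, hne⟩ := h.nt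
      exact hne ((hall (act g m)).trans (hall m).symm)
    have hU : IsPGroup p ↥(unip2 F) :=
      IsPGroup.of_card (n := n) (by rw [card_unip2, Nat.card_eq_fintype_card, hF])
    letI := nmaMulAction h
    have hdvd : p ∣ Nat.card (M ⧸ nmaM0 h) := by
      obtain ⟨m, hm⟩ := hM0top
      have hq0 : ((m : M) : M ⧸ nmaM0 h) ≠ 0 := by
        intro h0
        exact hm ((QuotientAddGroup.eq_zero_iff m).1 h0)
      have hord : addOrderOf ((m : M) : M ⧸ nmaM0 h) = p := by
        apply addOrderOf_eq_prime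
        · rw [← QuotientAddGroup.mk_nsmul, hpM, QuotientAddGroup.mk_zero]
        · exact hq0
      rw [← hord]
      exact addOrderOf_dvd_natCard _
    have hfix0 : (0 : M ⧸ nmaM0 h) ∈ MulAction.fixedPoints ↥(unip2 F) (M ⧸ nmaM0 h) := by
      intro u
      show nmaQAct h u 0 = 0
      exact map_zero _
    obtain ⟨q, hqfix, hq0⟩ :=
      hU.exists_fixed_point_of_prime_dvd_card_of_fixed_point (α := M ⧸ nmaM0 h) hdvd hfix0
    obtain ⟨m, rfl⟩ := QuotientAddGroup.mk_surjective q
    have hm0 : m ∉ nmaM0 h := by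
      intro hm
      exact hq0 ((QuotientAddGroup.eq_zero_iff m).2 hm).symm
    have hmfix : ∀ a : F, act (sl2Up a) m - m ∈ nmaM0 h := by
      intro a
      have h1 := hqfix ⟨sl2Up a, sl2Up_mem_unip2 a⟩
      have h2 : ((act (sl2Up a) m : M) : M ⧸ nmaM0 h) = (m : M ⧸ nmaM0 h) := h1
      rw [QuotientAddGroup.eq] at h2
      have h3 : act (sl2Up a) m - m = -(-(act (sl2Up a) m) + m) := by abel
      rw [h3]
      exact (nmaM0 h).neg_mem h2
    obtain ⟨⟨y, x⟩, hyx⟩ := hsbij.2 m
    rw [hsdef] at hyx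
    have hyx' : (y : M) + x = m := hyx
    refine ⟨x, ?_, (nma_mem_M0' h).1 x.2, ?_⟩
    · intro hx0
      apply hm0
      rw [← hyx', hx0, add_zero]
      exact y.2
    · intro a c
      have hk : act (sl2Up a) (x : M) - x = act (sl2Up a) m - m := by
        rw [← hyx', h.add, (nma_mem_M0 h).1 y.2 a]
        abel
      have hmem : act (sl2Up a) (x : M) - x ∈ nmaM0 h := by
        rw [hk]
        exact hmfix a
      exact (nma_mem_M0 h).1 hmem c

end Cfsg.Agent.Lib.Helper88.NMA
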