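import Mathlib
import Cfsg.Agent.Lib.Helper81.G2Base
import Cfsg.Agent.Lib.Helper81.SqDer
import Cfsg.Agent.Lib.Helper81.SlSylB

set_option autoImplicit false

namespace Cfsg.Agent.Lib.Helper88.G2

open Cfsg Cfsg.Lie Matrix Cfsg.Agent.Lib.Helper81.G2Base Cfsg.Agent.Lib.Helper81.SqD

universe u

/-! ## Piece ARITH: the `2`-part of `q³ (q³ + 1) |SL₃(q)|` -/
theorem arith_g2 {F : Type u} [Field F] [Fintype F] (hodd : Odd (Fintype.card F)) :
    padicValNat 2 (Fintype.card F ^ 3 * (Fintype.card F ^ 3 + 1) *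
        Nat.card (SpecialLinearGroup (Fin 3) F)) =
      2 * padicValNat 2 (Fintype.card F ^ 2 - 1) := by
  classical
  have hfact : Fact (Nat.Prime 2) := ⟨Nat.prime_two⟩
  have hq1 : 1 < Fintype.card F := Fintype.one_lt_card
  have hsl := Cfsg.Agent.Lib.Helper81.SlSyl.val_card_sl_field (F := F) hodd 3 (by norm_num)
  rw [Nat.factorization_def _ Nat.prime_two] at hsl
  have e1 : (3 : ℕ) - 3 / 2 = 2 := by norm_num
  have e2 : (3 : ℕ) / 2 = 1 := by norm_num
  rw [e1, e2, Nat.factorial_one, padicValNat_one_right, one_mul, add_zero] at hsl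
  have hcard0 : Nat.card (SpecialLinearGroup (Fin 3) F) ≠ 0 := Nat.card_pos.ne'
  generalize Nat.card (SpecialLinearGroup (Fin 3) F) = S at hsl hcard0 ⊢
  generalize Fintype.card F = q at hodd hq1 hsl ⊢
  have hq3 : padicValNat 2 (q ^ 3) = 0 := by
    apply padicValNat.eq_zero_of_not_dvd
    intro h
    have h1 := Nat.Prime.dvd_of_dvd_pow Nat.prime_two h
    exact (Nat.not_even_iff_odd.mpr hodd) (even_iff_two_dvd.mpr h1)
  have hfac : q ^ 3 + 1 = (q + 1) * (q ^ 2 - q + 1) := by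
    have h1 : q ≤ q ^ 2 := by nlinarith
    zify [h1]
    ring
  have hoddfac : padicValNat 2 (q ^ 2 - q + 1) = 0 := by
    apply padicValNat.eq_zero_of_not_dvd
    obtain ⟨k, hk⟩ := hodd
    subst hk
    have h2 : (2 * k + 1) ^ 2 - (2 * k + 1) + 1 = 2 * (2 * k ^ 2 + k) + 1 := by
      have h1 : (2 * k + 1) ≤ (2 * k + 1) ^ 2 := by nlinarith
      zify [h1]
      ring
    rw [h2]
    omega
  have hsq : q ^ 2 - 1 = (q - 1) * (q + 1) := by
    have h1 : 1 ≤ q := by omega
    have h2 : 1 ≤ q ^ 2 := by nlinarith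
    zify [h1, h2]
    ring
  have hne1 : q - 1 ≠ 0 := by omega
  have hne2 : q ^ 2 - q + 1 ≠ 0 := by omega
  rw [padicValNat.mul (by positivity) hcard0, padicValNat.mul (by positivity) (by positivity),
    hq3, hfac, padicValNat.mul (by positivity) hne2, hoddfac, hsq,
    padicValNat.mul hne1 (by positivity)]
  rw [hsq, padicValNat.mul hne1 (by positivity)] at hsl
  omega

end Cfsg.Agent.Lib.Helper88.G2
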