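import Cfsg.Agent.Lib.Helper88.DPSysC
import Cfsg.Agent.Lib.Helper89.IsoTNormal

set_option autoImplicit false

/-!
# Fusion systems over a direct product of two strongly closed subgroups (helper88)

Part D: invariance and normality of the full and the centralizing subsystem over `S₁`.
-/

namespace Cfsg.Agent.Lib.Helper88.DP

open Cfsg Cfsg.FusionSystem Cfsg.Agent.Lib.Helper90 Cfsg.Agent.Lib.Helper91
open Cfsg.Agent.Lib.Helper88 (sc_mor sc_conj sup_decomp)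
open Cfsg.Agent.Lib.Helper89.IsoT (invariantIn_of_mor')

variable {Ω : Type*} [Group Ω] {S : Subgroup Ω} {F : FusionSystem S} {p : ℕ}
  {S₁ S₂ P Q : Subgroup Ω} {f g : Ω → Ω} {R R' : FusionSystem S₁}

/-- Conjugation by an automorphism of `S₁` in `F` preserves the centralizing subsystem. -/
theorem cent_conj [Finite S] [Fact p.Prime] (h : Hyp F p S₁ S₂) (hR' : IsCent F S₁ S₂ R')
    (hf : Mor R' P f) {α : MulAut S₁} (hα : α ∈ F.autGroup S₁) :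
    Mor R' (img P (autFun S₁ α)) (autFun S₁ α ∘ f ∘ autFun S₁ α⁻¹) := by
  obtain ⟨hP, hfF, f₁, hf₁, hf₁P, hf₁2⟩ := (mor_cent_iff h hR').mp hf
  have ha : Mor F S₁ (autFun S₁ α) := (mem_autGroup_iff F h.le1 α).mp hα
  obtain ⟨a, ha', ha1⟩ := h.symm.ext_aut ha
  have haimg : img S a = S := ha'.img_eq_self (fun x hx => ha'.mem hx)
  have hinv : Mor F S (invFn S a) := by
    have := ha'.inv
    rwa [haimg] at this
  have haP : Mor F P (autFun S₁ α) := ha.restrict hP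
  have hP'1 : img P (autFun S₁ α) ≤ S₁ := by
    intro y hy
    obtain ⟨x, hx, rfl⟩ := haP.mem_img.mp hy
    exact autFun_mem α (hP hx)
  have hP'S : img P (autFun S₁ α) ⊔ S₂ ≤ S := sup_le (hP'1.trans h.le1) h.le2
  have hstep1 : Mor F (img P (autFun S₁ α) ⊔ S₂) (invFn S a) := hinv.restrict hP'S
  have hinvP : ∀ x ∈ P, invFn S a (autFun S₁ α x) = x := by
    intro x hx
    rw [← ha1 x (hP hx)]
    exact ha'.invFn_apply (h.le1 (hP hx))
  have hmap1 : ∀ z ∈ img P (autFun S₁ α) ⊔ S₂, invFn S a z ∈ P ⊔ S₂ :=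
    hstep1.map_sup_le (P' := P) (Q' := S₂)
      (fun y hy => by
        obtain ⟨x, hx, rfl⟩ := haP.mem_img.mp hy
        rw [hinvP x hx]
        exact hx)
      (fun v hv => sc_mor h.sc2 le_rfl (hinv.restrict h.le2) v hv)
  have hstep2 : Mor F (img P (autFun S₁ α) ⊔ S₂) (f₁ ∘ invFn S a) := hstep1.comp hf₁ hmap1
  have hstep3 : Mor F (img P (autFun S₁ α) ⊔ S₂) (a ∘ f₁ ∘ invFn S a) :=
    hstep2.comp ha' (fun z hz => hstep2.mem hz)
  have honP : ∀ y ∈ img P (autFun S₁ α),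
      (a ∘ f₁ ∘ invFn S a) y = (autFun S₁ α ∘ f ∘ autFun S₁ α⁻¹) y := by
    intro y hy
    obtain ⟨x, hx, rfl⟩ := haP.mem_img.mp hy
    show a (f₁ (invFn S a (autFun S₁ α x))) = autFun S₁ α (f (autFun S₁ α⁻¹ (autFun S₁ α x)))
    rw [hinvP x hx, autFun_inv_apply' α (hP hx), hf₁P x hx, ha1 _ (sc_mor h.sc1 hP hfF x hx)]
  have hon2 : ∀ v ∈ S₂, (a ∘ f₁ ∘ invFn S a) v = v := by
    intro v hv
    show a (f₁ (invFn S a v)) = v
    rw [hf₁2 _ (sc_mor h.sc2 le_rfl (hinv.restrict h.le2) v hv)]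
    exact ha'.apply_invFn (by rw [haimg]; exact h.le2 hv)
  exact (mor_cent_iff h hR').mpr ⟨hP'1, (hstep3.restrict le_sup_left).congr honP,
    _, hstep3, honP, hon2⟩

/-- The Frattini condition for the centralizing subsystem. -/
theorem cent_frat [Finite S] [Fact p.Prime] (h : Hyp F p S₁ S₂) (hR' : IsCent F S₁ S₂ R')
    (hP : P ≤ S₁) (hf : Mor F P f) :
    ∃ α ∈ F.autGroup S₁, ∃ f₀, Mor R' P f₀ ∧ ∀ x ∈ P, f x = autFun S₁ α (f₀ x) := by
  have : Finite S₁ := finite_of_le h.le1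
  obtain ⟨γ, hγ, hγimg, hf₀, hc⟩ := h.frattini hP hf
  have hinv : Mor F S (invFn S γ) := by
    have := hγ.inv
    rwa [hγimg] at this
  have hγ1 : Mor F S₁ γ := hγ.restrict h.le1
  obtain ⟨α, hα, hαγ⟩ := exists_aut_of_mor hγ1 (sc_mor h.sc1 le_rfl hγ1)
  refine ⟨α, hα, invFn S γ ∘ f, (mor_cent_iff h hR').mpr ⟨hP, hf₀, hc⟩, fun x hx => ?_⟩
  have hfx1 : f x ∈ S₁ := sc_mor h.sc1 hP hf x hx
  have hinv1 : invFn S γ (f x) ∈ S₁ := sc_mor h.sc1 le_rfl (hinv.restrict h.le1) (f x) hfx1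
  show f x = autFun S₁ α (invFn S γ (f x))
  rw [autFun_apply' α hinv1, hαγ]
  exact (hγ.apply_invFn (by rw [hγimg]; exact h.le1 hfx1)).symm

theorem cent_sub (hR' : IsCent F S₁ S₂ R') : R'.IsSubsystemOf F := by
  intro P φ hφ
  have hP : P ≤ S₁ := (R'.le_of_mem hφ).1
  rw [hR' P hP] at hφ
  exact hφ.1

theorem cent_sub_full (hR : IsFull F S₁ R) (hR' : IsCent F S₁ S₂ R') : R'.IsSubsystemOf R := by
  intro P φ hφ
  have hP : P ≤ S₁ := (R'.le_of_mem hφ).1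
  rw [hR P hP]
  rw [hR' P hP] at hφ
  exact hφ.1

theorem full_sub (hR : IsFull F S₁ R) : R.IsSubsystemOf F := by
  intro P φ hφ
  have hP : P ≤ S₁ := (R.le_of_mem hφ).1
  rw [hR P hP] at hφ
  exact hφ

theorem cent_inv [Finite S] [Fact p.Prime] (h : Hyp F p S₁ S₂) (hR' : IsCent F S₁ S₂ R') :
    R'.IsInvariantIn F :=
  invariantIn_of_mor' (cent_sub hR') h.sc1 (fun _ _ hf _ hα => cent_conj h hR' hf hα)
    (fun _ _ hP hf => cent_frat h hR' hP hf)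

theorem cent_inv_full [Finite S] [Fact p.Prime] (h : Hyp F p S₁ S₂) (hR : IsFull F S₁ R)
    (hR' : IsCent F S₁ S₂ R') : R'.IsInvariantIn R := by
  refine invariantIn_of_mor' (cent_sub_full hR hR')
    ⟨le_rfl, fun R₀ _ φ hφ x => (R.le_of_mem hφ).2 x⟩ (fun _ _ hf α hα => ?_)
    (fun _ _ hP hf => ?_)
  · rw [autGroup_full hR le_rfl] at hα
    exact cent_conj h hR' hf hα
  · obtain ⟨α, hα, f₀, hf₀, hff⟩ := cent_frat h hR' hP ((mor_full_iff hR).mp hf).2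
    refine ⟨α, ?_, f₀, hf₀, hff⟩
    rw [autGroup_full hR le_rfl]
    exact hα

theorem full_inv [Finite S] [Fact p.Prime] (h : Hyp F p S₁ S₂) (hR : IsFull F S₁ R) :
    R.IsInvariantIn F := by
  refine invariantIn_of_mor' (full_sub hR) h.sc1 (fun P f hf α hα => ?_) (fun P f hP hf => ?_)
  · obtain ⟨hP, hfF⟩ := (mor_full_iff hR).mp hf
    have ha : Mor F S₁ (autFun S₁ α) := (mem_autGroup_iff F h.le1 α).mp hα
    have ha' : Mor F S₁ (autFun S₁ α⁻¹) :=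
      (mem_autGroup_iff F h.le1 α⁻¹).mp ((F.autGroup S₁).inv_mem hα)
    have haP : Mor F P (autFun S₁ α) := ha.restrict hP
    have hP'1 : img P (autFun S₁ α) ≤ S₁ := by
      intro y hy
      obtain ⟨x, hx, rfl⟩ := haP.mem_img.mp hy
      exact autFun_mem α (hP hx)
    have hmap1 : ∀ y ∈ img P (autFun S₁ α), autFun S₁ α⁻¹ y ∈ P := by
      intro y hy
      obtain ⟨x, hx, rfl⟩ := haP.mem_img.mp hy
      rw [autFun_inv_apply' α (hP hx)]
      exact hx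
    have h1 : Mor F (img P (autFun S₁ α)) (f ∘ autFun S₁ α⁻¹) :=
      (ha'.restrict hP'1).comp hfF hmap1
    have h2 : Mor F (img P (autFun S₁ α)) (autFun S₁ α ∘ f ∘ autFun S₁ α⁻¹) :=
      h1.comp ha (fun y hy => sc_mor h.sc1 hP hfF _ (hmap1 y hy))
    exact (mor_full_iff hR).mpr ⟨hP'1, h2⟩
  · refine ⟨1, (F.autGroup S₁).one_mem, f, (mor_full_iff hR).mpr ⟨hP, hf⟩, fun x hx => ?_⟩
    rw [autFun_apply' 1 (sc_mor h.sc1 hP hf x hx)]
    rfl

theorem aut_center (α : MulAut S₁) {c : Ω} (hc : c ∈ S₁)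
    (hcZ : c ∈ Subgroup.centralizer (S₁ : Set Ω)) :
    autFun S₁ α c ∈ Subgroup.centralizer (S₁ : Set Ω) := by
  rw [Subgroup.mem_centralizer_iff]
  intro y hy
  rw [autFun_apply' α hc]
  have h1 : α.symm ⟨y, hy⟩ * ⟨c, hc⟩ = ⟨c, hc⟩ * α.symm ⟨y, hy⟩ := by
    apply Subtype.ext
    exact Subgroup.mem_centralizer_iff.mp hcZ _ (α.symm ⟨y, hy⟩).2
  have h2 := congrArg (fun z => ((α z : S₁) : Ω)) h1
  simp only [map_mul, MulEquiv.apply_symm_apply, Subgroup.coe_mul] at h2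
  exact h2

/-- The extension condition for the centralizing subsystem in `F`. -/
theorem cent_ext [Finite S] [Fact p.Prime] (h : Hyp F p S₁ S₂) (hR' : IsCent F S₁ S₂ R')
    {α : MulAut S₁} (hα : α ∈ R'.autGroup S₁) :
    ∃ β ∈ F.autGroup (S₁ ⊔ centralizerIn S S₁),
      (∀ x : S₁, ((β (Subgroup.inclusion le_sup_left x) : ↥(S₁ ⊔ centralizerIn S S₁)) : Ω) =
        ((α x : S₁) : Ω)) ∧
      ∀ c : ↥(S₁ ⊔ centralizerIn S S₁), (c : Ω) ∈ centralizerIn S S₁ →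
        (c : Ω)⁻¹ * ((β c : ↥(S₁ ⊔ centralizerIn S S₁)) : Ω) ∈
          S₁ ⊓ Subgroup.centralizer (S₁ : Set Ω) := by
  have hαm : Mor R' S₁ (autFun S₁ α) := (mem_autGroup_iff R' le_rfl α).mp hα
  obtain ⟨-, hαF, a, ha, ha1, ha2⟩ := (mor_cent_iff h hR').mp hαm
  rw [h.sup] at ha
  have hM : S₁ ⊔ centralizerIn S S₁ ≤ S := sup_le h.le1 inf_le_left
  have hS2C : S₂ ≤ centralizerIn S S₁ := by
    intro b hb
    refine ⟨h.le2 hb, ?_⟩
    show b ∈ Subgroup.centralizer (S₁ : Set Ω)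
    rw [Subgroup.mem_centralizer_iff]
    intro x hx
    exact h.comm x hx b hb
  have hSM : S ≤ S₁ ⊔ centralizerIn S S₁ := by
    intro z hz
    rw [← h.sup] at hz
    exact (sup_le_sup_left hS2C S₁) hz
  have : Finite (S₁ ⊔ centralizerIn S S₁ : Subgroup Ω) := finite_of_le hM
  obtain ⟨β, hβ, hβa⟩ := exists_aut_of_mor (ha.restrict hM) (fun z hz => hSM (ha.mem (hM hz)))
  refine ⟨β, hβ, fun x => ?_, fun c hc => ?_⟩
  · rw [hβa]
    show a (x : Ω) = _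
    rw [ha1 x x.2, autFun_apply]
  · rw [hβa]
    obtain ⟨c₁, hc₁, c₂, hc₂, hcc⟩ := h.decompS c hc.1
    have hc₂Z : c₂ ∈ Subgroup.centralizer (S₁ : Set Ω) := by
      rw [Subgroup.mem_centralizer_iff]
      intro x hx
      exact h.comm x hx c₂ hc₂
    have hc₁Z : c₁ ∈ Subgroup.centralizer (S₁ : Set Ω) := by
      have : c₁ = c * c₂⁻¹ := by rw [hcc]; group
      rw [this]
      exact Subgroup.mul_mem _ hc.2 (Subgroup.inv_mem _ hc₂Z)
    have hA : autFun S₁ α c₁ ∈ S₁ := autFun_mem α hc₁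
    rw [hcc, ha.map_mul (h.le1 hc₁) (h.le2 hc₂), ha1 c₁ hc₁, ha2 c₂ hc₂]
    have key : (c₁ * c₂)⁻¹ * (autFun S₁ α c₁ * c₂) = c₁⁻¹ * autFun S₁ α c₁ := by
      have h3 := h.conj_eq' (S₁.mul_mem (S₁.inv_mem hc₁) hA) (S₂.inv_mem hc₂)
      calc (c₁ * c₂)⁻¹ * (autFun S₁ α c₁ * c₂)
          = c₂⁻¹ * (c₁⁻¹ * autFun S₁ α c₁) * (c₂⁻¹)⁻¹ := by group
        _ = c₁⁻¹ * autFun S₁ α c₁ := h3
    rw [key]
    exact ⟨S₁.mul_mem (S₁.inv_mem hc₁) hA,
      Subgroup.mul_mem _ (Subgroup.inv_mem _ hc₁Z) (aut_center α hc₁ hc₁Z)⟩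

/-- The extension condition for the centralizing subsystem in the full subsystem. -/
theorem cent_ext_full [Finite S] [Fact p.Prime] (h : Hyp F p S₁ S₂) (hR : IsFull F S₁ R)
    (hR' : IsCent F S₁ S₂ R') {α : MulAut S₁} (hα : α ∈ R'.autGroup S₁) :
    ∃ β ∈ R.autGroup (S₁ ⊔ centralizerIn S₁ S₁),
      (∀ x : S₁, ((β (Subgroup.inclusion le_sup_left x) : ↥(S₁ ⊔ centralizerIn S₁ S₁)) : Ω) =
        ((α x : S₁) : Ω)) ∧
      ∀ c : ↥(S₁ ⊔ centralizerIn S₁ S₁), (c : Ω) ∈ centralizerIn S₁ S₁ →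
        (c : Ω)⁻¹ * ((β c : ↥(S₁ ⊔ centralizerIn S₁ S₁)) : Ω) ∈
          S₁ ⊓ Subgroup.centralizer (S₁ : Set Ω) := by
  have hαm : Mor R' S₁ (autFun S₁ α) := (mem_autGroup_iff R' le_rfl α).mp hα
  obtain ⟨-, hαF, -⟩ := (mor_cent_iff h hR').mp hαm
  have hM : S₁ ⊔ centralizerIn S₁ S₁ ≤ S₁ := sup_le le_rfl inf_le_left
  have : Finite (S₁ ⊔ centralizerIn S₁ S₁ : Subgroup Ω) := finite_of_le (hM.trans h.le1)
  have hmor : Mor R (S₁ ⊔ centralizerIn S₁ S₁) (autFun S₁ α) :=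
    (mor_full_iff hR).mpr ⟨hM, hαF.restrict hM⟩
  obtain ⟨β, hβ, hβa⟩ := exists_aut_of_mor hmor
    (fun z hz => (le_sup_left : S₁ ≤ S₁ ⊔ centralizerIn S₁ S₁) (autFun_mem α (hM hz)))
  refine ⟨β, hβ, fun x => ?_, fun c hc => ?_⟩
  · rw [hβa]
    show autFun S₁ α (x : Ω) = _
    rw [autFun_apply]
  · rw [hβa]
    exact ⟨S₁.mul_mem (S₁.inv_mem hc.1) (autFun_mem α hc.1),
      Subgroup.mul_mem _ (Subgroup.inv_mem _ hc.2) (aut_center α hc.1 hc.2)⟩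

/-- **Main theorem**: for `S = S₁ × S₂` with both factors strongly closed in the saturated system
`F`, the full subsystem `R` over `S₁` and the centralizing subsystem `R'` over `S₁` are saturated,
`R'` is normal in `F` and in `R`, and `R` is weakly normal in `F`. -/
theorem main [Finite S] [Fact p.Prime] (h : Hyp F p S₁ S₂) (hR : IsFull F S₁ R)
    (hR' : IsCent F S₁ S₂ R') :
    R.IsSaturated p ∧ R'.IsSaturated p ∧ R'.IsNormalIn F p ∧ R'.IsNormalIn R p ∧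
      R.IsWeaklyNormalIn F p :=
  ⟨full_sat h hR, cent_sat h hR',
    ⟨⟨cent_sat h hR', h.sat, cent_inv h hR'⟩, fun _ hα => cent_ext h hR' hα⟩,
    ⟨⟨cent_sat h hR', full_sat h hR, cent_inv_full h hR hR'⟩,
      fun _ hα => cent_ext_full h hR hR' hα⟩,
    ⟨full_sat h hR, h.sat, full_inv h hR⟩⟩

end Cfsg.Agent.Lib.Helper88.DP
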