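import Mathlib
import Cfsg.Agent.Lib.Helper4.FCDefs

/-!
# Project FC (S4146), piece SYLIDX (helper88)
-/

namespace Cfsg.Agent.Lib.Helper4.FC

universe u

theorem fc_sylidx : SylIdxStmt.{u} := by
  unfold SylIdxStmt
  intro G _ _ s i C S hs hC
  haveI : Fact s.Prime := ⟨hs⟩
  have h1 : C.relIndex (S : Subgroup G) * (S : Subgroup G).index = (C ⊓ (S : Subgroup G)).index := by
    have h := Subgroup.relIndex_mul_index (inf_le_right : C ⊓ (S : Subgroup G) ≤ (S : Subgroup G))
    rw [Subgroup.inf_relIndex_right] at h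
    exact h
  have h2 : (C ⊓ (S : Subgroup G)).relIndex C * C.index = (C ⊓ (S : Subgroup G)).index :=
    Subgroup.relIndex_mul_index (inf_le_left : C ⊓ (S : Subgroup G) ≤ C)
  have h3 : (C ⊓ (S : Subgroup G)).index ≤ C.index * (S : Subgroup G).index :=
    Subgroup.index_inf_le
  have hS0 : (S : Subgroup G).index ≠ 0 := Subgroup.index_ne_zero_of_finite
  have hI0 : (C ⊓ (S : Subgroup G)).index ≠ 0 := Subgroup.index_ne_zero_of_finite
  have hnd : ¬ s ∣ (S : Subgroup G).index := S.not_dvd_index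
  have hcop : (s ^ i).Coprime (S : Subgroup G).index :=
    Nat.Coprime.pow_left i ((Nat.Prime.coprime_iff_not_dvd hs).mpr hnd)
  have hdvd : s ^ i ∣ C.relIndex (S : Subgroup G) := by
    apply Nat.Coprime.dvd_of_dvd_mul_right hcop
    rw [h1, ← h2, hC]
    exact Dvd.intro_left _ rfl
  have hle : C.relIndex (S : Subgroup G) ≤ s ^ i := by
    rw [← h1, hC] at h3
    exact Nat.le_of_mul_le_mul_right h3 (Nat.pos_of_ne_zero hS0)
  have hpos : 0 < C.relIndex (S : Subgroup G) := by
    apply Nat.pos_of_ne_zero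
    intro h0
    rw [h0, zero_mul] at h1
    exact hI0 h1.symm
  exact Nat.le_antisymm hle (Nat.le_of_dvd hpos hdvd)

end Cfsg.Agent.Lib.Helper4.FC
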