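import Cfsg.Agent.Lib.Helper88.FratA
import Cfsg.Agent.Lib.Helper90.Basic

set_option autoImplicit false

universe u

namespace Cfsg.Agent.Lib.Helper88

open Cfsg Cfsg.FusionSystem Cfsg.Agent.Lib.Helper90

section FratB

variable {Ω : Type u} [Group Ω] {S Q : Subgroup Ω}

/-- Conjugation of `S` on a subgroup `Q` it normalizes. -/
def frConj (hn : ∀ s ∈ S, ∀ x ∈ Q, s * x * s⁻¹ ∈ Q) : ↥S →* MulAut ↥Q where
  toFun s :=
    { toFun := fun x => ⟨s * x * s⁻¹, hn s s.2 x x.2⟩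
      invFun := fun x => ⟨s⁻¹ * x * s, by
        have := hn s⁻¹ (S.inv_mem s.2) x x.2
        simpa using this⟩
      left_inv := fun x => by ext; simp [mul_assoc]
      right_inv := fun x => by ext; simp [mul_assoc]
      map_mul' := fun x y => by ext; simp [mul_assoc] }
  map_one' := by ext; simp
  map_mul' := fun s t => by ext; simp [mul_assoc]

theorem frConj_apply (hn : ∀ s ∈ S, ∀ x ∈ Q, s * x * s⁻¹ ∈ Q) (s : ↥S) (x : ↥Q) :
    ((frConj hn s x : ↥Q) : Ω) = s * x * (s : Ω)⁻¹ := rfl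

theorem frConj_of_mem (hQS : Q ≤ S) (hn : ∀ s ∈ S, ∀ x ∈ Q, s * x * s⁻¹ ∈ Q) (q : ↥Q) :
    MulAut.conj q = frConj hn ⟨q, hQS q.2⟩ := by
  ext x
  simp [frConj]

/-- The package produced by Burnside's transfer theorem. -/
theorem frat_package [Finite S] {p : ℕ} [hp : Fact p.Prime] (hS : IsPGroup p S) (hQS : Q ≤ S)
    (hn : ∀ s ∈ S, ∀ x ∈ Q, s * x * s⁻¹ ∈ Q)
    (hcomm : ∀ s ∈ S, ∀ t ∈ S, s * t * s⁻¹ * t⁻¹ ∈ Q)
    (A : Subgroup (MulAut ↥Q)) (hA : ∀ s, frConj hn s ∈ A)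
    (hsyl : ¬ p ∣ ((frConj hn).range.subgroupOf A).index)
    (hN : ∀ a ∈ A, (∀ s, ∃ t, a * frConj hn s * a⁻¹ = frConj hn t) → ∃ t, a = frConj hn t) :
    ∃ (X : Type u) (_ : Fintype X) (_ : MulAction ↥S X) (lift : X → MulAut ↥Q),
      (∀ k, lift k ∈ A ∧ (orderOf (lift k)).Coprime p) ∧
      (∀ (s : ↥S) (k : X), ∃ q : ↥Q,
        lift (s • k) = MulAut.conj q * frConj hn s * lift k * (frConj hn s)⁻¹) ∧
      (∀ α₀ ∈ A, (orderOf α₀).Coprime p →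
        ∃ σ : X ≃ X, ∀ k, ∃ q : ↥Q, lift (σ k) = MulAut.conj q * lift k * α₀) ∧
      (Fintype.card X).Coprime p ∧
      (∀ (y : ↥S), (y : Ω) ∈ Q → ∀ k : X, y • k = k) := by
  classical
  have hfinQ : Finite Q := Finite.of_injective (Subgroup.inclusion hQS) (Subgroup.inclusion_injective hQS)
  let I : Subgroup (MulAut ↥Q) := (MulAut.conj : ↥Q →* MulAut ↥Q).range
  have hIA : I ≤ A := by
    rintro _ ⟨q, rfl⟩
    rw [frConj_of_mem hQS hn]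
    exact hA _
  let I' : Subgroup ↥A := I.subgroupOf A
  have hI'n : I'.Normal := by
    constructor
    rintro ⟨b, hb⟩ hbI ⟨a, ha⟩
    obtain ⟨q, hq⟩ := Subgroup.mem_subgroupOf.mp hbI
    refine Subgroup.mem_subgroupOf.mpr ⟨a q, ?_⟩
    show MulAut.conj (a q) = a * b * a⁻¹
    have hq' : MulAut.conj q = b := hq
    rw [← hq']
    ext x
    simp
  let π : ↥A →* ↥A ⧸ I' := QuotientGroup.mk' I'
  have hπs : Function.Surjective π := QuotientGroup.mk'_surjective I'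
  let cA : ↥S →* ↥A := (frConj hn).codRestrict A hA
  let ρ : ↥S →* ↥A ⧸ I' := π.comp cA
  -- kernel description
  have hker : ∀ x y : ↥A, π x = π y → ∃ q : ↥Q, (y : MulAut ↥Q) = MulAut.conj q * x := by
    intro x y hxy
    have h1 : π (y * x⁻¹) = 1 := by rw [map_mul, map_inv, hxy, mul_inv_cancel]
    have h2 : y * x⁻¹ ∈ I' := (QuotientGroup.eq_one_iff _).mp h1
    obtain ⟨q, hq⟩ := Subgroup.mem_subgroupOf.mp h2
    refine ⟨q, ?_⟩
    have hq' : MulAut.conj q = (y : MulAut ↥Q) * (x : MulAut ↥Q)⁻¹ := hq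
    rw [hq']
    simp
  have hρQ : ∀ y : ↥S, (y : Ω) ∈ Q → ρ y = 1 := by
    intro y hy
    refine (QuotientGroup.eq_one_iff (N := I') (cA y)).mpr ?_
    refine Subgroup.mem_subgroupOf.mpr ⟨⟨y, hy⟩, ?_⟩
    exact frConj_of_mem hQS hn ⟨y, hy⟩
  have hρcomm : ∀ s t : ↥S, ρ s * ρ t = ρ t * ρ s := by
    intro s t
    have h := hρQ (s * t * s⁻¹ * t⁻¹) (hcomm s s.2 t t.2)
    rw [map_mul, map_mul, map_mul, map_inv, map_inv] at h
    exact mul_inv_eq_iff_eq_mul.mp (mul_inv_eq_one.mp h)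
  -- the Sylow subgroup
  have hPp : IsPGroup p ρ.range := hS.of_surjective ρ.rangeRestrict ρ.rangeRestrict_surjective
  have hidx : ρ.range.index = ((frConj hn).range.subgroupOf A).index := by
    have h1 : ρ.range = (cA.range).map π := MonoidHom.range_comp π cA
    have h2 : cA.range = (frConj hn).range.subgroupOf A := by
      ext ⟨a, ha⟩
      simp only [MonoidHom.mem_range, Subgroup.mem_subgroupOf]
      constructor
      · rintro ⟨s, hs⟩; exact ⟨s, congrArg Subtype.val hs⟩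
      · rintro ⟨s, hs⟩; exact ⟨s, Subtype.ext hs⟩
    have h3 : π.ker ≤ cA.range := by
      intro b hb
      have hb' : b ∈ I' := by
        have := (QuotientGroup.ker_mk' I')
        rw [← this]; exact hb
      obtain ⟨q, hq⟩ := Subgroup.mem_subgroupOf.mp hb'
      refine ⟨⟨q, hQS q.2⟩, Subtype.ext ?_⟩
      show frConj hn ⟨q, hQS q.2⟩ = (b : MulAut ↥Q)
      rw [← frConj_of_mem hQS hn]
      exact hq
    rw [h1, Subgroup.index_map_eq _ hπs h3, h2]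
  let P : Sylow p (↥A ⧸ I') := hPp.toSylow (by rw [hidx]; exact hsyl)
  have hPcoe : (P : Subgroup (↥A ⧸ I')) = ρ.range := hPp.toSylow_coe _
  have hPmem : ∀ x : ↥A ⧸ I', x ∈ P ↔ x ∈ ρ.range := fun x => hPp.mem_toSylow _
  have hP : Subgroup.normalizer (P : Set (↥A ⧸ I')) ≤ Subgroup.centralizer (P : Set (↥A ⧸ I')) := by
    intro x hx
    obtain ⟨a, rfl⟩ := hπs x
    have hnorm : ∀ s, ∃ t, (a : MulAut ↥Q) * frConj hn s * (a : MulAut ↥Q)⁻¹ = frConj hn t := by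
      intro s
      have h1 : π a * ρ s * (π a)⁻¹ ∈ P :=
        (Subgroup.mem_normalizer_iff.mp hx (ρ s)).mp ((hPmem _).mpr ⟨s, rfl⟩)
      obtain ⟨t, ht⟩ := (hPmem _).mp h1
      have h2 : π (cA t) = π (a * cA s * a⁻¹) := by
        rw [map_mul, map_mul, map_inv]; exact ht
      obtain ⟨q, hq⟩ := hker _ _ h2
      refine ⟨⟨q, hQS q.2⟩ * t, ?_⟩
      rw [map_mul, ← frConj_of_mem hQS hn]
      exact hq
    obtain ⟨t₀, ht₀⟩ := hN a a.2 hnorm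
    have hat : π a = ρ t₀ := by
      show π a = π (cA t₀)
      congr 1
      exact Subtype.ext ht₀
    rw [Subgroup.mem_centralizer_iff]
    intro y hy
    obtain ⟨s', rfl⟩ := (hPmem y).mp hy
    rw [hat]
    exact hρcomm s' t₀
  -- the normal complement
  let τ := MonoidHom.transferSylow P hP
  let K : Subgroup (↥A ⧸ I') := τ.ker
  have hKn : K.Normal := MonoidHom.normal_ker τ
  have hKcard : ¬ p ∣ Nat.card K := MonoidHom.not_dvd_card_ker_transferSylow P hP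
  have hKcop : (Nat.card K).Coprime p :=
    Nat.Coprime.symm ((Nat.Prime.coprime_iff_not_dvd hp.out).mpr hKcard)
  have hKord : ∀ k : K, (orderOf (k : ↥A ⧸ I')).Coprime p := by
    intro k
    rw [Subgroup.orderOf_coe]
    exact Nat.Coprime.coprime_dvd_left (orderOf_dvd_natCard k) hKcop
  have hKmem : ∀ x : ↥A ⧸ I', (orderOf x).Coprime p → x ∈ K := by
    intro x hx
    show τ x = 1
    obtain ⟨j, hj⟩ := P.2 (τ x)
    have h1 : (τ x) ^ orderOf x = 1 := by rw [← map_pow, pow_orderOf_eq_one, map_one]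
    exact eq_one_of_pow_coprime (Nat.Coprime.pow_right j hx) h1 hj
  -- lifts
  have hlift : ∀ k : K, ∃ a : ↥A, π a = k ∧ (orderOf a).Coprime p :=
    fun k => exists_pprime_lift π hπs k (hKord k)
  choose lf hlf1 hlf2 using hlift
  let act : MulAction ↥S K := MulAction.compHom K ((MulAut.conjNormal (H := K)).comp ρ)
  have hact : ∀ (s : ↥S) (k : K), ((s • k : K) : ↥A ⧸ I') = ρ s * k * (ρ s)⁻¹ := fun s k => rfl
  let instK : Fintype K := Fintype.ofFinite K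
  refine ⟨K, instK, act, fun k => (lf k : MulAut ↥Q), ?_, ?_, ?_, ?_, ?_⟩
  · intro k
    refine ⟨(lf k).2, ?_⟩
    rw [Subgroup.orderOf_coe]
    exact hlf2 k
  · intro s k
    have h1 : π (cA s * lf k * (cA s)⁻¹) = π (lf (s • k)) := by
      rw [hlf1, hact, map_mul, map_mul, map_inv, hlf1]
      rfl
    obtain ⟨q, hq⟩ := hker _ _ h1
    refine ⟨q, ?_⟩
    show ((lf (s • k) : ↥A) : MulAut ↥Q) =
      MulAut.conj q * frConj hn s * (lf k : MulAut ↥Q) * (frConj hn s)⁻¹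
    rw [hq]
    simp only [mul_assoc]
    rfl
  · intro α₀ hα₀ hcop
    have hmem : π ⟨α₀, hα₀⟩ ∈ K := by
      apply hKmem
      have h1 : orderOf (π ⟨α₀, hα₀⟩) ∣ orderOf (⟨α₀, hα₀⟩ : ↥A) := orderOf_map_dvd π _
      have h2 : orderOf (⟨α₀, hα₀⟩ : ↥A) = orderOf α₀ := (Subgroup.orderOf_coe ⟨α₀, hα₀⟩).symm
      rw [h2] at h1
      exact Nat.Coprime.coprime_dvd_left h1 hcop
    refine ⟨Equiv.mulRight (⟨π ⟨α₀, hα₀⟩, hmem⟩ : K), fun k => ?_⟩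
    have h1 : π (lf k * ⟨α₀, hα₀⟩) = π (lf (Equiv.mulRight (⟨π ⟨α₀, hα₀⟩, hmem⟩ : K) k)) := by
      rw [hlf1, map_mul, hlf1]
      rfl
    obtain ⟨q, hq⟩ := hker _ _ h1
    refine ⟨q, ?_⟩
    show ((lf (Equiv.mulRight (⟨π ⟨α₀, hα₀⟩, hmem⟩ : K) k) : ↥A) : MulAut ↥Q) =
      MulAut.conj q * (lf k : MulAut ↥Q) * α₀
    rw [hq]
    simp only [mul_assoc]
    rfl
  · rw [← Nat.card_eq_fintype_card]
    exact hKcop
  · intro y hy k
    apply Subtype.ext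
    rw [hact, hρQ y hy]
    simp

theorem frLam_one {Y : Subgroup Ω} {C : Type*} [Group C] (lam : Ω → C)
    (h : ∀ x ∈ Y, ∀ y ∈ Y, lam (x * y) = lam x * lam y) : lam 1 = 1 := by
  have h1 := h 1 Y.one_mem 1 Y.one_mem
  rw [mul_one] at h1
  exact left_eq_mul.mp h1

theorem frLam_inv {Y : Subgroup Ω} {C : Type*} [Group C] (lam : Ω → C)
    (h : ∀ x ∈ Y, ∀ y ∈ Y, lam (x * y) = lam x * lam y) {y : Ω} (hy : y ∈ Y) :
    lam y⁻¹ = (lam y)⁻¹ := by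
  have h1 := h y⁻¹ (Y.inv_mem hy) y hy
  rw [inv_mul_cancel, frLam_one lam h] at h1
  exact eq_inv_of_mul_eq_one_left h1.symm

/-- From an endomorphism of `T` extending a `p'`-automorphism `α` of `Q` and trivial modulo `Q`,
an automorphism of `T` of order prime to `p` with the same properties. -/
theorem exists_pprime_aut {T : Subgroup Ω} [Finite T] {p : ℕ} [hp : Fact p.Prime] (hQT : Q ≤ T)
    (α : MulAut ↥Q) (hα : (orderOf α).Coprime p) (f : Ω → Ω)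
    (hf1 : ∀ g ∈ T, ∀ h ∈ T, f (g * h) = f g * f h) (hf2 : ∀ x : ↥Q, f x = α x)
    (hf3 : ∀ g ∈ T, f g * g⁻¹ ∈ Q) :
    ∃ β : MulAut ↥T, (∀ g : ↥T, ((β g : ↥T) : Ω) * (g : Ω)⁻¹ ∈ Q) ∧
      (∀ x : ↥Q, ((β ⟨x, hQT x.2⟩ : ↥T) : Ω) = α x) ∧ (orderOf β).Coprime p := by
  classical
  have hfT : ∀ g ∈ T, f g ∈ T := by
    intro g hg
    have h1 : f g = f g * g⁻¹ * g := by group
    rw [h1]
    exact T.mul_mem (hQT (hf3 g hg)) hg
  let φ : ↥T →* ↥T := MonoidHom.mk' (fun g => ⟨f g, hfT g g.2⟩)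
    (fun g h => Subtype.ext (hf1 g g.2 h h.2))
  have hφ : ∀ g : ↥T, ((φ g : ↥T) : Ω) = f g := fun g => rfl
  have hinj : Function.Injective φ := by
    rw [injective_iff_map_eq_one]
    intro g hg
    have h1 : f g = 1 := by rw [← hφ, hg]; rfl
    have h2 := hf3 g g.2
    rw [h1, one_mul] at h2
    have h3 : (g : Ω) ∈ Q := by simpa using Q.inv_mem h2
    have h4 := hf2 ⟨g, h3⟩
    rw [h1] at h4
    have h5 : α ⟨g, h3⟩ = 1 := Subtype.ext h4.symm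
    have h6 : (⟨g, h3⟩ : ↥Q) = 1 := by
      have := (EmbeddingLike.map_eq_one_iff (f := α)).mp h5
      exact this
    exact Subtype.ext (congrArg (Subtype.val : ↥Q → Ω) h6)
  let β₁ : MulAut ↥T := MulEquiv.ofBijective φ ⟨hinj, Finite.injective_iff_surjective.mp hinj⟩
  have hβ₁ : ∀ g : ↥T, ((β₁ g : ↥T) : Ω) = f g := fun g => rfl
  have P1 : ∀ i : ℕ, ∀ g : ↥T, (((β₁ ^ i) g : ↥T) : Ω) * (g : Ω)⁻¹ ∈ Q := by
    intro i
    induction i with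
    | zero => intro g; simp
    | succ i ih =>
      intro g
      rw [pow_succ', MulAut.mul_apply, hβ₁]
      have h1 := hf3 _ ((β₁ ^ i) g).2
      have h2 := ih g
      have h3 : f ((β₁ ^ i) g) * (g : Ω)⁻¹ =
          (f ((β₁ ^ i) g) * (((β₁ ^ i) g : ↥T) : Ω)⁻¹) * ((((β₁ ^ i) g : ↥T) : Ω) * (g : Ω)⁻¹) := by
        group
      rw [h3]
      exact Q.mul_mem h1 h2
  have P2 : ∀ i : ℕ, ∀ x : ↥Q, (((β₁ ^ i) ⟨x, hQT x.2⟩ : ↥T) : Ω) = (α ^ i) x := by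
    intro i
    induction i with
    | zero => intro x; simp
    | succ i ih =>
      intro x
      rw [pow_succ', MulAut.mul_apply, hβ₁, pow_succ', MulAut.mul_apply]
      have h1 : (((β₁ ^ i) ⟨x, hQT x.2⟩ : ↥T) : Ω) = (((α ^ i) x : ↥Q) : Ω) := ih x
      rw [h1, hf2]
  have h0 : orderOf β₁ ≠ 0 := (orderOf_pos β₁).ne'
  obtain ⟨j, m, hm, hjm⟩ := Nat.exists_eq_pow_mul_and_not_dvd h0 p hp.out.ne_one
  have hcop : (p ^ j).Coprime (orderOf α) := Nat.Coprime.pow_left j hα.symm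
  obtain ⟨u, hu⟩ := exists_pow_eq_self_of_coprime hcop
  refine ⟨β₁ ^ (p ^ j * u), P1 _, fun x => ?_, ?_⟩
  · rw [P2, pow_mul, hu]
  · have h1 : (β₁ ^ (p ^ j * u)) ^ m = 1 := by
      rw [← pow_mul, mul_right_comm, ← hjm, pow_mul, pow_orderOf_eq_one, one_pow]
    have h2 : orderOf (β₁ ^ (p ^ j * u)) ∣ m := orderOf_dvd_of_pow_eq_one h1
    exact Nat.Coprime.coprime_dvd_left h2
      (Nat.Coprime.symm ((Nat.Prime.coprime_iff_not_dvd hp.out).mpr hm))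

/-- An automorphism of `T` of order prime to `p` which is trivial modulo `Q` and whose restriction
to `Q` is trivial modulo `Y` is trivial modulo `Y`. -/
theorem pprime_aut_mem {T Y : Subgroup Ω} {p : ℕ} (hQp : IsPGroup p Q)
    (hQT : Q ≤ T) (α : MulAut ↥Q) (hαY : ∀ x : ↥Q, ((α x : ↥Q) : Ω) * (x : Ω)⁻¹ ∈ Y)
    (β : MulAut ↥T) (hβ1 : ∀ g : ↥T, ((β g : ↥T) : Ω) * (g : Ω)⁻¹ ∈ Q)
    (hβ2 : ∀ x : ↥Q, ((β ⟨x, hQT x.2⟩ : ↥T) : Ω) = α x) (hβ3 : (orderOf β).Coprime p) :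
    ∀ g : ↥T, ((β g : ↥T) : Ω) * (g : Ω)⁻¹ ∈ Y := by
  intro g
  set q : Ω := ((β g : ↥T) : Ω) * (g : Ω)⁻¹ with hq
  have hqQ : q ∈ Q := hβ1 g
  have key : ∀ i : ℕ, (((β ^ i) g : ↥T) : Ω) * (g : Ω)⁻¹ ∈ Q ∧
      (((β ^ i) g : ↥T) : Ω) * (g : Ω)⁻¹ * (q ^ i)⁻¹ ∈ Y := by
    intro i
    induction i with
    | zero => simp
    | succ i ih =>
      obtain ⟨ih1, ih2⟩ := ih
      set qi : Ω := (((β ^ i) g : ↥T) : Ω) * (g : Ω)⁻¹ with hqi
      have h1 : (β ^ i) g = ⟨qi, hQT ih1⟩ * g := by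
        apply Subtype.ext
        show _ = qi * (g : Ω)
        rw [hqi]; group
      have h2 : (((β ^ (i + 1)) g : ↥T) : Ω) = (α ⟨qi, ih1⟩ : ↥Q) * ((β g : ↥T) : Ω) := by
        rw [pow_succ', MulAut.mul_apply, h1, map_mul]
        show ((β ⟨qi, hQT ih1⟩ : ↥T) : Ω) * _ = _
        rw [hβ2 ⟨qi, ih1⟩]
      have h3 : (((β ^ (i + 1)) g : ↥T) : Ω) * (g : Ω)⁻¹ = (α ⟨qi, ih1⟩ : ↥Q) * q := by
        rw [h2, hq, mul_assoc]
      refine ⟨?_, ?_⟩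
      · rw [h3]
        exact Q.mul_mem (α ⟨qi, ih1⟩).2 hqQ
      · rw [h3]
        have h4 : ((α ⟨qi, ih1⟩ : ↥Q) : Ω) * q * (q ^ (i + 1))⁻¹ =
            (((α ⟨qi, ih1⟩ : ↥Q) : Ω) * qi⁻¹) * (qi * (q ^ i)⁻¹) := by
          rw [pow_succ]; group
        rw [h4]
        exact Y.mul_mem (hαY ⟨qi, ih1⟩) ih2
  have h1 := (key (orderOf β)).2
  rw [pow_orderOf_eq_one] at h1
  have h2 : q ^ orderOf β ∈ Y := by
    have h3 : ((1 : MulAut ↥T) g : Ω) * (g : Ω)⁻¹ * (q ^ orderOf β)⁻¹ = (q ^ orderOf β)⁻¹ := by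
      simp
    rw [h3] at h1
    simpa using Y.inv_mem h1
  obtain ⟨k, hk⟩ := hQp ⟨q, hqQ⟩
  have h3 : q ^ p ^ k = 1 := congrArg Subtype.val hk
  exact frat_mem_of_pow_coprime Y (Nat.Coprime.pow_right k hβ3) h2 (by rw [h3]; exact Y.one_mem)

/-- The extender predicate: conjugation by `g ∈ S`, transported by `α`, is induced by `S`. -/
def FrT (hn : ∀ s ∈ S, ∀ x ∈ Q, s * x * s⁻¹ ∈ Q) (α : MulAut ↥Q) (g : Ω) : Prop :=
  ∃ (hg : g ∈ S) (t : ↥S), α * frConj hn ⟨g, hg⟩ * α⁻¹ = frConj hn t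

/-- `Y` is a normal subgroup of `S` inside `Q` modulo which all `p'`-elements of `A` are
trivial. -/
def FrGood (S : Subgroup Ω) {Q : Subgroup Ω} (A : Subgroup (MulAut ↥Q)) (p : ℕ)
    (Y : Subgroup Ω) : Prop :=
  Y ≤ Q ∧ (∀ s ∈ S, ∀ y ∈ Y, s * y * s⁻¹ ∈ Y) ∧
    ∀ α ∈ A, (orderOf α).Coprime p → ∀ x : ↥Q, ((α x : ↥Q) : Ω) * (x : Ω)⁻¹ ∈ Y

theorem frat_theta [Finite S] {p : ℕ} [Fact p.Prime] (hS : IsPGroup p S) (hQS : Q ≤ S)
    (hn : ∀ s ∈ S, ∀ x ∈ Q, s * x * s⁻¹ ∈ Q) (A : Subgroup (MulAut ↥Q))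
    (hext : ∀ α ∈ A, (orderOf α).Coprime p → ∃ f : Ω → Ω,
        (∀ g h : Ω, FrT hn α g → FrT hn α h → f (g * h) = f g * f h) ∧ (∀ x : ↥Q, f x = α x) ∧
        (∀ g, FrT hn α g → f g * g⁻¹ ∈ Q))
    {X : Type*} [MulAction ↥S X] (k : X) (α : MulAut ↥Q) (hαA : α ∈ A)
    (hαp : (orderOf α).Coprime p)
    (hstab : ∀ s : ↥S, s • k = k →
      ∃ q : ↥Q, α = MulAut.conj q * frConj hn s * α * (frConj hn s)⁻¹)
    (hQk : ∀ (y : ↥S), (y : Ω) ∈ Q → y • k = k)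
    (Y : Subgroup Ω) (hY : FrGood S A p Y)
    {C : Type*} [CommGroup C] (lam : Ω → C)
    (hlam1 : ∀ x ∈ Y, ∀ y ∈ Y, lam (x * y) = lam x * lam y)
    (hlam2 : ∀ s ∈ S, ∀ y ∈ Y, lam (s * y * s⁻¹) = lam y) :
    ∃ θ : MulAction.stabilizer ↥S k →* C, ∀ v : MulAction.stabilizer ↥S k,
      ((v : ↥S) : Ω) ∈ Y → θ v = lam (autFun Q α ((v : ↥S) : Ω)) * (lam ((v : ↥S) : Ω))⁻¹ := by
  classical
  obtain ⟨hYQ, hYn, hYg⟩ := hY
  let T : Subgroup Ω := (MulAction.stabilizer ↥S k).map S.subtype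
  have hTmem : ∀ g : Ω, g ∈ T ↔ ∃ hg : g ∈ S, (⟨g, hg⟩ : ↥S) • k = k := by
    intro g
    constructor
    · rintro ⟨s, hs, rfl⟩
      exact ⟨s.2, hs⟩
    · rintro ⟨hg, h⟩
      exact ⟨⟨g, hg⟩, h, rfl⟩
  have hTS : T ≤ S := fun g hg => ((hTmem g).mp hg).1
  have hfinT : Finite T := finite_of_le hTS
  have hQT : Q ≤ T := fun x hx => (hTmem x).mpr ⟨hQS hx, hQk ⟨x, hQS hx⟩ hx⟩
  obtain ⟨f, hf1, hf2, hf3⟩ := hext α hαA hαp
  have hFrT : ∀ g ∈ T, FrT hn α g := by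
    intro g hg
    obtain ⟨hgS, hk⟩ := (hTmem g).mp hg
    obtain ⟨q, hq⟩ := hstab ⟨g, hgS⟩ hk
    refine ⟨hgS, ⟨q, hQS q.2⟩ * ⟨g, hgS⟩, ?_⟩
    rw [map_mul, ← frConj_of_mem hQS hn]
    have h1 : α * frConj hn ⟨g, hgS⟩ = MulAut.conj q * frConj hn ⟨g, hgS⟩ * α := by
      conv_lhs => rw [hq]
      group
    rw [h1]
    group
  obtain ⟨β, hβ1, hβ2, hβ3⟩ := exists_pprime_aut hQT α hαp f
    (fun g hg h hh => hf1 g h (hFrT g hg) (hFrT h hh)) hf2 (fun g hg => hf3 g (hFrT g hg))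
  have hβY := pprime_aut_mem (hS.to_le hQS) hQT α (hYg α hαA hαp) β hβ1 hβ2 hβ3
  let θ' : ↥T →* C := MonoidHom.mk' (fun g => lam (((β g : ↥T) : Ω) * (g : Ω)⁻¹)) (by
    intro g h
    have h1 : ((β (g * h) : ↥T) : Ω) * ((g * h : ↥T) : Ω)⁻¹ =
        (((β g : ↥T) : Ω) * (g : Ω)⁻¹) *
          ((g : Ω) * (((β h : ↥T) : Ω) * (h : Ω)⁻¹) * (g : Ω)⁻¹) := by
      rw [map_mul]
      simp only [Subgroup.coe_mul]
      group
    show lam _ = lam _ * lam _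
    rw [h1, hlam1 _ (hβY g) _ (hYn _ (hTS g.2) _ (hβY h)), hlam2 _ (hTS g.2) _ (hβY h)])
  let ι : MulAction.stabilizer ↥S k →* ↥T :=
    { toFun := fun s => ⟨((s : ↥S) : Ω), ⟨s, s.2, rfl⟩⟩
      map_one' := rfl
      map_mul' := fun _ _ => rfl }
  refine ⟨θ'.comp ι, fun v hv => ?_⟩
  show lam (((β (ι v) : ↥T) : Ω) * ((v : ↥S) : Ω)⁻¹) = _
  have h1 : ι v = ⟨((⟨((v : ↥S) : Ω), hYQ hv⟩ : ↥Q) : Ω), hQT (hYQ hv)⟩ := rfl
  rw [h1, hβ2, autFun_apply' α (hYQ hv)]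
  have h2 : ((α ⟨_, hYQ hv⟩ : ↥Q) : Ω) ∈ Y := by
    have h3 := Y.mul_mem (hYg α hαA hαp ⟨_, hYQ hv⟩) hv
    simpa using h3
  rw [hlam1 _ h2 _ (Y.inv_mem hv), frLam_inv lam hlam1 hv]

theorem frConj_conj_apply (hn : ∀ s ∈ S, ∀ x ∈ Q, s * x * s⁻¹ ∈ Q) (q : ↥Q) (g : ↥S)
    (γ : MulAut ↥Q) (w w' : ↥Q) (hw' : (w' : Ω) = (g : Ω)⁻¹ * w * g) :
    (((MulAut.conj q * frConj hn g * γ * (frConj hn g)⁻¹) w : ↥Q) : Ω) =
      (q : Ω) * ((g : Ω) * ((γ w' : ↥Q) : Ω) * (g : Ω)⁻¹) * (q : Ω)⁻¹ := by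
  have h1 : (frConj hn g)⁻¹ w = w' := by
    rw [← map_inv]
    apply Subtype.ext
    rw [frConj_apply, hw']
    simp
  rw [MulAut.mul_apply, h1, MulAut.mul_apply, MulAut.mul_apply, MulAut.conj_apply]
  rfl

theorem frat_step [Finite S] {p : ℕ} [hp : Fact p.Prime] (hS : IsPGroup p S) (hQS : Q ≤ S)
    (hn : ∀ s ∈ S, ∀ x ∈ Q, s * x * s⁻¹ ∈ Q)
    (hfrat : ∀ Θ : ↥S →* Multiplicative (ZMod p), ∀ s : ↥S, (s : Ω) ∈ Q → Θ s = 1)
    (A : Subgroup (MulAut ↥Q))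
    (hext : ∀ α ∈ A, (orderOf α).Coprime p → ∃ f : Ω → Ω,
        (∀ g h : Ω, FrT hn α g → FrT hn α h → f (g * h) = f g * f h) ∧ (∀ x : ↥Q, f x = α x) ∧
        (∀ g, FrT hn α g → f g * g⁻¹ ∈ Q))
    {X : Type u} [Fintype X] [MulAction ↥S X] (lift : X → MulAut ↥Q)
    (hl1 : ∀ k, lift k ∈ A ∧ (orderOf (lift k)).Coprime p)
    (hl2 : ∀ (s : ↥S) (k : X), ∃ q : ↥Q,
      lift (s • k) = MulAut.conj q * frConj hn s * lift k * (frConj hn s)⁻¹)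
    (hl3 : ∀ α₀ ∈ A, (orderOf α₀).Coprime p →
      ∃ σ : X ≃ X, ∀ k, ∃ q : ↥Q, lift (σ k) = MulAut.conj q * lift k * α₀)
    (hl4 : (Fintype.card X).Coprime p)
    (hl5 : ∀ (y : ↥S), (y : Ω) ∈ Q → ∀ k : X, y • k = k)
    (Y : Subgroup Ω) (hY : FrGood S A p Y)
    (lam : Ω → Multiplicative (ZMod p))
    (hlam1 : ∀ x ∈ Y, ∀ y ∈ Y, lam (x * y) = lam x * lam y)
    (hlam2 : ∀ s ∈ S, ∀ y ∈ Y, lam (s * y * s⁻¹) = lam y) :
    ∀ α ∈ A, (orderOf α).Coprime p → ∀ x : ↥Q, lam (((α x : ↥Q) : Ω) * (x : Ω)⁻¹) = 1 := by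
  classical
  obtain ⟨hYQ, hYn, hYg⟩ := id hY
  have hYS : Y ≤ S := hYQ.trans hQS
  have hαY : ∀ α ∈ A, (orderOf α).Coprime p → ∀ v (hv : v ∈ Y),
      ((α ⟨v, hYQ hv⟩ : ↥Q) : Ω) ∈ Y := by
    intro α hα hαp v hv
    have h3 := Y.mul_mem (hYg α hα hαp ⟨v, hYQ hv⟩) hv
    simpa using h3
  -- the transfer computation
  have hTR : ∀ v (hv : v ∈ Y),
      ∏ k : X, lam ((lift k ⟨v, hYQ hv⟩ : ↥Q) : Ω) = lam v ^ Fintype.card X := by
    intro v hv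
    have h1 := prod_orbit_eq_one (G := ↥S) (X := X) (Y.subgroupOf S)
      (by
        intro g w hw
        have := hYn (g⁻¹ : ↥S) (g⁻¹ : ↥S).2 w (Subgroup.mem_subgroupOf.mp hw)
        refine Subgroup.mem_subgroupOf.mpr ?_
        simpa using this)
      (fun w hw x => hl5 w (hYQ (Subgroup.mem_subgroupOf.mp hw)) x)
      (fun k w => lam (autFun Q (lift k) (w : Ω)) * (lam (w : Ω))⁻¹)
      (by
        intro g k w hw
        have hwY : (w : Ω) ∈ Y := Subgroup.mem_subgroupOf.mp hw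
        obtain ⟨q, hq⟩ := hl2 g k
        have hw' : ((g⁻¹ * w * g : ↥S) : Ω) ∈ Y := by
          have := hYn (g⁻¹ : ↥S) (g⁻¹ : ↥S).2 w hwY
          simpa using this
        show lam (autFun Q (lift (g • k)) (w : Ω)) * (lam (w : Ω))⁻¹ =
          lam (autFun Q (lift k) ((g⁻¹ * w * g : ↥S) : Ω)) * (lam ((g⁻¹ * w * g : ↥S) : Ω))⁻¹
        rw [autFun_apply' _ (hYQ hwY), autFun_apply' _ (hYQ hw'), hq]
        have e1 := frConj_conj_apply hn q g (lift k) ⟨(w : Ω), hYQ hwY⟩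
          ⟨((g⁻¹ * w * g : ↥S) : Ω), hYQ hw'⟩ (by simp)
        have hm := hαY (lift k) (hl1 k).1 (hl1 k).2 _ hw'
        rw [e1, hlam2 q (hQS q.2) _ (hYn g g.2 _ hm), hlam2 g g.2 _ hm]
        congr 2
        have h2 := hlam2 (g⁻¹ : ↥S) (g⁻¹ : ↥S).2 w hwY
        rw [← h2]
        simp)
      (by
        intro k
        exact frat_theta hS hQS hn A hext k (lift k) (hl1 k).1 (hl1 k).2
          (fun s hs => by
            obtain ⟨q, hq⟩ := hl2 s k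
            rw [hs] at hq
            exact ⟨q, hq⟩)
          (fun y hy => hl5 y hy k) Y hY lam hlam1 hlam2)
      (by
        intro Θ w hw
        exact hfrat Θ w (hYQ (Subgroup.mem_subgroupOf.mp hw)))
      ⟨v, hYS hv⟩ (Subgroup.mem_subgroupOf.mpr hv)
    rw [Finset.prod_mul_distrib, Finset.prod_const, Finset.card_univ, inv_pow] at h1
    have h2 := mul_inv_eq_one.mp h1
    rw [← h2]
    refine Finset.prod_congr rfl fun k _ => ?_
    rw [autFun_apply' _ (hYQ hv)]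
  -- invariance of `lam` under `p'`-elements
  have hc : ∀ α₀ ∈ A, (orderOf α₀).Coprime p → ∀ v (hv : v ∈ Y),
      lam ((α₀ ⟨v, hYQ hv⟩ : ↥Q) : Ω) = lam v := by
    intro α₀ hα₀ hcop v hv
    obtain ⟨σ, hσ⟩ := hl3 α₀ hα₀ hcop
    have hv' := hαY α₀ hα₀ hcop v hv
    have e : ∏ k : X, lam ((lift k ⟨((α₀ ⟨v, hYQ hv⟩ : ↥Q) : Ω), hYQ hv'⟩ : ↥Q) : Ω) =
        ∏ k : X, lam ((lift k ⟨v, hYQ hv⟩ : ↥Q) : Ω) := by
      rw [← σ.prod_comp (fun k => lam ((lift k ⟨v, hYQ hv⟩ : ↥Q) : Ω))]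
      refine Finset.prod_congr rfl fun k _ => ?_
      obtain ⟨q, hq⟩ := hσ k
      rw [hq, MulAut.mul_apply, MulAut.mul_apply, MulAut.conj_apply]
      show _ = lam ((q : Ω) * ((lift k (α₀ ⟨v, hYQ hv⟩) : ↥Q) : Ω) * (q : Ω)⁻¹)
      rw [hlam2 q (hQS q.2) _ (hαY (lift k) (hl1 k).1 (hl1 k).2 _ hv')]
    rw [hTR _ hv', hTR v hv] at e
    have h1 : (lam ((α₀ ⟨v, hYQ hv⟩ : ↥Q) : Ω) * (lam v)⁻¹) ^ Fintype.card X = 1 := by
      rw [mul_pow, inv_pow, e, mul_inv_cancel]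
    exact mul_inv_eq_one.mp (eq_one_of_pow_coprime hl4 h1 (pow_p_mult_zmod p _))
  -- conclusion
  intro α hα hαp
  have hμα : ∀ x : ↥Q, lam (((α (α x) : ↥Q) : Ω) * ((α x : ↥Q) : Ω)⁻¹) =
      lam (((α x : ↥Q) : Ω) * (x : Ω)⁻¹) := by
    intro x
    have h1 := hc α hα hαp _ (hYg α hα hαp x)
    rw [← h1]
    congr 1
    have h2 : α (α x * x⁻¹) = α (α x) * (α x)⁻¹ := by rw [map_mul, map_inv]
    have h3 : (⟨((α x : ↥Q) : Ω) * (x : Ω)⁻¹, hYQ (hYg α hα hαp x)⟩ : ↥Q) = α x * x⁻¹ := rfl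
    rw [h3, h2]
    rfl
  have key : ∀ i : ℕ, ∀ x : ↥Q, (((α ^ i) x : ↥Q) : Ω) * (x : Ω)⁻¹ ∈ Y ∧
      lam ((((α ^ i) x : ↥Q) : Ω) * (x : Ω)⁻¹) = lam (((α x : ↥Q) : Ω) * (x : Ω)⁻¹) ^ i := by
    intro i
    induction i with
    | zero =>
      intro x
      simp [frLam_one lam hlam1, Y.one_mem]
    | succ i ih =>
      intro x
      obtain ⟨ih1, ih2⟩ := ih (α x)
      have h1 : (((α ^ (i + 1)) x : ↥Q) : Ω) * (x : Ω)⁻¹ =
          ((((α ^ i) (α x) : ↥Q) : Ω) * ((α x : ↥Q) : Ω)⁻¹) *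
            (((α x : ↥Q) : Ω) * (x : Ω)⁻¹) := by
        rw [pow_succ, MulAut.mul_apply]
        group
      rw [h1]
      refine ⟨Y.mul_mem ih1 (hYg α hα hαp x), ?_⟩
      rw [hlam1 _ ih1 _ (hYg α hα hαp x), ih2, hμα, pow_succ]
  intro x
  have h1 := (key (orderOf α) x).2
  rw [pow_orderOf_eq_one] at h1
  have h2 : (((1 : MulAut ↥Q) x : ↥Q) : Ω) * (x : Ω)⁻¹ = 1 := by simp
  rw [h2, frLam_one lam hlam1] at h1
  exact eq_one_of_pow_coprime hαp h1.symm (pow_p_mult_zmod p _)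

/-- The abstract theorem: all `p'`-elements of `A` are trivial. -/
theorem frat_abstract [Finite S] {p : ℕ} [hp : Fact p.Prime] (hS : IsPGroup p S) (hQS : Q ≤ S)
    (hn : ∀ s ∈ S, ∀ x ∈ Q, s * x * s⁻¹ ∈ Q)
    (hcomm : ∀ s ∈ S, ∀ t ∈ S, s * t * s⁻¹ * t⁻¹ ∈ Q)
    (hfrat : ∀ Θ : ↥S →* Multiplicative (ZMod p), ∀ s : ↥S, (s : Ω) ∈ Q → Θ s = 1)
    (A : Subgroup (MulAut ↥Q)) (hA : ∀ s, frConj hn s ∈ A)
    (hsyl : ¬ p ∣ ((frConj hn).range.subgroupOf A).index)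
    (hN : ∀ a ∈ A, (∀ s, ∃ t, a * frConj hn s * a⁻¹ = frConj hn t) → ∃ t, a = frConj hn t)
    (hext : ∀ α ∈ A, (orderOf α).Coprime p → ∃ f : Ω → Ω,
        (∀ g h : Ω, FrT hn α g → FrT hn α h → f (g * h) = f g * f h) ∧ (∀ x : ↥Q, f x = α x) ∧
        (∀ g, FrT hn α g → f g * g⁻¹ ∈ Q)) :
    ∀ α ∈ A, (orderOf α).Coprime p → α = 1 := by
  classical
  obtain ⟨X, instX, actX, lift, hl1, hl2, hl3, hl4, hl5⟩ :=
    frat_package hS hQS hn hcomm A hA hsyl hN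
  have hfinQ : Finite Q := finite_of_le hQS
  have key : ∀ n : ℕ, ∀ Y : Subgroup Ω, Nat.card Y ≤ n → FrGood S A p Y →
      FrGood S A p (⊥ : Subgroup Ω) := by
    intro n
    induction n with
    | zero =>
      intro Y hc hY
      have : Finite Y := finite_of_le (hY.1.trans hQS)
      have := Nat.card_pos (α := Y)
      omega
    | succ n ih =>
      intro Y hc hY
      by_cases hb : Y = ⊥
      · rw [← hb]; exact hY
      · obtain ⟨hYQ, hYn, hYg⟩ := id hY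
        have hfinY : Finite Y := finite_of_le (hYQ.trans hQS)
        obtain ⟨lam, hlam1, hlam2, y₀, hy₀, hy₀1⟩ :=
          exists_invariant_hom hS (hYQ.trans hQS) hYn hb
        have hstep := frat_step hS hQS hn hfrat A hext lift hl1 hl2 hl3 hl4 hl5 Y hY lam
          hlam1 hlam2
        let Y' : Subgroup Ω :=
          { carrier := {y | y ∈ Y ∧ lam y = 1}
            mul_mem' := fun {a b} ha hb =>
              ⟨Y.mul_mem ha.1 hb.1, by rw [hlam1 a ha.1 b hb.1, ha.2, hb.2, one_mul]⟩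
            one_mem' := ⟨Y.one_mem, frLam_one lam hlam1⟩
            inv_mem' := fun {a} ha =>
              ⟨Y.inv_mem ha.1, by rw [frLam_inv lam hlam1 ha.1, ha.2, inv_one]⟩ }
        have hY'Y : Y' ≤ Y := fun y hy => hy.1
        have hgood : FrGood S A p Y' :=
          ⟨hY'Y.trans hYQ,
            fun s hs y hy => ⟨hYn s hs y hy.1, by rw [hlam2 s hs y hy.1]; exact hy.2⟩,
            fun α hα hαp x => ⟨hYg α hα hαp x, hstep α hα hαp x⟩⟩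
        have hne : Y' ≠ Y := by
          intro h
          have : y₀ ∈ Y' := by rw [h]; exact hy₀
          exact hy₀1 this.2
        have hlt : Nat.card Y' < Nat.card Y := card_lt_of_lt (lt_of_le_of_ne hY'Y hne)
        exact ih Y' (by omega) hgood
  have hQgood : FrGood S A p Q :=
    ⟨le_rfl, hn, fun α _ _ x => Q.mul_mem (α x).2 (Q.inv_mem x.2)⟩
  have hbot := key (Nat.card Q) Q le_rfl hQgood
  intro α hα hαp
  ext x
  have h1 := hbot.2.2 α hα hαp x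
  rw [Subgroup.mem_bot] at h1
  have h2 := mul_inv_eq_one.mp h1
  rw [h2]
  rfl

end FratB

end Cfsg.Agent.Lib.Helper88
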