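import Cfsg.Agent.Lib.Helper88.FratB
import Cfsg.Agent.Lib.Helper91.Sat2
import Cfsg.Agent.Lib.Helper91.Frattini
import Cfsg.Agent.Lib.Helper90.Coprime
import Cfsg.Agent.Lib.Helper90.Sys

set_option autoImplicit false

namespace Cfsg.Agent.Lib.Helper88

open Cfsg Cfsg.FusionSystem Cfsg.Agent.Lib.Helper90 Cfsg.Agent.Lib.Helper91

section FratC

open scoped Pointwise in
/-- Sylow conjugation inside an intermediate subgroup. -/
theorem exists_conj_mem_of_sylow {G : Type*} [Group G] [Finite G] {p : ℕ} [Fact p.Prime]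
    (P C A B : Subgroup G) (hPC : P ≤ C) (hCA : C ≤ A) (hP : IsPGroup p P)
    (hidx : ¬ p ∣ (P.subgroupOf A).index) (hBC : B ≤ C) (hB : IsPGroup p B) :
    ∃ γ ∈ C, ∀ b ∈ B, γ * b * γ⁻¹ ∈ P := by
  have hP' : IsPGroup p (P.subgroupOf C) :=
    hP.comap_of_injective C.subtype (Subgroup.subtype_injective _)
  have hidx' : ¬ p ∣ (P.subgroupOf C).index := by
    intro h
    apply hidx
    have h1 : P.relIndex C * C.relIndex A = P.relIndex A :=
      Subgroup.relIndex_mul_relIndex P C A hPC hCA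
    exact h.trans (Dvd.intro _ h1)
  let P' : Sylow p ↥C := hP'.toSylow hidx'
  have hB' : IsPGroup p (B.subgroupOf C) :=
    hB.comap_of_injective C.subtype (Subgroup.subtype_injective _)
  obtain ⟨R', hR'⟩ := hB'.exists_le_sylow
  obtain ⟨γ, hγ⟩ := MulAction.exists_smul_eq ↥C R' P'
  refine ⟨γ, γ.2, fun b hb => ?_⟩
  have h1 : (⟨b, hBC hb⟩ : ↥C) ∈ (R' : Subgroup ↥C) := hR' (Subgroup.mem_subgroupOf.mpr hb)
  have hcoe : ((γ • R' : Sylow p ↥C) : Subgroup ↥C) = MulAut.conj γ • (R' : Subgroup ↥C) := rfl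
  have h2 : γ * ⟨b, hBC hb⟩ * γ⁻¹ ∈ ((γ • R' : Sylow p ↥C) : Subgroup ↥C) := by
    rw [hcoe, Subgroup.mem_pointwise_smul_iff_inv_smul_mem]
    simpa [MulAut.smul_def, mul_assoc] using h1
  rw [hγ] at h2
  have h3 := (hP'.mem_toSylow hidx').mp h2
  exact Subgroup.mem_subgroupOf.mp h3

variable {Ω : Type*} [Group Ω] {S : Subgroup Ω} {F : FusionSystem S} {Q R : Subgroup Ω}

theorem Mor.of_eq {P P' : Subgroup Ω} {f : Ω → Ω} (h : Mor F P f) (hP : P = P') : Mor F P' f :=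
  hP ▸ h

theorem frat_normal (hcomm : ∀ s ∈ S, ∀ t ∈ S, s * t * s⁻¹ * t⁻¹ ∈ Q)
    (hQR : Q ≤ R) (hRS : R ≤ S) : ∀ s ∈ S, ∀ x ∈ R, s * x * s⁻¹ ∈ R := by
  intro s hs x hx
  have h1 : s * x * s⁻¹ = (s * x * s⁻¹ * x⁻¹) * x := by group
  rw [h1]
  exact R.mul_mem (hQR (hcomm s hs x (hRS hx))) hx

theorem frat_normalizerIn [Finite S] (hn : ∀ s ∈ S, ∀ x ∈ R, s * x * s⁻¹ ∈ R) (hRS : R ≤ S) :
    normalizerIn S R = S := by
  apply le_antisymm inf_le_left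
  intro s hs
  have : Finite R := finite_of_le hRS
  exact ⟨hs, mem_normalizer_of_finite (fun x hx => hn s hs x hx)⟩

theorem frat_fa_rec [Finite S] {p : ℕ} [Fact p.Prime] (hS : IsPGroup p S)
    (hF : F.IsSaturated p) (hn : ∀ s ∈ S, ∀ x ∈ R, s * x * s⁻¹ ∈ R) (hRS : R ≤ S) :
    F.IsFullyAutomized p R ∧ F.IsReceptive R := by
  apply fa_rec_of_fullyNormalized hS hF
  refine ⟨hRS, fun R' _ => ?_⟩
  rw [frat_normalizerIn hn hRS]
  exact Subgroup.card_le_of_le inf_le_left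

/-- The automorphisms of `R` in the system that are trivial modulo `Q`. -/
def frCC (F : FusionSystem S) (Q R : Subgroup Ω) : Subgroup (MulAut ↥R) where
  carrier := {γ | γ ∈ F.autGroup R ∧ ∀ g : ↥R, ((γ g : ↥R) : Ω) * (g : Ω)⁻¹ ∈ Q}
  mul_mem' := by
    rintro a b ⟨ha, ha'⟩ ⟨hb, hb'⟩
    refine ⟨Subgroup.mul_mem _ ha hb, fun g => ?_⟩
    have h1 : (((a * b) g : ↥R) : Ω) * (g : Ω)⁻¹ =
        (((a (b g) : ↥R) : Ω) * ((b g : ↥R) : Ω)⁻¹) * (((b g : ↥R) : Ω) * (g : Ω)⁻¹) := by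
      rw [MulAut.mul_apply]; group
    rw [h1]
    exact Q.mul_mem (ha' _) (hb' g)
  one_mem' := ⟨Subgroup.one_mem _, fun g => by simp⟩
  inv_mem' := by
    rintro a ⟨ha, ha'⟩
    refine ⟨Subgroup.inv_mem _ ha, fun g => ?_⟩
    have h1 := ha' (a⁻¹ g)
    rw [MulAut.apply_inv_self] at h1
    have h2 : (((a⁻¹ g : ↥R)) : Ω) * (g : Ω)⁻¹ = ((g : Ω) * ((a⁻¹ g : ↥R) : Ω)⁻¹)⁻¹ := by group
    rw [h2]
    exact Q.inv_mem h1

theorem autInducedBy_le_frCC (hcomm : ∀ s ∈ S, ∀ t ∈ S, s * t * s⁻¹ * t⁻¹ ∈ Q) (hRS : R ≤ S) :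
    autInducedBy S R ≤ frCC F Q R := by
  intro α hα
  refine ⟨autInducedBy_le_autGroup F hRS hα, fun g => ?_⟩
  obtain ⟨a, ha, hαa⟩ := (mem_autInducedBy_iff S _ α).mp hα
  rw [hαa]
  exact hcomm a ha g (hRS g.2)

theorem frat_not_dvd_index [Finite S] {p : ℕ} [Fact p.Prime] (hfa : F.IsFullyAutomized p R) :
    ¬ p ∣ ((autInducedBy S R).subgroupOf (F.autGroup R)).index := by
  obtain ⟨hRS, RS, hRS'⟩ := hfa
  have : Finite R := finite_of_le hRS
  rw [← hRS']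
  exact RS.not_dvd_index

/-- The key lemma: a map of the system on an overgroup `R` of `Q` that carries `Q` into `Q`
becomes a conjugation by an element of `S` after composing with an automorphism of `R` in the
system that is trivial modulo `Q`. -/
theorem frat_key [Finite S] {p : ℕ} [Fact p.Prime] (hS : IsPGroup p S) (hF : F.IsSaturated p)
    (hInn : ∀ f, Mor F S f → ∃ u ∈ S, ∀ x ∈ S, f x = u * x * u⁻¹)
    (hQS : Q ≤ S) (hcomm : ∀ s ∈ S, ∀ t ∈ S, s * t * s⁻¹ * t⁻¹ ∈ Q)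
    (hQR : Q ≤ R) (hRS : R ≤ S) {ψ : Ω → Ω} (hψ : Mor F R ψ) (hψQ : ∀ x ∈ Q, ψ x ∈ Q) :
    ∃ γf : Ω → Ω, Mor F R γf ∧ (∀ g ∈ R, γf g * g⁻¹ ∈ Q) ∧ (∀ g ∈ R, ψ g ∈ R) ∧
      ∃ u ∈ S, ∀ x ∈ R, γf (ψ x) = u * x * u⁻¹ := by
  classical
  have hfinQ : Finite Q := finite_of_le hQS
  have hfinR : Finite R := finite_of_le hRS
  have hRn := frat_normal hcomm hQR hRS
  have hR'S : img R ψ ≤ S := hψ.img_le
  have hQR' : Q ≤ img R ψ := by
    intro x hx
    obtain ⟨y, hy, rfl⟩ := (hψ.restrict hQR).surj_of_finite hψQ x hx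
    exact hψ.mem_img_of_mem (hQR hy)
  have hR'n := frat_normal hcomm hQR' hR'S
  obtain ⟨hfa', hrec'⟩ := frat_fa_rec hS hF hR'n hR'S
  have hfinR' : Finite (img R ψ) := finite_of_le hR'S
  obtain ⟨e, he⟩ := hψ.exists_equiv rfl
  let B : Subgroup (MulAut ↥(img R ψ)) := (autInducedBy S R).map (MulAut.congr e).toMonoidHom
  have hBp : IsPGroup p B := (isPGroup_autInducedBy hS R).map _
  have hBC : B ≤ frCC F Q (img R ψ) := by
    rintro _ ⟨α, hα, rfl⟩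
    refine ⟨congr_mem_autGroup hψ rfl e he α (autInducedBy_le_autGroup F hRS hα), fun g => ?_⟩
    obtain ⟨a, ha, hαa⟩ := (mem_autInducedBy_iff S R α).mp hα
    obtain ⟨h, rfl⟩ := e.surjective g
    show (((MulAut.congr e α) (e h) : ↥(img R ψ)) : Ω) * ((e h : ↥(img R ψ)) : Ω)⁻¹ ∈ Q
    rw [congr_apply_coe, MulEquiv.symm_apply_apply, he, he, hαa]
    have h1 : ψ (a * h * a⁻¹) * (ψ h)⁻¹ = ψ (a * h * a⁻¹ * (h : Ω)⁻¹) := by
      rw [hψ.map_mul (hRn a ha h h.2) (R.inv_mem h.2), hψ.map_inv h.2]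
    rw [h1]
    exact hψQ _ (hcomm a ha h (hRS h.2))
  obtain ⟨γ, hγC, hγ⟩ := exists_conj_mem_of_sylow (autInducedBy S (img R ψ))
    (frCC F Q (img R ψ)) (F.autGroup (img R ψ)) B (autInducedBy_le_frCC hcomm hR'S)
    (fun γ hγ => hγ.1) (isPGroup_autInducedBy hS _) (frat_not_dvd_index hfa') hBC hBp
  have hγm : Mor F (img R ψ) (autFun (img R ψ) γ) := (mem_autGroup_iff F hR'S γ).mp hγC.1
  have hcomp : Mor F R (autFun (img R ψ) γ ∘ ψ) :=
    hψ.comp hγm (fun x hx => hψ.mem_img_of_mem hx)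
  have himg : img R (autFun (img R ψ) γ ∘ ψ) = img R ψ := by
    rw [Mor.img_comp hψ hγm (fun x hx => hψ.mem_img_of_mem hx), img_autFun]
  have hext : extFn S R (autFun (img R ψ) γ ∘ ψ) = S := by
    apply le_antisymm ((extFn_le S R _).trans inf_le_left)
    intro a ha
    rw [hcomp.mem_extFn]
    refine ⟨ha, mem_normalizer_of_finite (fun x hx => hRn a ha x hx), ?_⟩
    obtain ⟨α, -, hα⟩ := exists_aut_of_mor (mor_conj F hRS ha) (fun x hx => hRn a ha x hx)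
    have hαS : α ∈ autInducedBy S R := (mem_autInducedBy_iff S R α).mpr ⟨a, ha, hα⟩
    have h1 := hγ (MulAut.congr e α) ⟨α, hαS, rfl⟩
    obtain ⟨b, hb, hbα⟩ := (mem_autInducedBy_iff S _ _).mp h1
    refine ⟨b, hb, fun x hx => ?_⟩
    have h2 := hbα (γ (e ⟨x, hx⟩))
    rw [MulAut.mul_apply, MulAut.mul_apply, MulAut.inv_apply_self, congr_apply_coe,
      MulEquiv.symm_apply_apply] at h2
    show autFun _ γ (ψ (a * x * a⁻¹)) = b * autFun _ γ (ψ x) * b⁻¹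
    have e1 : ψ x = (e ⟨x, hx⟩ : Ω) := (he ⟨x, hx⟩).symm
    have e2 : ψ (a * x * a⁻¹) = (e (α ⟨x, hx⟩) : Ω) := by rw [he, hα]
    rw [e1, e2, autFun_apply, autFun_apply]
    exact h2
  obtain ⟨f', hf', hf'R⟩ := receptive_extend' hrec' hcomp himg
  rw [hext] at hf'
  obtain ⟨u, hu, hfu⟩ := hInn f' hf'
  have hγψ : ∀ x ∈ R, autFun (img R ψ) γ (ψ x) = u * x * u⁻¹ := fun x hx => by
    rw [← hfu x (hRS hx)]
    exact (hf'R x hx).symm
  have hRR' : img R ψ = R := by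
    ext y
    constructor
    · intro hy
      obtain ⟨x, hx, hxy⟩ := hψ.mem_img.mp ((γ⁻¹ ⟨y, hy⟩).2)
      have h1 : y = autFun (img R ψ) γ (ψ x) := by
        rw [hxy, autFun_apply]
        simp
      rw [h1, hγψ x hx]
      exact hRn u hu x hx
    · intro hy
      have hx : u⁻¹ * y * u ∈ R := by
        have := hRn u⁻¹ (S.inv_mem hu) y hy
        simpa using this
      have h1 : y = autFun (img R ψ) γ (ψ (u⁻¹ * y * u)) := by
        rw [hγψ _ hx]; group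
      rw [h1]
      exact autFun_mem γ (hψ.mem_img_of_mem hx)
  refine ⟨autFun (img R ψ) γ, Mor.of_eq hγm hRR', ?_, ?_, u, hu, hγψ⟩
  · intro g hg
    have hg' : g ∈ img R ψ := by rw [hRR']; exact hg
    rw [autFun_apply' γ hg']
    exact hγC.2 ⟨g, hg'⟩
  · intro g hg
    have := hψ.mem_img_of_mem hg
    rwa [hRR'] at this

/-- A map of the system on an overgroup `R` of `Q` that carries `Q` into `Q` is trivial modulo
`Q`. -/
theorem frat_mod [Finite S] {p : ℕ} [Fact p.Prime] (hS : IsPGroup p S) (hF : F.IsSaturated p)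
    (hInn : ∀ f, Mor F S f → ∃ u ∈ S, ∀ x ∈ S, f x = u * x * u⁻¹)
    (hQS : Q ≤ S) (hcomm : ∀ s ∈ S, ∀ t ∈ S, s * t * s⁻¹ * t⁻¹ ∈ Q)
    (hQR : Q ≤ R) (hRS : R ≤ S) {ψ : Ω → Ω} (hψ : Mor F R ψ) (hψQ : ∀ x ∈ Q, ψ x ∈ Q) :
    ∀ g ∈ R, ψ g * g⁻¹ ∈ Q := by
  obtain ⟨γf, hγf, hγQ, hψR, u, hu, hγψ⟩ := frat_key hS hF hInn hQS hcomm hQR hRS hψ hψQ
  intro g hg
  have h1 := hγQ (ψ g) (hψR g hg)
  rw [hγψ g hg] at h1
  have h2 := hcomm u hu g (hRS hg)
  have h3 : ψ g * g⁻¹ = (u * g * u⁻¹ * (ψ g)⁻¹)⁻¹ * (u * g * u⁻¹ * g⁻¹) := by group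
  rw [h3]
  exact Q.mul_mem (Q.inv_mem h1) h2

/-- All elements of `Aut_F(Q)` of order prime to `p` are trivial. -/
theorem frat_autQ_trivial [Finite S] {p : ℕ} [Fact p.Prime] (hS : IsPGroup p S)
    (hF : F.IsSaturated p)
    (hInn : ∀ f, Mor F S f → ∃ u ∈ S, ∀ x ∈ S, f x = u * x * u⁻¹)
    (hQS : Q ≤ S) (hcomm : ∀ s ∈ S, ∀ t ∈ S, s * t * s⁻¹ * t⁻¹ ∈ Q)
    (hfrat : ∀ Θ : ↥S →* Multiplicative (ZMod p), ∀ s : ↥S, (s : Ω) ∈ Q → Θ s = 1) :
    ∀ α ∈ F.autGroup Q, (orderOf α).Coprime p → α = 1 := by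
  have hQn := frat_normal hcomm (le_refl Q) hQS
  obtain ⟨hfa, hrec⟩ := frat_fa_rec hS hF hQn hQS
  have hrange : (frConj hQn).range = autInducedBy S Q := by
    ext α
    rw [mem_autInducedBy_iff]
    constructor
    · rintro ⟨s, rfl⟩
      exact ⟨s, s.2, fun x => rfl⟩
    · rintro ⟨a, ha, hα⟩
      refine ⟨⟨a, ha⟩, ?_⟩
      ext x
      rw [frConj_apply, hα]
  apply frat_abstract hS hQS hQn hcomm hfrat (F.autGroup Q)
  · intro s
    apply autInducedBy_le_autGroup F hQS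
    rw [← hrange]
    exact ⟨s, rfl⟩
  · rw [hrange]
    exact frat_not_dvd_index hfa
  · intro a ha hnorm
    have hnorm' : ∀ τ ∈ autInducedBy S Q, a * τ * a⁻¹ ∈ autInducedBy S Q := by
      intro τ hτ
      rw [← hrange] at hτ ⊢
      obtain ⟨s, rfl⟩ := hτ
      obtain ⟨t, ht⟩ := hnorm s
      exact ⟨t, ht.symm⟩
    obtain ⟨f', hf', hf'Q⟩ := extend_of_normalizes hrec a ha hnorm'
    rw [frat_normalizerIn hQn hQS] at hf'
    obtain ⟨u, hu, hfu⟩ := hInn f' hf'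
    refine ⟨⟨u, hu⟩, ?_⟩
    ext x
    rw [frConj_apply, ← hf'Q x, hfu x (hQS x.2)]
  · intro α hα hαp
    have hαm : Mor F Q (autFun Q α) := (mem_autGroup_iff F hQS α).mp hα
    obtain ⟨f', hf', hf'Q⟩ := receptive_extend' hrec hαm (img_autFun α)
    have hQR : Q ≤ extFn S Q (autFun Q α) := hαm.le_extFn
    have hRS : extFn S Q (autFun Q α) ≤ S := (extFn_le S Q _).trans inf_le_left
    have hmem : ∀ g, FrT hQn α g → g ∈ extFn S Q (autFun Q α) := by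
      rintro g ⟨hg, t, ht⟩
      rw [hαm.mem_extFn]
      have hgN : g ∈ normalizerIn S Q := by rw [frat_normalizerIn hQn hQS]; exact hg
      refine ⟨hg, hgN.2, t, t.2, fun x hx => ?_⟩
      have h1 : (α * frConj hQn ⟨g, hg⟩ * α⁻¹) (α ⟨x, hx⟩) = frConj hQn t (α ⟨x, hx⟩) := by
        rw [ht]
      rw [MulAut.mul_apply, MulAut.mul_apply, MulAut.inv_apply_self] at h1
      have h2 := congrArg Subtype.val h1
      rw [autFun_apply' α hx, autFun_apply' α (hQn g hg x hx)]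
      exact h2
    have hf'Qm : ∀ x ∈ Q, f' x ∈ Q := fun x hx => by
      rw [hf'Q x hx]
      exact autFun_mem α hx
    have hmod := frat_mod hS hF hInn hQS hcomm hQR hRS hf' hf'Qm
    refine ⟨f', fun g h hg hh => hf'.map_mul (hmem g hg) (hmem h hh), fun x => ?_,
      fun g hg => hmod g (hmem g hg)⟩
    rw [hf'Q x x.2, autFun_apply]

/-- The automorphisms of `R ≥ Q` in the system that are trivial modulo `Q` are induced by `S`. -/
theorem frat_CC_le [Finite S] {p : ℕ} [Fact p.Prime] (hS : IsPGroup p S) (hF : F.IsSaturated p)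
    (hQS : Q ≤ S) (hcomm : ∀ s ∈ S, ∀ t ∈ S, s * t * s⁻¹ * t⁻¹ ∈ Q)
    (htriv : ∀ α ∈ F.autGroup Q, (orderOf α).Coprime p → α = 1) (hQR : Q ≤ R) (hRS : R ≤ S) :
    frCC F Q R ≤ autInducedBy S R := by
  classical
  have hfinQ : Finite Q := finite_of_le hQS
  have hfinR : Finite R := finite_of_le hRS
  have hRn := frat_normal hcomm hQR hRS
  have hQn := frat_normal hcomm (le_refl Q) hQS
  obtain ⟨hfa, hrec⟩ := frat_fa_rec hS hF hRn hRS
  have hRp : IsPGroup p R := hS.to_le hRS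
  have hCp : IsPGroup p (frCC F Q R) := by
    apply isPGroup_of_coprime_trivial
    rintro ⟨ε, hε⟩ hcop
    rw [Subgroup.orderOf_mk] at hcop
    apply Subtype.ext
    show ε = 1
    obtain ⟨hεA, hεQ⟩ := hε
    have hεm : Mor F R (autFun R ε) := (mem_autGroup_iff F hRS ε).mp hεA
    have hεQQ : ∀ x ∈ Q, autFun R ε x ∈ Q := by
      intro x hx
      rw [autFun_apply' ε (hQR hx)]
      have h1 := hεQ ⟨x, hQR hx⟩
      have h2 := Q.mul_mem h1 hx
      simpa using h2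
    obtain ⟨α, hα, hαε⟩ := exists_aut_of_mor (hεm.restrict hQR) hεQQ
    have hαε' : ∀ x : ↥Q, ε ⟨x, hQR x.2⟩ = ⟨((α x : ↥Q) : Ω), hQR (α x).2⟩ := by
      intro x
      apply Subtype.ext
      rw [hαε x, autFun_apply' ε (hQR x.2)]
    have hpow : ∀ i : ℕ, ∀ x : ↥Q,
        (((α ^ i) x : ↥Q) : Ω) = (((ε ^ i) ⟨x, hQR x.2⟩ : ↥R) : Ω) := by
      intro i
      induction i with
      | zero => intro x; simp
      | succ i ih =>
        intro x
        rw [pow_succ, MulAut.mul_apply, pow_succ, MulAut.mul_apply, ih, hαε']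
    have hα1 : α ^ orderOf ε = 1 := by
      ext x
      rw [hpow, pow_orderOf_eq_one]
      rfl
    have hαord : (orderOf α).Coprime p :=
      Nat.Coprime.coprime_dvd_left (orderOf_dvd_of_pow_eq_one hα1) hcop
    have hα1' := htriv α hα hαord
    have hεfix : ∀ x : ↥Q, ε ⟨x, hQR x.2⟩ = ⟨x, hQR x.2⟩ := by
      intro x
      rw [hαε', hα1']
      rfl
    ext g
    obtain ⟨k, hk⟩ := hRp (g⁻¹ * ε g)
    have hmemQ : ((g⁻¹ * ε g : ↥R) : Ω) ∈ Q := by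
      have h1 := hεQ g
      have h2 := hQn (g : Ω)⁻¹ (S.inv_mem (hRS g.2)) _ h1
      have h3 : ((g⁻¹ * ε g : ↥R) : Ω) =
          (g : Ω)⁻¹ * (((ε g : ↥R) : Ω) * (g : Ω)⁻¹) * ((g : Ω)⁻¹)⁻¹ := by
        simp only [Subgroup.coe_mul, Subgroup.coe_inv]
        group
      rw [h3]
      exact h2
    have hfix : ε (g⁻¹ * ε g) = g⁻¹ * ε g := hεfix ⟨_, hmemQ⟩
    have h4 := aut_fix_of_fix_comm ε hcop g hfix (by rw [pow_orderOf_eq_one]; rfl) hk
    rw [h4]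
    rfl
  obtain ⟨γ, hγC, hγ⟩ := exists_conj_mem_of_sylow (autInducedBy S R) (frCC F Q R)
    (F.autGroup R) (frCC F Q R) (autInducedBy_le_frCC hcomm hRS) (fun γ hγ => hγ.1)
    (isPGroup_autInducedBy hS _) (frat_not_dvd_index hfa) le_rfl hCp
  intro c hc
  have h1 := hγ (γ⁻¹ * c * γ)
    (Subgroup.mul_mem _ (Subgroup.mul_mem _ (Subgroup.inv_mem _ hγC) hc) hγC)
  have h2 : γ * (γ⁻¹ * c * γ) * γ⁻¹ = c := by group
  rwa [h2] at h1

end FratC

end Cfsg.Agent.Lib.Helper88
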