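import Mathlib
import Cfsg.Agent.Lib.Helper78.JcDefs

/-! S2946 (helper78, project JC), piece K3. -/

set_option autoImplicit false

namespace Cfsg.Agent.Lib.Helper88.Jc

open scoped commutatorElement

variable {G : Type*} [Group G]

/-- a group of order 3 consists of `1`, `c`, `c⁻¹` for any `c ≠ 1` -/
theorem jck3_three {H : Type*} [Group H] (h : Nat.card H = 3) (c : H) (hc : c ≠ 1) (x : H) :
    x = 1 ∨ x = c ∨ x = c⁻¹ := by
  classical
  have : Fact (Nat.Prime 3) := ⟨Nat.prime_three⟩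
  have : Finite H := Nat.finite_of_card_ne_zero (by omega)
  have hc3 : c ^ 3 = 1 := by rw [← h]; exact pow_card_eq_one'
  have ho : orderOf c = 3 := orderOf_eq_prime hc3 hc
  have hx : x ∈ Subgroup.zpowers c := mem_zpowers_of_prime_card h hc
  rw [mem_zpowers_iff_mem_range_orderOf, ho] at hx
  obtain ⟨i, hi, rfl⟩ : ∃ i, i < 3 ∧ c ^ i = x := by simpa using hx
  interval_cases i
  · left; exact pow_zero c
  · right; left; exact pow_one c
  · right; right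
    apply eq_inv_of_mul_eq_one_left
    rw [← pow_succ]; exact hc3

theorem jck3_normal (K Q : Subgroup G) (hKQ : K ≤ Subgroup.normalizer (Q : Set G)) :
    (Q.subgroupOf K).Normal := by
  refine ⟨fun x hx g => ?_⟩
  rw [Subgroup.mem_subgroupOf] at hx ⊢
  exact (Subgroup.mem_normalizer_iff.1 (hKQ g.2) x).1 hx

theorem k3_exists [Finite G] (K Q : Subgroup G) (hQK : Q ≤ K)
    (hKQ : K ≤ Subgroup.normalizer (Q : Set G)) (hQ2 : IsPGroup 2 ↥Q) (h3 : Q.relIndex K = 3)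
    (hodd : Subgroup.closure {g : G | g ∈ K ∧ Odd (orderOf g)} = K) :
    ∃ k ∈ K, k ∉ Q ∧ k ^ 3 = 1 := by
  have hn := jck3_normal K Q hKQ
  have hcard : Nat.card (↥K ⧸ Q.subgroupOf K) = 3 := by
    rw [← Subgroup.index_eq_card]; exact h3
  obtain ⟨g, ⟨hgK, hgodd⟩, hgQ⟩ : ∃ g, (g ∈ K ∧ Odd (orderOf g)) ∧ g ∉ Q := by
    by_contra hcon
    push Not at hcon
    have hle : K ≤ Q := by
      rw [← hodd, Subgroup.closure_le]
      intro g hg
      exact hcon g hg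
    have h1 : Q.relIndex K = 1 := Subgroup.relIndex_eq_one.2 hle
    omega
  refine ⟨g, hgK, hgQ, ?_⟩
  have hg3Q : g ^ 3 ∈ Q := by
    have h1 : (((⟨g, hgK⟩ : ↥K) : ↥K ⧸ Q.subgroupOf K)) ^ 3 = 1 := by
      rw [← hcard]; exact pow_card_eq_one'
    rw [← QuotientGroup.mk_pow, QuotientGroup.eq_one_iff, Subgroup.mem_subgroupOf] at h1
    exact h1
  obtain ⟨m, hm⟩ := hQ2 ⟨g ^ 3, hg3Q⟩
  have hm' : (g ^ 3) ^ 2 ^ m = 1 := by
    have h1 := congrArg Subtype.val hm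
    simpa only [Subgroup.coe_pow, Subgroup.coe_one] using h1
  have hd1 : orderOf (g ^ 3) ∣ 2 ^ m := orderOf_dvd_of_pow_eq_one hm'
  have hd2 : orderOf (g ^ 3) ∣ orderOf g := orderOf_pow_dvd 3
  have hoddg3 : Odd (orderOf (g ^ 3)) := hgodd.of_dvd_nat hd2
  have hcop : Nat.Coprime (orderOf (g ^ 3)) (2 ^ m) :=
    Nat.Coprime.pow_right m (Nat.coprime_two_right.2 hoddg3)
  have h1 : orderOf (g ^ 3) = 1 := Nat.Coprime.eq_one_of_dvd hcop hd1
  exact orderOf_eq_one_iff.1 h1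

theorem k3_cases (K Q : Subgroup G) (hQK : Q ≤ K)
    (hKQ : K ≤ Subgroup.normalizer (Q : Set G)) (h3 : Q.relIndex K = 3)
    (k : G) (hk : k ∈ K) (hkQ : k ∉ Q) :
    ∀ x ∈ K, ∃ q ∈ Q, x = q ∨ x = k * q ∨ x = k⁻¹ * q := by
  have hn := jck3_normal K Q hKQ
  have hcard : Nat.card (↥K ⧸ Q.subgroupOf K) = 3 := by
    rw [← Subgroup.index_eq_card]; exact h3
  intro x hx
  have hkne : ((⟨k, hk⟩ : ↥K) : ↥K ⧸ Q.subgroupOf K) ≠ 1 := by
    intro h
    rw [QuotientGroup.eq_one_iff, Subgroup.mem_subgroupOf] at h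
    exact hkQ h
  rcases jck3_three hcard _ hkne ((⟨x, hx⟩ : ↥K) : ↥K ⧸ Q.subgroupOf K) with h | h | h
  · rw [QuotientGroup.eq_one_iff, Subgroup.mem_subgroupOf] at h
    exact ⟨x, h, Or.inl rfl⟩
  · rw [eq_comm, QuotientGroup.eq, Subgroup.mem_subgroupOf] at h
    refine ⟨k⁻¹ * x, h, Or.inr (Or.inl ?_)⟩
    group
  · rw [eq_comm, ← QuotientGroup.mk_inv, QuotientGroup.eq, Subgroup.mem_subgroupOf] at h
    refine ⟨k * x, ?_, Or.inr (Or.inr ?_)⟩
    · simpa using h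
    · group

end Cfsg.Agent.Lib.Helper88.Jc
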