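import Cfsg.Prelude.Def_BaumannBlocks
import Mathlib

/-! S2984 (helper78, project JD), piece ALT: the even-weight submodule of `(Fin (2m+1) → ZMod 2)`
has no proper nonzero `A_n`-invariant additive subgroup. -/

set_option autoImplicit false

namespace Cfsg.Agent.Lib.Helper88.Jd

open scoped commutatorElement

/-- translating a sum of two basis vectors by a permutation -/
theorem jdalt_single {n : ℕ} (τ : Equiv.Perm (Fin n)) (a b : Fin n) :
    (fun k => ((Pi.single a 1 + Pi.single b 1 : Fin n → ZMod 2)) (τ⁻¹ k))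
      = Pi.single (τ a) 1 + Pi.single (τ b) 1 := by
  funext k
  simp only [Pi.add_apply, Pi.single_apply]
  have h1 : (τ⁻¹ k = a) = (k = τ a) := by
    apply propext
    rw [Equiv.Perm.inv_eq_iff_eq]
  have h2 : (τ⁻¹ k = b) = (k = τ b) := by
    apply propext
    rw [Equiv.Perm.inv_eq_iff_eq]
  simp only [h1, h2]

theorem alt_even_irred (m : ℕ) (hm : 1 ≤ m) (K : AddSubgroup (Fin (2 * m + 1) → ZMod 2))
    (hinv : ∀ σ ∈ alternatingGroup (Fin (2 * m + 1)), ∀ v ∈ K, (fun i => v (σ⁻¹ i)) ∈ K)
    (hne : ∃ v ∈ K, v ≠ 0) (heven : ∀ v ∈ K, ∑ i, v i = 0) :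
    ∀ v : Fin (2 * m + 1) → ZMod 2, ∑ i, v i = 0 → v ∈ K := by
  classical
  have hz : ∀ x : ZMod 2, x = 0 ∨ x = 1 := by decide
  have h2 : ∀ x : ZMod 2, x + x = 0 := by decide
  obtain ⟨v, hvK, hv0⟩ := hne
  obtain ⟨i, hi⟩ : ∃ i, v i ≠ 0 := by
    by_contra hcon
    push Not at hcon
    exact hv0 (funext hcon)
  have hi1 : v i = 1 := (hz (v i)).resolve_left hi
  obtain ⟨i', hi'i, hi'⟩ : ∃ i', i' ≠ i ∧ v i' ≠ 0 := by
    by_contra hcon
    push Not at hcon
    have hs := heven v hvK
    rw [Finset.sum_eq_single i (fun b _ hb => hcon b hb)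
      (fun h => absurd (Finset.mem_univ i) h)] at hs
    exact hi hs
  have hi'1 : v i' = 1 := (hz (v i')).resolve_left hi'
  obtain ⟨j, hj⟩ : ∃ j, v j = 0 := by
    by_contra hcon
    push Not at hcon
    have hall : ∀ k, v k = 1 := fun k => (hz (v k)).resolve_left (hcon k)
    have hs := heven v hvK
    simp only [hall, Finset.sum_const, Finset.card_univ, Fintype.card_fin, nsmul_eq_mul,
      mul_one] at hs
    have h21 : ((2 * m + 1 : ℕ) : ZMod 2) = 1 := by
      push_cast
      have h20 : (2 : ZMod 2) = 0 := by decide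
      rw [h20]
      ring
    rw [h21] at hs
    exact one_ne_zero hs
  have hji : j ≠ i := fun h => by rw [h] at hj; exact hi hj
  have hji' : j ≠ i' := fun h => by rw [h] at hj; exact hi' hj
  -- the 3-cycle
  obtain ⟨ρ, hρdef⟩ : ∃ ρ : Equiv.Perm (Fin (2 * m + 1)), ρ = Equiv.swap i j * Equiv.swap i i' :=
    ⟨_, rfl⟩
  have hρi : ρ i = i' := by
    rw [hρdef, Equiv.Perm.mul_apply, Equiv.swap_apply_left,
      Equiv.swap_apply_of_ne_of_ne hi'i hji'.symm]
  have hρi' : ρ i' = j := by
    rw [hρdef, Equiv.Perm.mul_apply, Equiv.swap_apply_right, Equiv.swap_apply_left]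
  have hρj : ρ j = i := by
    rw [hρdef, Equiv.Perm.mul_apply, Equiv.swap_apply_of_ne_of_ne hji hji',
      Equiv.swap_apply_right]
  have hρk : ∀ k, k ≠ i → k ≠ i' → k ≠ j → ρ k = k := by
    intro k h1 h2' h3
    rw [hρdef, Equiv.Perm.mul_apply, Equiv.swap_apply_of_ne_of_ne h1 h2',
      Equiv.swap_apply_of_ne_of_ne h1 h3]
  have hρalt : ρ⁻¹ ∈ alternatingGroup (Fin (2 * m + 1)) := by
    rw [Equiv.Perm.mem_alternatingGroup, map_inv, hρdef, map_mul,
      Equiv.Perm.sign_swap hji.symm, Equiv.Perm.sign_swap hi'i.symm]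
    decide
  have hw : (Pi.single i' 1 + Pi.single j 1 : Fin (2 * m + 1) → ZMod 2) ∈ K := by
    have h1 := K.add_mem hvK (hinv ρ⁻¹ hρalt v hvK)
    have h3 : (v + fun k => v (ρ⁻¹⁻¹ k)) = Pi.single i' 1 + Pi.single j 1 := by
      funext k
      rw [inv_inv]
      simp only [Pi.add_apply, Pi.single_apply]
      by_cases hk1 : k = i
      · subst hk1
        rw [hρi, hi1, hi'1, if_neg hi'i.symm, if_neg hji.symm]
        decide
      · by_cases hk2 : k = i'
        · subst hk2
          rw [hρi', hi'1, hj, if_pos rfl, if_neg hji'.symm]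
        · by_cases hk3 : k = j
          · subst hk3
            rw [hρj, hi1, hj, if_neg hk2, if_pos rfl]
          · rw [hρk k hk1 hk2 hk3, if_neg hk2, if_neg hk3, h2, add_zero]
    rw [h3] at h1
    exact h1
  -- all permutations
  have hall : ∀ τ : Equiv.Perm (Fin (2 * m + 1)),
      (Pi.single (τ i') 1 + Pi.single (τ j) 1 : Fin (2 * m + 1) → ZMod 2) ∈ K := by
    intro τ
    rcases Int.units_eq_one_or (Equiv.Perm.sign τ) with hs | hs
    · have h1 := hinv τ (Equiv.Perm.mem_alternatingGroup.2 hs) _ hw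
      rw [jdalt_single] at h1
      exact h1
    · have hs' : Equiv.Perm.sign (τ * Equiv.swap i' j) = 1 := by
        rw [map_mul, hs, Equiv.Perm.sign_swap hji'.symm]
        decide
      have h1 := hinv _ (Equiv.Perm.mem_alternatingGroup.2 hs') _ hw
      rw [jdalt_single, Equiv.Perm.mul_apply, Equiv.Perm.mul_apply, Equiv.swap_apply_left,
        Equiv.swap_apply_right] at h1
      have h3 : (Pi.single (τ i') 1 + Pi.single (τ j) 1 : Fin (2 * m + 1) → ZMod 2)
          = Pi.single (τ j) 1 + Pi.single (τ i') 1 := add_comm _ _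
      rw [h3]
      exact h1
  have hpair : ∀ c d : Fin (2 * m + 1), c ≠ d →
      (Pi.single c 1 + Pi.single d 1 : Fin (2 * m + 1) → ZMod 2) ∈ K := by
    intro c d hcd
    have hb' : Equiv.swap i' c j ≠ c := by
      intro h
      have h' : Equiv.swap i' c j = Equiv.swap i' c i' := by rw [h, Equiv.swap_apply_left]
      exact hji' ((Equiv.swap i' c).injective h')
    have h1 := hall (Equiv.swap (Equiv.swap i' c j) d * Equiv.swap i' c)
    rw [Equiv.Perm.mul_apply, Equiv.Perm.mul_apply, Equiv.swap_apply_left,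
      Equiv.swap_apply_of_ne_of_ne hb'.symm hcd, Equiv.swap_apply_left] at h1
    exact h1
  -- every even-weight vector
  intro u hu
  have hsum : u = ∑ k, u k • (Pi.single k 1 + Pi.single i 1 : Fin (2 * m + 1) → ZMod 2) := by
    funext l
    simp only [Finset.sum_apply, Pi.smul_apply, Pi.add_apply, smul_eq_mul, Pi.single_apply,
      mul_add, Finset.sum_add_distrib, mul_ite, mul_one,
      mul_zero, Finset.sum_ite_eq, Finset.mem_univ, if_true]
    by_cases hl : l = i
    · simp only [hl, if_true, hu, add_zero]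
    · simp only [hl, if_false, Finset.sum_const_zero, add_zero]
  rw [hsum]
  apply K.sum_mem
  intro k _
  rcases hz (u k) with h0 | h1
  · rw [h0, zero_smul]
    exact K.zero_mem
  · rw [h1, one_smul]
    by_cases hki : k = i
    · have h0 : (Pi.single k 1 + Pi.single i 1 : Fin (2 * m + 1) → ZMod 2) = 0 := by
        rw [hki]
        funext l
        exact h2 _
      rw [h0]
      exact K.zero_mem
    · exact hpair k i hki

end Cfsg.Agent.Lib.Helper88.Jd
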