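import Mathlib

set_option autoImplicit false

namespace Cfsg.Agent.Lib.Helper88.M2

open scoped commutatorElement

variable {X : Type*} [Group X]

/-- `y ^ n * x = z ^ n * (x * y ^ n)` when `y * x = z * (x * y)` and `z` commutes with `y`. -/
theorem pow_mul_comm_central {x y z : X} (hz : y * x = z * (x * y)) (hzy : z * y = y * z) (n : ℕ) :
    y ^ n * x = z ^ n * (x * y ^ n) := by
  induction n with
  | zero => simp
  | succ n ih =>
    have hzyn : Commute z (y ^ n) := Commute.pow_right hzy n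
    calc y ^ (n + 1) * x = y ^ n * (y * x) := by rw [pow_succ, mul_assoc]
      _ = y ^ n * (z * (x * y)) := by rw [hz]
      _ = z * (y ^ n * x) * y := by
        rw [← mul_assoc (y ^ n) z, ← hzyn.eq, mul_assoc z, ← mul_assoc (y ^ n) x y, ← mul_assoc z]
      _ = z * (z ^ n * (x * y ^ n)) * y := by rw [ih]
      _ = z ^ (n + 1) * (x * y ^ (n + 1)) := by
        rw [pow_succ' z, pow_succ y]; simp only [mul_assoc]

/-- The power formula in class two. -/
theorem mul_pow_comm_central {x y z : X} (hz : y * x = z * (x * y)) (hzx : z * x = x * z)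
    (hzy : z * y = y * z) (n : ℕ) :
    (x * y) ^ n = z ^ (n.choose 2) * (x ^ n * y ^ n) := by
  induction n with
  | zero => simp
  | succ n ih =>
    have h1 : (n + 1).choose 2 = n.choose 2 + n := by
      rw [Nat.choose_succ_succ' n 1, Nat.choose_one_right, add_comm]
    have hzxn : Commute (z ^ n) (x ^ n) := (Commute.pow_right (show Commute z x from hzx) n).pow_left n
    calc (x * y) ^ (n + 1) = z ^ (n.choose 2) * (x ^ n * y ^ n) * (x * y) := by rw [pow_succ, ih]
      _ = z ^ (n.choose 2) * (x ^ n * (y ^ n * x) * y) := by simp only [mul_assoc]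
      _ = z ^ (n.choose 2) * (x ^ n * (z ^ n * (x * y ^ n)) * y) := by
        rw [pow_mul_comm_central hz hzy n]
      _ = z ^ (n.choose 2) * (z ^ n * x ^ n * (x * y ^ n) * y) := by
        rw [← mul_assoc (x ^ n) (z ^ n), ← hzxn.eq]
      _ = z ^ ((n + 1).choose 2) * (x ^ (n + 1) * y ^ (n + 1)) := by
        rw [h1, pow_add z, pow_succ x, pow_succ y]; simp only [mul_assoc]

/-- In a subgroup of index two not containing `b`, `b ^ i` is a member iff `i` is even. -/
theorem pow_mem_iff_even_of_index_two {M : Subgroup X} (hM : M.index = 2) {b : X} (hb : b ∉ M)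
    (i : ℕ) : b ^ i ∈ M ↔ Even i := by
  induction i with
  | zero => simp
  | succ i ih =>
    rw [pow_succ, Subgroup.mul_mem_iff_of_index_two hM, ih]
    simp [hb, Nat.even_add_one]

/-- Two subgroups of index two agreeing on the generators `a`, `b` of `X = ⟨a⟩⟨b⟩` coincide. -/
theorem index_two_ext {M M' : Subgroup X} (hM : M.index = 2) (hM' : M'.index = 2) {a b : X}
    (hgen : ∀ x : X, ∃ i j : ℕ, x = a ^ i * b ^ j) (ha : a ∈ M ↔ a ∈ M') (hb : b ∈ M ↔ b ∈ M') :
    M = M' := by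
  have key : ∀ (c : X) (k : ℕ), (c ∈ M ↔ c ∈ M') → (c ^ k ∈ M ↔ c ^ k ∈ M') := by
    intro c k hc
    by_cases h : c ∈ M
    · have h' := hc.1 h
      exact ⟨fun _ => pow_mem h' k, fun _ => pow_mem h k⟩
    · have h' : c ∉ M' := fun h'' => h (hc.2 h'')
      rw [pow_mem_iff_even_of_index_two hM h, pow_mem_iff_even_of_index_two hM' h']
  ext x
  obtain ⟨i, j, rfl⟩ := hgen x
  rw [Subgroup.mul_mem_iff_of_index_two hM, Subgroup.mul_mem_iff_of_index_two hM', key a i ha,
    key b j hb]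

/-- A subgroup of index two cannot contain both generators. -/
theorem not_both_mem_of_index_two {M : Subgroup X} (hM : M.index = 2) {a b : X}
    (hgen : ∀ x : X, ∃ i j : ℕ, x = a ^ i * b ^ j) : ¬ (a ∈ M ∧ b ∈ M) := by
  rintro ⟨ha, hb⟩
  have : M = ⊤ := by
    rw [eq_top_iff]
    intro x _
    obtain ⟨i, j, rfl⟩ := hgen x
    exact mul_mem (pow_mem ha i) (pow_mem hb j)
  rw [this, Subgroup.index_top] at hM
  omega

/-- Among four subgroups of index two of `X = ⟨a⟩⟨b⟩`, two coincide. -/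
theorem four_index_two {a b : X} (hgen : ∀ x : X, ∃ i j : ℕ, x = a ^ i * b ^ j)
    (P₁ P₂ P₃ P₄ : Subgroup X) (h₁ : P₁.index = 2) (h₂ : P₂.index = 2) (h₃ : P₃.index = 2)
    (h₄ : P₄.index = 2) :
    P₁ = P₂ ∨ P₁ = P₃ ∨ P₁ = P₄ ∨ P₂ = P₃ ∨ P₂ = P₄ ∨ P₃ = P₄ := by
  have e12 := index_two_ext h₁ h₂ hgen
  have e13 := index_two_ext h₁ h₃ hgen
  have e14 := index_two_ext h₁ h₄ hgen
  have e23 := index_two_ext h₂ h₃ hgen
  have e24 := index_two_ext h₂ h₄ hgen
  have e34 := index_two_ext h₃ h₄ hgen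
  have n1 := not_both_mem_of_index_two h₁ hgen
  have n2 := not_both_mem_of_index_two h₂ hgen
  have n3 := not_both_mem_of_index_two h₃ hgen
  have n4 := not_both_mem_of_index_two h₄ hgen
  by_cases a1 : a ∈ P₁ <;> by_cases a2 : a ∈ P₂ <;> by_cases a3 : a ∈ P₃ <;> by_cases a4 : a ∈ P₄ <;>
    by_cases b1 : b ∈ P₁ <;> by_cases b2 : b ∈ P₂ <;> by_cases b3 : b ∈ P₃ <;>
    by_cases b4 : b ∈ P₄ <;> simp_all

/-- A proper subgroup of a finite `2`-group lies in a subgroup of index two. -/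
theorem exists_index_two_ge_aux [Finite X] (hX : IsPGroup 2 X) : ∀ (d : ℕ) (C : Subgroup X),
    Nat.card C * 2 ^ (d + 1) = Nat.card X → ∃ M : Subgroup X, C ≤ M ∧ M.index = 2 := by
  have : Fact (Nat.Prime 2) := ⟨Nat.prime_two⟩
  intro d
  induction d with
  | zero =>
    intro C hC
    refine ⟨C, le_refl _, ?_⟩
    have h1 := Subgroup.card_mul_index C
    have hpos : 0 < Nat.card C := Nat.card_pos
    rw [← hC] at h1
    simpa using Nat.eq_of_mul_eq_mul_left hpos h1
  | succ d ih =>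
    intro C hC
    obtain ⟨j, hj⟩ := IsPGroup.iff_card.mp (hX.to_subgroup C)
    have hdvd : 2 ^ (j + 1) ∣ Nat.card X := by
      rw [← hC, hj]
      exact ⟨2 ^ (d + 1), by ring⟩
    obtain ⟨K, hK, hCK⟩ := Sylow.exists_subgroup_card_pow_succ hdvd hj
    obtain ⟨M, hKM, hM⟩ := ih K (by rw [hK, ← hC, hj]; ring)
    exact ⟨M, hCK.trans hKM, hM⟩

theorem exists_index_two_ge [Finite X] (hX : IsPGroup 2 X) (C : Subgroup X) (hC : C ≠ ⊤) :
    ∃ M : Subgroup X, C ≤ M ∧ M.index = 2 := by
  obtain ⟨j, hj⟩ := IsPGroup.iff_card.mp (hX.to_subgroup C)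
  obtain ⟨k, hk⟩ := IsPGroup.iff_card.mp hX
  have h1 := Subgroup.card_mul_index C
  have hjk : j < k := by
    rcases Nat.lt_or_ge j k with h | h
    · exact h
    · exfalso
      have hle : Nat.card X ≤ Nat.card C := by
        rw [hj, hk]; exact Nat.pow_le_pow_right (by norm_num) h
      exact hC (Subgroup.eq_top_of_le_card C hle)
  obtain ⟨d, hd⟩ : ∃ d, k = j + (d + 1) := ⟨k - j - 1, by omega⟩
  exact exists_index_two_ge_aux hX d C (by rw [hj, hk, hd]; ring)

/-- An automorphism of odd prime order of a finite `2`-group fixing every subgroup of index two is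
trivial. -/
theorem aut_eq_one_of_fix_index_two [Finite X] (hX : IsPGroup 2 X) (α : MulAut X) {q : ℕ}
    (hq : q.Prime) (hq2 : q ≠ 2) (hα : α ^ q = 1)
    (hfix : ∀ M : Subgroup X, M.index = 2 → ∀ x, α x ∈ M ↔ x ∈ M) : α = 1 := by
  classical
  have hqf : Fact q.Prime := ⟨hq⟩
  by_contra hne
  have hC : MonoidHom.eqLocus α.toMonoidHom (MonoidHom.id X) ≠ ⊤ := by
    intro h
    apply hne
    ext x
    have : x ∈ MonoidHom.eqLocus α.toMonoidHom (MonoidHom.id X) := by rw [h]; trivial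
    exact this
  obtain ⟨M, hCM, hM⟩ := exists_index_two_ge hX _ hC
  have hMα := hfix M hM
  have hfin : Fintype X := Fintype.ofFinite X
  let f : Function.End {x : X // x ∉ M} := fun x => ⟨α x.1, fun h => x.2 ((hMα x.1).1 h)⟩
  have hfk : ∀ (k : ℕ) (x : {x : X // x ∉ M}), ((f ^ k) x).1 = (α ^ k) x.1 := by
    intro k
    induction k with
    | zero => intro x; rfl
    | succ k ih =>
      intro x
      rw [pow_succ', pow_succ']
      show α ((f ^ k) x).1 = α ((α ^ k) x.1)
      rw [ih]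
  have hf : f ^ q ^ 1 = 1 := by
    rw [pow_one]
    funext x
    apply Subtype.ext
    rw [hfk, hα]
    rfl
  have hmod := Equiv.Perm.card_fixedPoints_modEq (p := q) (n := 1) hf
  have hcard : Fintype.card {x : X // x ∉ M} = Nat.card M := by
    rw [Fintype.card_subtype_compl, ← Nat.card_eq_fintype_card, ← Nat.card_eq_fintype_card]
    have h1 := Subgroup.card_mul_index M
    rw [hM] at h1
    have : Nat.card {x // x ∈ M} = Nat.card M := rfl
    omega
  obtain ⟨j, hj⟩ := IsPGroup.iff_card.mp (hX.to_subgroup M)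
  have hne0 : Fintype.card (Function.fixedPoints f) ≠ 0 := by
    intro h0
    rw [hcard, hj, h0] at hmod
    have hdvd : q ∣ 2 ^ j := (Nat.modEq_zero_iff_dvd).1 hmod
    have := (Nat.prime_dvd_prime_iff_eq hq Nat.prime_two).1 (hq.dvd_of_dvd_pow hdvd)
    exact hq2 this
  obtain ⟨⟨x, hx⟩⟩ := Fintype.card_pos_iff.1 (Nat.pos_of_ne_zero hne0)
  have hx' : α x.1 = x.1 := congrArg Subtype.val hx
  exact x.2 (hCM hx')

end Cfsg.Agent.Lib.Helper88.M2
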