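import Mathlib
import Cfsg.Agent.Lib.Helper88.M2a
import Cfsg.Agent.Lib.Helper7.Quat

set_option autoImplicit false

namespace Cfsg.Agent.Lib.Helper88.M2

open scoped commutatorElement

variable {X : Type*} [Group X]

theorem comm_mul_left_of_central {x x' y : X} (hc : ∀ w : X, ⁅x', y⁆ * w = w * ⁅x', y⁆) :
    ⁅x * x', y⁆ = ⁅x, y⁆ * ⁅x', y⁆ := by
  have e : ⁅x * x', y⁆ = x * ⁅x', y⁆ * x⁻¹ * ⁅x, y⁆ := by
    simp only [commutatorElement_def]; group
  rw [e, ← hc x, mul_assoc ⁅x', y⁆, mul_inv_cancel, mul_one, hc]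

theorem comm_pow_left_of_central {x y : X} (hc : ∀ w : X, ⁅x, y⁆ * w = w * ⁅x, y⁆) (n : ℕ) :
    ⁅x ^ n, y⁆ = ⁅x, y⁆ ^ n := by
  induction n with
  | zero => simp
  | succ n ih => rw [pow_succ, comm_mul_left_of_central hc, ih, pow_succ]

/-- In a cyclic `2`-group `⟨g⟩` of order `2 ^ (k + 1)`, the involution `g ^ 2 ^ k` lies in every
nontrivial subgroup. -/
theorem cyc_two_unique_invol {g y : X} {k : ℕ} (hg : orderOf g = 2 ^ (k + 1))
    (hy : y ∈ Subgroup.zpowers g) (hy1 : y ≠ 1) : g ^ 2 ^ k ∈ Subgroup.zpowers y := by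
  have hfin : IsOfFinOrder g := by
    rw [← orderOf_pos_iff, hg]; positivity
  obtain ⟨i, rfl⟩ := (Submonoid.mem_powers_iff _ _).1 (hfin.mem_powers_iff_mem_zpowers.2 hy)
  have hi0 : i ≠ 0 := by rintro rfl; exact hy1 (pow_zero g)
  obtain ⟨j, o, ho, rfl⟩ := Nat.exists_eq_pow_mul_and_not_dvd hi0 2 (by norm_num)
  have hjk : j ≤ k := by
    by_contra hlt
    push Not at hlt
    apply hy1
    obtain ⟨d, rfl⟩ : ∃ d, j = k + 1 + d := ⟨j - (k + 1), by omega⟩
    rw [pow_add, mul_assoc, pow_mul, ← hg, pow_orderOf_eq_one, one_pow]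
  obtain ⟨d, rfl⟩ : ∃ d, k = j + d := ⟨k - j, by omega⟩
  obtain ⟨r, hr⟩ : ∃ r, o = 2 * r + 1 := by
    rcases Nat.even_or_odd' o with ⟨r, hr | hr⟩
    · exact absurd ⟨r, hr⟩ ho
    · exact ⟨r, hr⟩
  have : g ^ 2 ^ (j + d) = (g ^ (2 ^ j * o)) ^ 2 ^ d := by
    have e : 2 ^ j * (2 * r + 1) * 2 ^ d = 2 ^ (j + d + 1) * r + 2 ^ (j + d) := by ring
    rw [← pow_mul, hr, e, pow_add g (2 ^ (j + d + 1) * r) (2 ^ (j + d)), pow_mul g, ← hg,
      pow_orderOf_eq_one, one_pow, one_mul]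
  rw [this]
  exact pow_mem (Subgroup.mem_zpowers _) _

/-- If the automorphism group of the finite `2`-group `X = ⟨a⟩⟨b⟩` is not a `2`-group, some
automorphism fixes no subgroup of index two. -/
theorem exists_aut_no_fixed_index_two [Finite X] (hX : IsPGroup 2 X) {a b : X}
    (hgen : ∀ x : X, ∃ i j : ℕ, x = a ^ i * b ^ j) (hA : ¬ IsPGroup 2 (MulAut X)) :
    ∃ α : MulAut X, ∀ M : Subgroup X, M.index = 2 → ¬ (∀ x, α x ∈ M ↔ x ∈ M) := by
  classical
  have hex : ∃ q : ℕ, q.Prime ∧ q ≠ 2 ∧ q ∣ Nat.card (MulAut X) := by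
    by_contra hcon
    push Not at hcon
    apply hA
    have hpos : Nat.card (MulAut X) ≠ 0 := Nat.card_pos.ne'
    have := Nat.eq_prime_pow_of_unique_prime_dvd hpos (p := 2) (fun {d} hd hdvd => by
      by_contra h2; exact hcon d hd h2 hdvd)
    exact IsPGroup.of_card this
  obtain ⟨q, hq, hq2, hdvd⟩ := hex
  have hqf : Fact q.Prime := ⟨hq⟩
  obtain ⟨α, hαo⟩ := exists_prime_orderOf_dvd_card' q hdvd
  refine ⟨α, ?_⟩
  intro M₀ hM₀ hfix₀
  have hαq : α ^ q = 1 := by rw [← hαo]; exact pow_orderOf_eq_one α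
  have hα1 : α ≠ 1 := by
    intro h
    rw [h, orderOf_one] at hαo
    exact hq.one_lt.ne hαo
  apply hα1
  apply aut_eq_one_of_fix_index_two hX α hq hq2 hαq
  intro M hM
  by_contra hMfix
  have hM1i : (M.comap α.toMonoidHom).index = 2 := by
    rw [Subgroup.index_comap_of_surjective _ α.surjective]; exact hM
  have hM2i : ((M.comap α.toMonoidHom).comap α.toMonoidHom).index = 2 := by
    rw [Subgroup.index_comap_of_surjective _ α.surjective]; exact hM1i
  have mem1 : ∀ x, x ∈ M.comap α.toMonoidHom ↔ α x ∈ M := fun x => Iff.rfl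
  have mem2 : ∀ x, x ∈ (M.comap α.toMonoidHom).comap α.toMonoidHom ↔ α (α x) ∈ M :=
    fun x => Iff.rfl
  have hsurj : ∀ y, ∃ x, α x = y := α.surjective
  have d1 : M₀ ≠ M := by rintro rfl; exact hMfix hfix₀
  have d2 : M₀ ≠ M.comap α.toMonoidHom := by
    intro h
    apply d1
    ext y
    obtain ⟨x, rfl⟩ := hsurj y
    rw [hfix₀ x, h, mem1]
  have d3 : M₀ ≠ (M.comap α.toMonoidHom).comap α.toMonoidHom := by
    intro h
    apply d1
    ext y
    obtain ⟨x, rfl⟩ := hsurj y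
    obtain ⟨x', rfl⟩ := hsurj x
    rw [hfix₀, hfix₀, h, mem2]
  have d4 : M ≠ M.comap α.toMonoidHom := by
    intro h
    apply hMfix
    intro x
    rw [← mem1, ← h]
  have d5 : M.comap α.toMonoidHom ≠ (M.comap α.toMonoidHom).comap α.toMonoidHom := by
    intro h
    apply hMfix
    intro y
    obtain ⟨x, rfl⟩ := hsurj y
    rw [← mem2, ← h, mem1]
  have d6 : M ≠ (M.comap α.toMonoidHom).comap α.toMonoidHom := by
    intro h
    apply hMfix
    have h2 : ∀ x, α (α x) ∈ M ↔ x ∈ M := fun x => by rw [← mem2, ← h]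
    have hk : ∀ (k : ℕ) (x : X), (α ^ (2 * k)) x ∈ M ↔ x ∈ M := by
      intro k
      induction k with
      | zero => intro x; simp
      | succ k ih =>
        intro x
        have : (α ^ (2 * (k + 1))) x = α (α ((α ^ (2 * k)) x)) := by
          rw [show 2 * (k + 1) = 1 + (1 + 2 * k) by ring, pow_add, pow_add, pow_one]; rfl
        rw [this, h2, ih]
    obtain ⟨k, hk'⟩ : ∃ k, q + 1 = 2 * k := by
      rcases hq.eq_two_or_odd' with h | ⟨r, hr⟩
      · exact absurd h hq2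
      · exact ⟨r + 1, by omega⟩
    intro x
    have : (α ^ (2 * k)) x = α x := by rw [← hk', pow_succ, hαq, one_mul]
    rw [← this]; exact hk k x
  rcases four_index_two hgen M₀ M (M.comap α.toMonoidHom)
    ((M.comap α.toMonoidHom).comap α.toMonoidHom) hM₀ hM hM1i hM2i with h | h | h | h | h | h
  exacts [d1 h, d2 h, d3 h, d4 h, d6 h, d5 h]

end Cfsg.Agent.Lib.Helper88.M2
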