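import Cfsg.Prelude.Def_OddOrderLocal
import Cfsg.Agent.Lib.Helper88.M2c

set_option autoImplicit false
open Cfsg

/-! Copy of the proof of S1896 (helper41's `Meta2a/b/c` + `S1896`) under fresh names: the
original library cannot be imported together with `Cfsg.Agent.Lib.Helper41.Crit` (a name clash),
which `S5234` needs. -/

namespace Cfsg.Agent.Lib.Helper88.M2

/-- A finite metacyclic 2-group whose automorphism group is not a 2-group is isomorphic to the
quaternion group of order 8 or to a homocyclic abelian group `Z_{2^n} × Z_{2^n}`. -/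
theorem metacyclic_two_aut {X : Type*} [Group X] [Finite X] (hX : IsPGroup 2 X)
    (hm : Cfsg.IsMetacyclic X) (hA : ¬ IsPGroup 2 (MulAut X)) :
    Nonempty (X ≃* QuaternionGroup 2) ∨
      ∃ n : ℕ, Nonempty (X ≃* Multiplicative (ZMod (2 ^ n)) × Multiplicative (ZMod (2 ^ n))) := by
  classical
  obtain ⟨N, hN, hcyc, hq⟩ := hm
  obtain ⟨g₀, hg₀⟩ := hcyc.exists_generator
  obtain ⟨γ, hγ⟩ := hq.exists_generator
  obtain ⟨b, rfl⟩ := QuotientGroup.mk_surjective γ
  have hNg : Subgroup.zpowers (g₀ : X) = N := by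
    apply le_antisymm
    · exact Subgroup.zpowers_le.2 g₀.2
    · intro x hx
      obtain ⟨e, he⟩ := Subgroup.mem_zpowers_iff.1 (hg₀ ⟨x, hx⟩)
      have : (g₀ : X) ^ e = x := by
        have := congrArg (Subtype.val) he
        simpa using this
      rw [← this]
      exact Subgroup.zpow_mem_zpowers _ e
  have hNn : (Subgroup.zpowers (g₀ : X)).Normal := by rw [hNg]; exact hN
  have hgen : ∀ x : X, ∃ i j : ℕ, x = (g₀ : X) ^ i * b ^ j := by
    intro x
    have h1 : (QuotientGroup.mk x : X ⧸ N) ∈ Subgroup.zpowers (QuotientGroup.mk b : X ⧸ N) :=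
      hγ _
    obtain ⟨j, hj⟩ := (Submonoid.mem_powers_iff _ _).1
      ((isOfFinOrder_of_finite _).mem_powers_iff_mem_zpowers.2 h1)
    have h2 : x * (b ^ j)⁻¹ ∈ N := by
      have : (QuotientGroup.mk (x * (b ^ j)⁻¹) : X ⧸ N) = 1 := by
        rw [QuotientGroup.mk_mul, QuotientGroup.mk_inv, QuotientGroup.mk_pow, hj, mul_inv_cancel]
      exact (QuotientGroup.eq_one_iff _).1 this
    rw [← hNg] at h2
    obtain ⟨i, hi⟩ := (Submonoid.mem_powers_iff _ _).1
      ((isOfFinOrder_of_finite _).mem_powers_iff_mem_zpowers.2 h2)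
    refine ⟨i, j, ?_⟩
    rw [hi, inv_mul_cancel_right]
  obtain ⟨α, hα⟩ := Cfsg.Agent.Lib.Helper88.M2.exists_aut_no_fixed_index_two hX hgen hA
  exact Cfsg.Agent.Lib.Helper88.M2.metacyclic_two_of_aut hX hNn hgen α hα


end Cfsg.Agent.Lib.Helper88.M2
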