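import Cfsg.Agent.Lib.Helper88.PIdxH
import Cfsg.Agent.Lib.Helper90.Closed
import Cfsg.Agent.Lib.Helper90.Centric

set_option autoImplicit false
open Cfsg

namespace Cfsg.Agent.Lib.Helper88.PIdx

open Cfsg.FusionSystem Cfsg.Agent.Lib.Helper90 Cfsg.Agent.Lib.Helper91 Cfsg.Agent.Lib.Helper88
open Cfsg.Agent.S5114 (opP Inv Good aF_mul aF_one aF_conj aF_mor)

variable {Ω : Type*} [Group Ω] {S T : Subgroup Ω} {F : FusionSystem S} {E : FusionSystem T}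
  {p : ℕ} {N : Subgroup (MulAut T)} {P Q V M : Subgroup Ω} {f g : Ω → Ω}

/-- The setting: `E` an invariant saturated subsystem over `T` of the saturated system `F` over
`S`, and `N` a normal subgroup of `Aut_F(T)` containing `Aut_E(T)` whose quotient has exponent
prime to `p`. -/
structure Setup (F : FusionSystem S) (E : FusionSystem T) (p : ℕ) (N : Subgroup (MulAut T)) :
    Prop where
  hS : IsPGroup p S
  hF : F.IsSaturated p
  hEs : E.IsSaturated p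
  hinv : E.IsInvariantIn F
  hN1 : N ≤ F.autGroup T
  hN2 : ∀ α ∈ F.autGroup T, ∀ β ∈ N, α * β * α⁻¹ ∈ N
  hN3 : E.autGroup T ≤ N
  hN4 : ∃ m : ℕ, m.Coprime p ∧ ∀ α ∈ F.autGroup T, α ^ m ∈ N

theorem Setup.hTS (h : Setup F E p N) : T ≤ S := h.hinv.2.1.1

theorem Setup.hsc (h : Setup F E p N) : F.StronglyClosed T := h.hinv.2.1

theorem Setup.hsub (h : Setup F E p N) : E.IsSubsystemOf F := h.hinv.1

theorem Setup.memT (h : Setup F E p N) (hf : Mor F P f) {x : Ω} (hx : x ∈ P) (hxT : x ∈ T) :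
    f x ∈ T :=
  stronglyClosed_mor_mem h.hsc (hf.restrict inf_le_left) inf_le_right
    (Subgroup.mem_inf.mpr ⟨hx, hxT⟩)

theorem Setup.normalT (h : Setup F E p N) {a x : Ω} (ha : a ∈ S) (hx : x ∈ T) :
    a * x * a⁻¹ ∈ T :=
  h.memT (mor_conj F h.hTS ha) hx hx

theorem Setup.img_inf (h : Setup F E p N) (hf : Mor F P f) : img (P ⊓ T) f = img P f ⊓ T := by
  ext y
  rw [(hf.restrict inf_le_left).mem_img, Subgroup.mem_inf]
  constructor
  · rintro ⟨x, hx, rfl⟩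
    exact ⟨hf.mem_img_of_mem hx.1, h.memT hf hx.1 hx.2⟩
  · rintro ⟨hy, hyT⟩
    obtain ⟨x, hx, rfl⟩ := hf.mem_img.mp hy
    have h1 : invFn P f (f x) ∈ T := h.memT hf.inv (hf.mem_img_of_mem hx) hyT
    rw [hf.invFn_apply hx] at h1
    exact ⟨x, Subgroup.mem_inf.mpr ⟨hx, h1⟩, rfl⟩

theorem Setup.mem_N_of_pow (h : Setup F E p N) {α : MulAut T} (hα : α ∈ F.autGroup T) (k : ℕ)
    (hk : α ^ (p ^ k) ∈ N) : α ∈ N := by
  obtain ⟨m, hm, hmN⟩ := h.hN4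
  have hc : Nat.Coprime m (p ^ k) := Nat.Coprime.pow_right k hm
  have hz : (1 : ℤ) = (m : ℤ) * Nat.gcdA m (p ^ k) + ((p ^ k : ℕ) : ℤ) * Nat.gcdB m (p ^ k) := by
    have h1 := Nat.gcd_eq_gcd_ab m (p ^ k)
    rw [hc.gcd_eq_one] at h1
    exact_mod_cast h1
  have h1 : α = (α ^ m) ^ (Nat.gcdA m (p ^ k)) * (α ^ (p ^ k)) ^ (Nat.gcdB m (p ^ k)) := by
    rw [← zpow_natCast α m, ← zpow_natCast α (p ^ k), ← zpow_mul, ← zpow_mul, ← zpow_add, ← hz,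
      zpow_one]
  rw [h1]
  exact N.mul_mem (N.zpow_mem (hmN α hα) _) (N.zpow_mem hk _)

theorem Setup.conj_mem_N [Finite S] (h : Setup F E p N) {a : Ω} (ha : a ∈ S) :
    ∃ β ∈ N, ∀ x : T, ((β x : T) : Ω) = a * x * a⁻¹ := by
  have : Finite T := finite_of_le h.hTS
  have hm : Mor F T (fun x => a * x * a⁻¹) := mor_conj F h.hTS ha
  obtain ⟨β, hβ, hβa⟩ := exists_aut_of_mor hm (fun x hx => h.normalT ha hx)
  refine ⟨β, ?_, hβa⟩
  obtain ⟨k, hk⟩ := h.hS ⟨a, ha⟩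
  have hk' : a ^ p ^ k = 1 := by
    have h1 := congrArg Subtype.val hk
    simpa using h1
  have h1 : β ^ (p ^ k) = 1 := by
    ext x
    rw [aut_pow_conj β a hβa (p ^ k) x, hk']
    simp
  exact h.mem_N_of_pow hβ k (by rw [h1]; exact N.one_mem)

theorem Setup.exists_res [Finite S] (h : Setup F E p N) {δ : MulAut S} (hδ : δ ∈ F.autGroup S) :
    ∃ δT ∈ F.autGroup T, ∀ x ∈ T, autFun T δT x = autFun S δ x := by
  have : Finite T := finite_of_le h.hTS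
  have hm : Mor F T (autFun S δ) := (aF_mor hδ).restrict h.hTS
  obtain ⟨β, hβ, hβf⟩ := exists_aut_of_mor hm (fun x hx => h.memT hm hx hx)
  exact ⟨β, hβ, fun x hx => by rw [autFun_apply' β hx]; exact hβf ⟨x, hx⟩⟩

/-! ### The systems `N · E` over `T` and its pullback to `S` -/

theorem Setup.prodHyp (h : Setup F E p N) : ProdHyp F E N where
  hTS := h.hTS
  hsub := h.hsub
  hA := h.hN1
  hconj := fun _ _ hf _ hα => invariant_mor h.hinv hf (h.hN1 hα)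

/-- The system `N · E` over `T`. -/
def sysT (h : Setup F E p N) : FusionSystem T := prodSys h.prodHyp

theorem mor_sysT_iff (h : Setup F E p N) : Mor (sysT h) P f ↔
    ∃ β ∈ N, ∃ f₀, Mor E P f₀ ∧ ∀ x ∈ P, f x = autFun T β (f₀ x) :=
  mor_prodSys_iff _

/-- The maps of `F` whose restriction to `T` lies in `N · E`. -/
def CD (h : Setup F E p N) (P : Subgroup Ω) (f : Ω → Ω) : Prop :=
  Mor F P f ∧ Mor (sysT h) (P ⊓ T) f

theorem CD_conj [Finite S] (h : Setup F E p N) (hP : P ≤ S) {a : Ω} (ha : a ∈ S) :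
    Mor (sysT h) (P ⊓ T) (fun x => a * x * a⁻¹) := by
  obtain ⟨β, hβ, hβa⟩ := h.conj_mem_N ha
  refine (mor_sysT_iff h).mpr ⟨β, hβ, id, mor_id E inf_le_right, fun x hx => ?_⟩
  show a * x * a⁻¹ = autFun T β x
  rw [autFun_apply' β hx.2, hβa]

theorem CD_inv (h : Setup F E p N) (hc : CD h P f) :
    Mor (sysT h) (img P f ⊓ T) (invFn P f) := by
  rw [← h.img_inf hc.1]
  refine hc.2.inv.congr (fun y hy => ?_)
  obtain ⟨x, hx, rfl⟩ := (hc.1.restrict inf_le_left).mem_img.mp hy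
  rw [(hc.1.restrict inf_le_left).invFn_apply hx, hc.1.invFn_apply hx.1]

/-- The system of maps of `F` whose restriction to `T` lies in `N · E`. -/
def sysD [Finite S] (h : Setup F E p N) : FusionSystem S :=
  mkSys F S (CD h)
    (fun _ _ _ hc hfg => ⟨hc.1.congr hfg, hc.2.congr (fun x hx => hfg x hx.1)⟩)
    (fun _ _ hc => hc.1)
    (fun _ _ hc => ⟨hc.1.le, fun _ hx => hc.1.mem hx⟩)
    (fun _ _ hP ha => ⟨mor_conj F hP ha, CD_conj h hP ha⟩)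
    (fun _ _ _ _ hf hg hPQ => ⟨hf.1.comp hg.1 hPQ,
      hf.2.comp hg.2 (fun x hx => Subgroup.mem_inf.mpr ⟨hPQ x hx.1, hf.2.mem hx⟩)⟩)
    (fun _ _ hc => ⟨hc.1.inv, CD_inv h hc⟩)

theorem mor_sysD_iff [Finite S] (h : Setup F E p N) :
    Mor (sysD h) P f ↔ Mor F P f ∧ Mor (sysT h) (P ⊓ T) f :=
  mor_mkSys_iff _ _ _ _ _ _ _ _ _

/-! ### Powers -/

theorem Setup.iter_decomp (h : Setup F E p N) {ρ ρ₀ : Ω → Ω} {δ : MulAut T}
    (hδ : δ ∈ F.autGroup T) (hρ₀ : Mor E V ρ₀) (hdec : ∀ x ∈ V, ρ x = autFun T δ (ρ₀ x))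
    (hV : ∀ x ∈ V, ρ x ∈ V) (n : ℕ) :
    (∀ x ∈ V, ρ^[n] x ∈ V) ∧
      ∃ ρn, Mor E V ρn ∧ ∀ x ∈ V, ρ^[n] x = autFun T (δ ^ n) (ρn x) := by
  have hVT : V ≤ T := hρ₀.le
  induction n with
  | zero =>
    refine ⟨fun x hx => hx, id, mor_id E hVT, fun x hx => ?_⟩
    show x = autFun T (δ ^ 0) x
    rw [pow_zero, aF_one (hVT hx)]
  | succ n ih =>
    obtain ⟨hmem, ρn, hρn, hn⟩ := ih
    have hmem' : ∀ x ∈ V, ρ^[n + 1] x ∈ V := by
      intro x hx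
      rw [Function.iterate_succ_apply']
      exact hV _ (hmem x hx)
    refine ⟨hmem', ?_⟩
    have hδn : δ ^ n ∈ F.autGroup T := (F.autGroup T).pow_mem hδ n
    have hc := invariant_mor h.hinv hρ₀ ((F.autGroup T).inv_mem hδn)
    rw [inv_inv] at hc
    have hcV : Mor F V (autFun T (δ ^ n)⁻¹) :=
      ((mem_autGroup_iff F h.hTS _).mp ((F.autGroup T).inv_mem hδn)).restrict hVT
    have hρnx : ∀ x ∈ V, ρn x = autFun T (δ ^ n)⁻¹ (ρ^[n] x) := by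
      intro x hx
      rw [hn x hx, autFun_inv_apply' (δ ^ n) (hρn.mem hx)]
    have hmemimg : ∀ x ∈ V, ρn x ∈ img V (autFun T (δ ^ n)⁻¹) := by
      intro x hx
      rw [hρnx x hx]
      exact hcV.mem_img_of_mem (hmem x hx)
    refine ⟨_, hρn.comp hc hmemimg, fun x hx => ?_⟩
    show ρ^[n + 1] x = autFun T (δ ^ (n + 1)) (autFun T (δ ^ n)⁻¹ (ρ₀ (autFun T (δ ^ n) (ρn x))))
    have hz : ρ₀ (autFun T (δ ^ n) (ρn x)) ∈ T := by
      rw [← hn x hx]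
      exact hρ₀.mem (hmem x hx)
    rw [pow_succ', aF_mul δ (δ ^ n) (autFun_mem _ hz), autFun_inv_apply (δ ^ n) hz, ← hn x hx,
      ← hdec _ (hmem x hx), Function.iterate_succ_apply']

theorem autFun_pow (κ : MulAut Q) (n : ℕ) {x : Ω} (hx : x ∈ Q) :
    autFun Q (κ ^ n) x = (autFun Q κ)^[n] x := by
  induction n with
  | zero =>
    rw [pow_zero, aF_one hx]
    rfl
  | succ n ih => rw [pow_succ', aF_mul κ (κ ^ n) hx, ih, Function.iterate_succ_apply']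

theorem Setup.sysT_aut_pow (h : Setup F E p N) (hVT : V ≤ T) {ρ : Ω → Ω} (hρ : Mor F V ρ)
    (hV : ∀ x ∈ V, ρ x ∈ V) :
    ∃ m : ℕ, m.Coprime p ∧ ∀ j : ℕ, Mor (sysT h) V (ρ^[m * j]) := by
  obtain ⟨m, hm, hmN⟩ := h.hN4
  obtain ⟨δ, hδ, ρ₀, hρ₀, hdec⟩ := invariant_frattini h.hinv hVT hρ
  refine ⟨m, hm, fun j => ?_⟩
  obtain ⟨-, ρn, hρn, hn⟩ := h.iter_decomp hδ hρ₀ hdec hV (m * j)
  refine (mor_sysT_iff h).mpr ⟨δ ^ (m * j), ?_, ρn, hρn, hn⟩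
  rw [pow_mul]
  exact N.pow_mem (hmN δ hδ) j

theorem Setup.sysD_opP [Finite S] (h : Setup F E p N) (hQ : Q ≤ S) :
    opP p (F.autGroup Q) ≤ (sysD h).autGroup Q := by
  unfold opP
  rw [Subgroup.closure_le]
  rintro κ ⟨hκ, k, hk⟩
  show κ ∈ (sysD h).autGroup Q
  rw [mem_autGroup_iff _ hQ, mor_sysD_iff]
  have hκm : Mor F Q (autFun Q κ) := (mem_autGroup_iff F hQ κ).mp hκ
  refine ⟨hκm, ?_⟩
  have hV : ∀ x ∈ Q ⊓ T, autFun Q κ x ∈ Q ⊓ T := fun x hx =>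
    Subgroup.mem_inf.mpr ⟨autFun_mem κ hx.1, h.memT hκm hx.1 hx.2⟩
  obtain ⟨m, hm, hmor⟩ := h.sysT_aut_pow inf_le_right (hκm.restrict inf_le_left) hV
  have hc : Nat.Coprime m (orderOf κ) := by
    rw [hk]
    exact Nat.Coprime.pow_right k hm
  obtain ⟨j, hj⟩ := exists_pow_eq_self_of_coprime hc
  refine (hmor j).congr (fun x hx => ?_)
  rw [← autFun_pow κ (m * j) hx.1, pow_mul, hj]

end Cfsg.Agent.Lib.Helper88.PIdx
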