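import Cfsg.Agent.Lib.Helper88.NormChiA

set_option autoImplicit false
open Cfsg

namespace Cfsg.Agent.Lib.Helper88.PIdx

open Cfsg.FusionSystem Cfsg.Agent.Lib.Helper90 Cfsg.Agent.Lib.Helper91 Cfsg.Agent.Lib.Helper88
open Cfsg.Agent.S5114 (opP Inv Good aF_mul aF_one aF_conj aF_mor)

variable {Ω : Type*} [Group Ω] {S T : Subgroup Ω} {F : FusionSystem S} {E : FusionSystem T}
  {p : ℕ} {N : Subgroup (MulAut T)} {P Q V M : Subgroup Ω} {f g : Ω → Ω}

/-- `V ≤ T` and every `F`-conjugate of `V` contains its centralizer in `T`. -/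
def CT (F : FusionSystem S) (T V : Subgroup Ω) : Prop :=
  V ≤ T ∧ ∀ f, Mor F V f → centralizerIn T (img V f) ≤ img V f

/-- The `F`-centric subgroups whose intersection with `T` satisfies `CT`. -/
def KK (F : FusionSystem S) (T : Subgroup Ω) : Set (Subgroup Ω) :=
  {P | F.IsCentric P ∧ CT F T (P ⊓ T)}

theorem Setup.CT_img (h : Setup F E p N) (hV : CT F T V) (hf : Mor F V f) :
    CT F T (img V f) := by
  refine ⟨fun y hy => ?_, fun g hg => ?_⟩
  · obtain ⟨x, hx, rfl⟩ := hf.mem_img.mp hy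
    exact h.memT hf hx (hV.1 hx)
  · have hfg : ∀ x ∈ V, f x ∈ img V f := fun x hx => hf.mem_img_of_mem hx
    rw [← Mor.img_comp hf hg hfg]
    exact hV.2 _ (hf.comp hg hfg)

theorem CT_of_le (hV : CT F T V) (hVM : V ≤ M) (hM : M ≤ T) : CT F T M := by
  refine ⟨hM, fun f hf => ?_⟩
  have hle : img V f ≤ img M f := by
    intro y hy
    obtain ⟨x, hx, rfl⟩ := (hf.restrict hVM).mem_img.mp hy
    exact hf.mem_img_of_mem (hVM hx)
  intro c hc
  refine hle (hV.2 f (hf.restrict hVM) ⟨hc.1, ?_⟩)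
  exact Subgroup.centralizer_le (SetLike.coe_subset_coe.mpr hle) hc.2

theorem Setup.CT_centric (h : Setup F E p N) (hV : CT F T V) : E.IsCentric V :=
  ⟨hV.1, fun Q hQ => by
    obtain ⟨f, hf, rfl⟩ := isConj_iff.mp hQ
    exact hV.2 f (mor_of_subsystem h.hsub hf)⟩

theorem Setup.CT_of_centric (h : Setup F E p N) (hV : E.IsCentric V) : CT F T V := by
  refine ⟨hV.1, fun f hf => ?_⟩
  obtain ⟨δ, hδ, f₀, hf₀, hff⟩ := invariant_frattini h.hinv hV.1 hf
  have hc0 : centralizerIn T (img V f₀) ≤ img V f₀ := hV.2 _ (isConj_of_mor hf₀)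
  have hδi : Mor F T (autFun T δ⁻¹) :=
    (mem_autGroup_iff F h.hTS δ⁻¹).mp ((F.autGroup T).inv_mem hδ)
  intro c hc
  have hcT : c ∈ T := hc.1
  have h1 : autFun T δ⁻¹ c ∈ centralizerIn T (img V f₀) := by
    refine ⟨autFun_mem _ hcT, ?_⟩
    show autFun T δ⁻¹ c ∈ Subgroup.centralizer ((img V f₀ : Subgroup Ω) : Set Ω)
    rw [Subgroup.mem_centralizer_iff]
    intro y hy
    obtain ⟨x, hx, rfl⟩ := hf₀.mem_img.mp hy
    have hfx : f x ∈ img V f := hf.mem_img_of_mem hx
    have hcomm : f x * c = c * f x := Subgroup.mem_centralizer_iff.mp hc.2 (f x) hfx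
    have e1 : f₀ x = autFun T δ⁻¹ (f x) := by
      rw [hff x hx, autFun_inv_apply' δ (hf₀.mem hx)]
    have hfxT : f x ∈ T := by
      rw [hff x hx]
      exact autFun_mem δ (hf₀.mem hx)
    rw [e1, ← hδi.map_mul hfxT hcT, ← hδi.map_mul hcT hfxT, hcomm]
  obtain ⟨z, hz, hzc⟩ := hf₀.mem_img.mp (hc0 h1)
  have h2 : c = f z := by
    rw [hff z hz, hzc, autFun_inv_apply δ hcT]
  rw [h2]
  exact hf.mem_img_of_mem hz

theorem Setup.KK_conj (h : Setup F E p N) : ∀ P ∈ KK F T, ∀ Q, F.IsConj P Q → Q ∈ KK F T := by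
  rintro P ⟨hPc, hPT⟩ Q hQ
  refine ⟨centric_of_isConj hPc hQ, ?_⟩
  obtain ⟨f, hf, rfl⟩ := isConj_iff.mp hQ
  rw [← h.img_inf hf]
  exact h.CT_img hPT (hf.restrict inf_le_left)

theorem Setup.KK_top [Finite S] (h : Setup F E p N) : S ∈ KK F T := by
  have : Finite T := finite_of_le h.hTS
  refine ⟨Cfsg.Agent.S5140.centric_top F, ?_⟩
  rw [inf_eq_right.mpr h.hTS]
  exact h.CT_of_centric (Cfsg.Agent.S5140.centric_top E)

/-- The key lemma: an element of `Aut_F(T)` whose restriction to a subgroup satisfying `CT` is a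
map of `E` lies in `N`. -/
theorem Setup.W [Finite S] [Fact p.Prime] (h : Setup F E p N) :
    ∀ (n : ℕ) (V : Subgroup Ω), Nat.card T - Nat.card V = n → CT F T V →
      ∀ γ ∈ F.autGroup T, Mor E V (autFun T γ) → γ ∈ N := by
  have hfinT : Finite T := finite_of_le h.hTS
  have hT : IsPGroup p T := h.hS.to_le h.hTS
  intro n
  induction n using Nat.strong_induction_on with
  | _ n ih =>
  intro V hn hV γ hγ hm
  have hVT : V ≤ T := hV.1
  rcases eq_or_lt_of_le hVT with heq | hlt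
  · exact h.hN3 ((mem_autGroup_iff E le_rfl γ).mpr (hm.restrict heq.ge))
  · have hVc : E.IsCentric V := h.CT_centric hV
    have hfinV : Finite V := finite_of_le (hVT.trans h.hTS)
    have hVM : V ≤ normalizerIn T V := le_normalizerIn hVT
    have hMT : normalizerIn T V ≤ T := inf_le_left
    have hltM : V < normalizerIn T V := lt_normalizerIn hT hlt
    have hV'c : E.IsCentric (img V (autFun T γ)) := centric_img hVc hm
    have hrec : E.IsReceptive (img V (autFun T γ)) :=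
      rec_of_fullyCentralized hT h.hEs (fullyCentralized_of_centric (fun _ => subset_rfl) hV'c)
    obtain ⟨ψ, hψ, hψV⟩ := receptive_extend' hrec hm rfl
    have hγm : Mor F T (autFun T γ) := (mem_autGroup_iff F h.hTS γ).mp hγ
    have hγi : Mor F T (autFun T γ⁻¹) :=
      (mem_autGroup_iff F h.hTS γ⁻¹).mp ((F.autGroup T).inv_mem hγ)
    have hMext : normalizerIn T V ≤ extFn T V (autFun T γ) := by
      intro a ha
      rw [hm.mem_extFn]
      exact ⟨ha.1, ha.2, autFun T γ a, autFun_mem γ ha.1, fun x hx => aF_conj γ ha.1 (hVT hx)⟩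
    have hψM : Mor E (normalizerIn T V) ψ := hψ.restrict hMext
    have hψMF : Mor F (normalizerIn T V) ψ := mor_of_subsystem h.hsub hψM
    have hρ : Mor F (normalizerIn T V) (autFun T γ⁻¹ ∘ ψ) :=
      hψMF.comp hγi (fun x hx => hψM.mem hx)
    have hρV : ∀ x ∈ V, (autFun T γ⁻¹ ∘ ψ) x = x := by
      intro x hx
      show autFun T γ⁻¹ (ψ x) = x
      rw [hψV x hx, autFun_inv_apply' γ (hVT hx)]
    have hρa : ∀ a ∈ normalizerIn T V, a⁻¹ * (autFun T γ⁻¹ ∘ ψ) a ∈ V := by
      intro a ha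
      have haT : a ∈ T := hMT ha
      have hψa : ψ a ∈ T := hψM.mem ha
      have hd : (autFun T γ a)⁻¹ * ψ a ∈ centralizerIn T (img V (autFun T γ)) := by
        refine ⟨T.mul_mem (T.inv_mem (autFun_mem γ haT)) hψa, ?_⟩
        show _ ∈ Subgroup.centralizer ((img V (autFun T γ) : Subgroup Ω) : Set Ω)
        rw [Subgroup.mem_centralizer_iff]
        intro y hy
        obtain ⟨v, hv, rfl⟩ := hm.mem_img.mp hy
        have hav : a * v * a⁻¹ ∈ V := conj_mem_of_mem_normalizer ha.2 hv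
        have e1 : ψ (a * v * a⁻¹) = ψ a * ψ v * (ψ a)⁻¹ := by
          rw [hψM.map_mul ((normalizerIn T V).mul_mem ha (hVM hv)) ((normalizerIn T V).inv_mem ha),
            hψM.map_mul ha (hVM hv), hψM.map_inv ha]
        have e2 : ψ (a * v * a⁻¹) = autFun T γ a * autFun T γ v * (autFun T γ a)⁻¹ := by
          rw [hψV _ hav, aF_conj γ haT (hVT hv)]
        have h1 : ψ a * autFun T γ v * (ψ a)⁻¹ =
            autFun T γ a * autFun T γ v * (autFun T γ a)⁻¹ := by
          rw [← e2, e1, hψV v hv]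
        have h2 : ψ a * autFun T γ v =
            autFun T γ a * autFun T γ v * (autFun T γ a)⁻¹ * ψ a := by
          rw [← h1]
          group
        calc autFun T γ v * ((autFun T γ a)⁻¹ * ψ a)
            = (autFun T γ a)⁻¹ *
                (autFun T γ a * autFun T γ v * (autFun T γ a)⁻¹ * ψ a) := by group
          _ = (autFun T γ a)⁻¹ * (ψ a * autFun T γ v) := by rw [h2]
          _ = (autFun T γ a)⁻¹ * ψ a * autFun T γ v := by group
      obtain ⟨z, hz, hzd⟩ := hm.mem_img.mp (centric_self_le hV'c hd)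
      have h3 : ψ a = autFun T γ (a * z) := by
        rw [hγm.map_mul haT (hVT hz), hzd]
        group
      have h4 : (autFun T γ⁻¹ ∘ ψ) a = a * z := by
        show autFun T γ⁻¹ (ψ a) = a * z
        rw [h3, autFun_inv_apply' γ (T.mul_mem haT (hVT hz))]
      rw [h4, inv_mul_cancel_left]
      exact hz
    have hρM : ∀ a ∈ normalizerIn T V, (autFun T γ⁻¹ ∘ ψ) a ∈ normalizerIn T V := by
      intro a ha
      have h1 := (normalizerIn T V).mul_mem ha (hVM (hρa a ha))
      rwa [mul_inv_cancel_left] at h1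
    have hiter : ∀ n : ℕ, ∀ a ∈ normalizerIn T V,
        (autFun T γ⁻¹ ∘ ψ)^[n] a = a * (a⁻¹ * (autFun T γ⁻¹ ∘ ψ) a) ^ n := by
      intro n
      induction n with
      | zero =>
        intro a _
        simp
      | succ n ihn =>
        intro a ha
        have hz : a⁻¹ * (autFun T γ⁻¹ ∘ ψ) a ∈ V := hρa a ha
        have hzn : (a⁻¹ * (autFun T γ⁻¹ ∘ ψ) a) ^ n ∈ V := V.pow_mem hz n
        rw [Function.iterate_succ_apply', ihn a ha, hρ.map_mul ha (hVM hzn), hρV _ hzn, pow_succ',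
          ← mul_assoc, mul_inv_cancel_left]
    obtain ⟨k, hk⟩ := IsPGroup.iff_card.mp (hT.to_le hVT)
    have hρq : ∀ a ∈ normalizerIn T V, (autFun T γ⁻¹ ∘ ψ)^[p ^ k] a = a := by
      intro a ha
      rw [hiter _ a ha]
      have hz : a⁻¹ * (autFun T γ⁻¹ ∘ ψ) a ∈ V := hρa a ha
      have h1 : (⟨a⁻¹ * (autFun T γ⁻¹ ∘ ψ) a, hz⟩ : V) ^ Nat.card V = 1 := pow_card_eq_one'
      rw [hk] at h1
      have h2 : (a⁻¹ * (autFun T γ⁻¹ ∘ ψ) a) ^ (p ^ k) = 1 := congrArg Subtype.val h1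
      rw [h2, mul_one]
    obtain ⟨δ, hδ, ρ₀, hρ₀, hdec⟩ := invariant_frattini h.hinv hMT hρ
    obtain ⟨-, ρq, hρq', hq⟩ := h.iter_decomp hδ hρ₀ hdec hρM (p ^ k)
    have hMc : CT F T (normalizerIn T V) := CT_of_le hV hVM hMT
    have hfinM : Finite (normalizerIn T V) := finite_of_le (hMT.trans h.hTS)
    have hcardlt : Nat.card T - Nat.card (normalizerIn T V) < n := by
      have h1 : Nat.card V < Nat.card (normalizerIn T V) := card_lt_of_lt hltM
      have h2 : Nat.card (normalizerIn T V) ≤ Nat.card T := Subgroup.card_le_of_le hMT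
      omega
    have hδq : δ ^ (p ^ k) ∈ F.autGroup T := (F.autGroup T).pow_mem hδ _
    have h1 : (δ ^ (p ^ k))⁻¹ ∈ N := by
      refine ih _ hcardlt (normalizerIn T V) rfl hMc _ ((F.autGroup T).inv_mem hδq) ?_
      refine hρq'.congr (fun x hx => ?_)
      have e := congrArg (autFun T (δ ^ (p ^ k))⁻¹) (hq x hx)
      rw [hρq x hx, autFun_inv_apply' (δ ^ (p ^ k)) (hρq'.mem hx)] at e
      exact e.symm
    have hδN : δ ∈ N := by
      apply h.mem_N_of_pow hδ k
      have h2 := N.inv_mem h1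
      rwa [inv_inv] at h2
    have hM'c : CT F T (img (normalizerIn T V) ρ₀) :=
      h.CT_img hMc (mor_of_subsystem h.hsub hρ₀)
    have hcard' : Nat.card T - Nat.card (img (normalizerIn T V) ρ₀) < n := by
      rw [hρ₀.card_img]
      exact hcardlt
    have h2 : γ * δ ∈ N := by
      refine ih _ hcard' (img (normalizerIn T V) ρ₀) rfl hM'c _
        ((F.autGroup T).mul_mem hγ hδ) ?_
      refine (hρ₀.inv.comp hψM (fun y hy => hρ₀.invFn_mem hy)).congr (fun y hy => ?_)
      obtain ⟨x, hx, rfl⟩ := hρ₀.mem_img.mp hy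
      show ψ (invFn (normalizerIn T V) ρ₀ (ρ₀ x)) = autFun T (γ * δ) (ρ₀ x)
      rw [hρ₀.invFn_apply hx, aF_mul γ δ (hρ₀.mem hx), ← hdec x hx]
      show ψ x = autFun T γ (autFun T γ⁻¹ (ψ x))
      rw [autFun_inv_apply γ (hψM.mem hx)]
    have h3 : γ = γ * δ * δ⁻¹ := by group
    rw [h3]
    exact N.mul_mem h2 (N.inv_mem hδN)

end Cfsg.Agent.Lib.Helper88.PIdx
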