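import Cfsg.Agent.Lib.Helper88.NormChiB

set_option autoImplicit false
open Cfsg

namespace Cfsg.Agent.Lib.Helper88.PIdx

open Cfsg.FusionSystem Cfsg.Agent.Lib.Helper90 Cfsg.Agent.Lib.Helper91 Cfsg.Agent.Lib.Helper88
open Cfsg.Agent.S5114 (opP Inv Good aF_mul aF_one aF_conj aF_mor)

variable {Ω : Type*} [Group Ω] {S T : Subgroup Ω} {F : FusionSystem S} {E : FusionSystem T}
  {p : ℕ} {N : Subgroup (MulAut T)} {P Q V M : Subgroup Ω} {f g : Ω → Ω}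

/-- A fully automized receptive `F`-centric subgroup `P` with `P ∩ T` failing `CT` is normalized
by an element of `T` outside `P` that centralizes `P ∩ T`. -/
theorem Setup.exists_bad [Finite S] [Fact p.Prime] (h : Setup F E p N) (hP : F.IsCentric P)
    (hnK : ¬ CT F T (P ⊓ T)) (hfa : F.IsFullyAutomized p P) (hrec : F.IsReceptive P) :
    ∃ a, a ∈ T ∧ a ∈ Subgroup.normalizer (P : Set Ω) ∧ a ∉ P ∧ ∀ u ∈ P ⊓ T, a * u = u * a := by
  have hS := h.hS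
  have hTS := h.hTS
  have hPS : P ≤ S := hP.1
  have hUT : P ⊓ T ≤ T := inf_le_right
  have hUS : P ⊓ T ≤ S := hUT.trans hTS
  have hex : ∃ f, Mor F (P ⊓ T) f ∧ ¬ centralizerIn T (img (P ⊓ T) f) ≤ img (P ⊓ T) f := by
    by_contra hcon
    push_neg at hcon
    exact hnK ⟨hUT, hcon⟩
  obtain ⟨f, hf, hnc⟩ := hex
  obtain ⟨c, hc, hcU⟩ := SetLike.not_le_iff_exists.mp hnc
  obtain ⟨U₀, hconj, hfa₀, hrec₀⟩ := h.hF (img (P ⊓ T) f) hf.img_le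
  obtain ⟨g, hg, hgimg⟩ := isConj_iff.mp hconj
  obtain ⟨θ₂, hθ₂, hθ₂img⟩ := exists_normalizer_map hS hfa₀ hrec₀ hg hgimg
  have hfg : ∀ x ∈ P ⊓ T, f x ∈ img (P ⊓ T) f := fun x hx => hf.mem_img_of_mem hx
  have hgf : img (P ⊓ T) (g ∘ f) = U₀ := by rw [Mor.img_comp hf hg hfg, hgimg]
  obtain ⟨θ₁, hθ₁, hθ₁img⟩ := exists_normalizer_map hS hfa₀ hrec₀ (hf.comp hg hfg) hgf
  have hfinU : Finite (P ⊓ T : Subgroup Ω) := finite_of_le hUS
  have hPN : P ≤ normalizerIn S (P ⊓ T) := by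
    intro x hx
    refine ⟨hPS hx, mem_normalizer_of_finite (fun u hu => ?_)⟩
    exact Subgroup.mem_inf.mpr
      ⟨P.mul_mem (P.mul_mem hx hu.1) (P.inv_mem hx), h.normalT (hPS hx) hu.2⟩
  have hθ₁P : Mor F P θ₁ := hθ₁.restrict hPN
  have hP₁S : img P θ₁ ≤ S := hθ₁P.img_le
  have hP₁T : img P θ₁ ⊓ T = U₀ := by
    rw [← h.img_inf hθ₁P]
    exact hθ₁img
  have hcN : c ∈ normalizerIn S (img (P ⊓ T) f) :=
    ⟨hTS hc.1, Subgroup.centralizer_le_normalizer _ hc.2⟩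
  have hU'N : img (P ⊓ T) f ≤ normalizerIn S (img (P ⊓ T) f) := le_normalizerIn hf.img_le
  have hc₂T : θ₂ c ∈ T := h.memT hθ₂ hcN hc.1
  have hc₂cent : θ₂ c ∈ Subgroup.centralizer (U₀ : Set Ω) := by
    rw [Subgroup.mem_centralizer_iff]
    intro y hy
    have hy' : y ∈ img (img (P ⊓ T) f) θ₂ := by rw [hθ₂img]; exact hy
    obtain ⟨u, hu, rfl⟩ := (hθ₂.restrict hU'N).mem_img.mp hy'
    have hcomm : u * c = c * u := Subgroup.mem_centralizer_iff.mp hc.2 u hu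
    rw [← hθ₂.map_mul (hU'N hu) hcN, ← hθ₂.map_mul hcN (hU'N hu), hcomm]
  have hc₂U : θ₂ c ∉ U₀ := by
    intro hmem
    have hmem' : θ₂ c ∈ img (img (P ⊓ T) f) θ₂ := by rw [hθ₂img]; exact hmem
    obtain ⟨u, hu, hue⟩ := (hθ₂.restrict hU'N).mem_img.mp hmem'
    have huc : u = c := hθ₂.inj (hU'N hu) hcN hue
    rw [huc] at hu
    exact hcU hu
  have hCS : centralizerIn T U₀ ≤ S := (inf_le_left : centralizerIn T U₀ ≤ T).trans hTS
  have hCP₁ : ¬ centralizerIn T U₀ ≤ img P θ₁ := by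
    intro hle
    have h1 : θ₂ c ∈ img P θ₁ ⊓ T := Subgroup.mem_inf.mpr ⟨hle ⟨hc₂T, hc₂cent⟩, hc₂T⟩
    rw [hP₁T] at h1
    exact hc₂U h1
  have hCn : ∀ x ∈ img P θ₁, ∀ q ∈ centralizerIn T U₀, x * q * x⁻¹ ∈ centralizerIn T U₀ := by
    intro x hx q hq
    refine ⟨h.normalT (hP₁S hx) hq.1, ?_⟩
    show x * q * x⁻¹ ∈ Subgroup.centralizer (U₀ : Set Ω)
    rw [Subgroup.mem_centralizer_iff]
    intro u hu
    have hu1 : u ∈ img P θ₁ ⊓ T := by rw [hP₁T]; exact hu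
    have hu' : x⁻¹ * u * x ∈ U₀ := by
      rw [← hP₁T]
      refine Subgroup.mem_inf.mpr
        ⟨(img P θ₁).mul_mem ((img P θ₁).mul_mem ((img P θ₁).inv_mem hx) hu1.1) hx, ?_⟩
      have h1 := h.normalT (S.inv_mem (hP₁S hx)) hu1.2
      rwa [inv_inv] at h1
    have hcomm : x⁻¹ * u * x * q = q * (x⁻¹ * u * x) :=
      Subgroup.mem_centralizer_iff.mp hq.2 _ hu'
    calc u * (x * q * x⁻¹) = x * (x⁻¹ * u * x * q) * x⁻¹ := by group
      _ = x * (q * (x⁻¹ * u * x)) * x⁻¹ := by rw [hcomm]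
      _ = x * q * x⁻¹ * u := by group
  obtain ⟨q, hqC, hqN, hqP₁⟩ := exists_normalizing_not_mem' hS hP₁S hCS hCn hCP₁
  obtain ⟨θ₃, hθ₃, hθ₃img⟩ := exists_normalizer_map hS hfa hrec hθ₁P.inv hθ₁P.img_inv
  have hqNS : q ∈ normalizerIn S (img P θ₁) := ⟨hCS hqC, hqN⟩
  have hP₁N : img P θ₁ ≤ normalizerIn S (img P θ₁) := le_normalizerIn hP₁S
  have hθ₃P₁ : Mor F (img P θ₁) θ₃ := hθ₃.restrict hP₁N
  refine ⟨θ₃ q, h.memT hθ₃ hqNS hqC.1, ?_, ?_, ?_⟩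
  · have h1 := hθ₃.map_normalizerIn hP₁N hqNS hqN
    rw [hθ₃img] at h1
    exact h1.2
  · intro hmem
    have hmem' : θ₃ q ∈ img (img P θ₁) θ₃ := by rw [hθ₃img]; exact hmem
    obtain ⟨x, hx, hxe⟩ := hθ₃P₁.mem_img.mp hmem'
    have hxq : x = q := hθ₃.inj (hP₁N hx) hqNS hxe
    rw [hxq] at hx
    exact hqP₁ hx
  · intro u hu
    have hu' : u ∈ img (img P θ₁ ⊓ T) θ₃ := by
      rw [h.img_inf hθ₃P₁, hθ₃img]
      exact hu
    obtain ⟨x, hx, rfl⟩ := (hθ₃P₁.restrict inf_le_left).mem_img.mp hu'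
    have hxP₁ : x ∈ img P θ₁ := hx.1
    rw [hP₁T] at hx
    have hcomm : x * q = q * x := Subgroup.mem_centralizer_iff.mp hqC.2 x hx
    rw [← hθ₃.map_mul hqNS (hP₁N hxP₁), ← hθ₃.map_mul (hP₁N hxP₁) hqNS, hcomm]

/-- Such an element gives an element of `Aut_S(P) ∩ O_p(Aut_D(P))` outside `Inn(P)`, for every
subsystem `D` of `F` over `S`. -/
theorem Setup.bad_pcore [Finite S] [Fact p.Prime] (h : Setup F E p N) (hP : F.IsCentric P)
    {a : Ω} (haT : a ∈ T) (haN : a ∈ Subgroup.normalizer (P : Set Ω)) (haP : a ∉ P)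
    (hau : ∀ u ∈ P ⊓ T, a * u = u * a) (D : FusionSystem S) (hD : D.IsSubsystemOf F) :
    ¬ (autInducedBy S P ⊓ (pCore p (D.autGroup P)).map (D.autGroup P).subtype ≤ Inn P) := by
  have hPS : P ≤ S := hP.1
  have haS : a ∈ S := h.hTS haT
  have hfinP : Finite P := finite_of_le hPS
  obtain ⟨κ, hκD, hκa⟩ := exists_aut_of_mor (mor_conj D hPS haS)
    (fun y hy => conj_mem_of_mem_normalizer haN hy)
  have hDF : ∀ {γ : MulAut P}, γ ∈ D.autGroup P → Mor F P (autFun P γ) := fun hγ =>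
    mor_of_subsystem hD ((mem_autGroup_iff D hPS _).mp hγ)
  let B : Subgroup (MulAut P) :=
    { carrier := {γ | γ ∈ D.autGroup P ∧ (∀ u : P, (u : Ω) ∈ T → γ u = u) ∧
        ∀ y : P, (y : Ω)⁻¹ * ((γ y : P) : Ω) ∈ T}
      mul_mem' := by
        rintro γ₁ γ₂ ⟨h1, f1, t1⟩ ⟨h2, f2, t2⟩
        refine ⟨(D.autGroup P).mul_mem h1 h2, fun u hu => ?_, fun y => ?_⟩
        · show γ₁ (γ₂ u) = u
          rw [f2 u hu, f1 u hu]
        · show (y : Ω)⁻¹ * ((γ₁ (γ₂ y) : P) : Ω) ∈ T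
          have h3 := T.mul_mem (t2 y) (t1 (γ₂ y))
          rwa [mul_assoc, mul_inv_cancel_left] at h3
      one_mem' := ⟨(D.autGroup P).one_mem, fun u _ => rfl, fun y => by
        show (y : Ω)⁻¹ * (y : Ω) ∈ T
        rw [inv_mul_cancel]
        exact T.one_mem⟩
      inv_mem' := by
        rintro γ ⟨h1, f1, t1⟩
        refine ⟨(D.autGroup P).inv_mem h1, fun u hu => ?_, fun y => ?_⟩
        · rw [MulAut.inv_apply, MulEquiv.symm_apply_eq]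
          exact (f1 u hu).symm
        · have h3 := T.inv_mem (t1 (γ⁻¹ y))
          have h4 : γ (γ⁻¹ y) = y := by simp
          rw [h4, mul_inv_rev, inv_inv] at h3
          exact h3 }
  have hBmem : ∀ γ : MulAut P, γ ∈ B ↔ γ ∈ D.autGroup P ∧ (∀ u : P, (u : Ω) ∈ T → γ u = u) ∧
      ∀ y : P, (y : Ω)⁻¹ * ((γ y : P) : Ω) ∈ T := fun _ => Iff.rfl
  have hBp : IsPGroup p B := by
    obtain ⟨k, hk⟩ := IsPGroup.iff_card.mp h.hS
    rintro ⟨γ, hγ⟩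
    obtain ⟨hγD, hγf, hγt⟩ := (hBmem γ).mp hγ
    refine ⟨k, ?_⟩
    apply Subtype.ext
    show γ ^ (p ^ k) = 1
    have hiter : ∀ n : ℕ, ∀ y : P,
        (((γ ^ n) y : P) : Ω) = (y : Ω) * ((y : Ω)⁻¹ * ((γ y : P) : Ω)) ^ n := by
      intro n
      induction n with
      | zero =>
        intro y
        simp
      | succ n ihn =>
        intro y
        have hu : (y : Ω)⁻¹ * ((γ y : P) : Ω) ∈ T := hγt y
        have huP : (y : Ω)⁻¹ * ((γ y : P) : Ω) ∈ P := P.mul_mem (P.inv_mem y.2) (γ y).2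
        have hfix : γ ⟨_, P.pow_mem huP n⟩ = ⟨_, P.pow_mem huP n⟩ := hγf _ (T.pow_mem hu n)
        have e : (γ ^ n) y = y * ⟨_, P.pow_mem huP n⟩ := Subtype.ext (ihn y)
        rw [pow_succ', MulAut.mul_apply, e, map_mul, hfix]
        show ((γ y : P) : Ω) * ((y : Ω)⁻¹ * ((γ y : P) : Ω)) ^ n =
          (y : Ω) * ((y : Ω)⁻¹ * ((γ y : P) : Ω)) ^ (n + 1)
        rw [pow_succ', ← mul_assoc, mul_inv_cancel_left]
    ext y
    rw [hiter (p ^ k) y]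
    have hu : (y : Ω)⁻¹ * ((γ y : P) : Ω) ∈ S := hPS (P.mul_mem (P.inv_mem y.2) (γ y).2)
    have h1 : (⟨_, hu⟩ : S) ^ Nat.card S = 1 := pow_card_eq_one'
    rw [hk] at h1
    have h2 : ((y : Ω)⁻¹ * ((γ y : P) : Ω)) ^ (p ^ k) = 1 := congrArg Subtype.val h1
    rw [h2, mul_one]
    rfl
  have hBle : B ≤ D.autGroup P := fun γ hγ => ((hBmem γ).mp hγ).1
  have hBn : ∀ α ∈ D.autGroup P, ∀ β ∈ B, α * β * α⁻¹ ∈ B := by
    intro α hα β hβ
    obtain ⟨hβD, hβf, hβt⟩ := (hBmem β).mp hβ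
    have hαi : α⁻¹ ∈ D.autGroup P := (D.autGroup P).inv_mem hα
    have hαm := hDF hα
    have hαim := hDF hαi
    refine (hBmem _).mpr ⟨(D.autGroup P).mul_mem ((D.autGroup P).mul_mem hα hβD) hαi,
      fun u hu => ?_, fun y => ?_⟩
    · show α (β (α⁻¹ u)) = u
      have h1 : ((α⁻¹ u : P) : Ω) ∈ T := by
        have h2 := h.memT hαim u.2 hu
        rwa [autFun_apply] at h2
      rw [hβf _ h1]
      simp
    · show (y : Ω)⁻¹ * ((α (β (α⁻¹ y)) : P) : Ω) ∈ T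
      have hy : y = α (α⁻¹ y) := by simp
      have hu : ((α⁻¹ y : P) : Ω)⁻¹ * ((β (α⁻¹ y) : P) : Ω) ∈ T := hβt (α⁻¹ y)
      have huP : ((α⁻¹ y : P) : Ω)⁻¹ * ((β (α⁻¹ y) : P) : Ω) ∈ P :=
        P.mul_mem (P.inv_mem (α⁻¹ y).2) (β (α⁻¹ y)).2
      have h3 := h.memT hαm huP hu
      rw [hαm.map_mul (P.inv_mem (α⁻¹ y).2) (β (α⁻¹ y)).2, hαm.map_inv (α⁻¹ y).2, autFun_apply,
        autFun_apply, ← hy] at h3
      exact h3
  have hκB : κ ∈ B := by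
    refine (hBmem κ).mpr ⟨hκD, fun u hu => ?_, fun y => ?_⟩
    · apply Subtype.ext
      rw [hκa, hau u (Subgroup.mem_inf.mpr ⟨u.2, hu⟩), mul_inv_cancel_right]
    · rw [hκa]
      have h1 : (y : Ω)⁻¹ * a * ((y : Ω)⁻¹)⁻¹ ∈ T := h.normalT (S.inv_mem (hPS y.2)) haT
      have h2 := T.mul_mem h1 (T.inv_mem haT)
      have e : (y : Ω)⁻¹ * (a * (y : Ω) * a⁻¹) = (y : Ω)⁻¹ * a * ((y : Ω)⁻¹)⁻¹ * a⁻¹ := by group
      rw [e]
      exact h2
  have hκO := le_pCore_map (F := D) B hBp hBle hBn hκB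
  have hκS : κ ∈ autInducedBy S P := (mem_autInducedBy_iff S P κ).mpr ⟨a, haS, hκa⟩
  intro hle
  obtain ⟨b, hb, hκb⟩ := (mem_Inn_iff κ).mp (hle ⟨hκS, hκO⟩)
  have hcent : b⁻¹ * a ∈ centralizerIn S P := by
    refine ⟨S.mul_mem (S.inv_mem (hPS hb)) haS, ?_⟩
    show b⁻¹ * a ∈ Subgroup.centralizer (P : Set Ω)
    rw [Subgroup.mem_centralizer_iff]
    intro x hx
    have e : a * x * a⁻¹ = b * x * b⁻¹ := by rw [← hκa ⟨x, hx⟩, ← hκb ⟨x, hx⟩]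
    calc x * (b⁻¹ * a) = b⁻¹ * (b * x * b⁻¹) * a := by group
      _ = b⁻¹ * (a * x * a⁻¹) * a := by rw [e]
      _ = b⁻¹ * a * x := by group
  have h1 : b⁻¹ * a ∈ P := centric_self_le hP hcent
  have h2 : a ∈ P := by
    have h3 := P.mul_mem hb h1
    rwa [mul_inv_cancel_left] at h3
  exact haP h2

theorem Setup.bad [Finite S] [Fact p.Prime] (h : Setup F E p N) : BadHyp F p (KK F T) := by
  intro P hP hPK hfa hrec D hD
  have hnK : ¬ CT F T (P ⊓ T) := fun hc => hPK ⟨hP, hc⟩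
  obtain ⟨a, haT, haN, haP, hau⟩ := h.exists_bad hP hnK hfa hrec
  exact h.bad_pcore hP haT haN haP hau D hD

theorem Setup.famHyp [Finite S] [Fact p.Prime] (h : Setup F E p N) : FamHyp F p (KK F T) where
  hS := h.hS
  hF := h.hF
  hKc := fun _ hP => hP.1
  hKconj := h.KK_conj
  hbad := h.bad
  hKtop := h.KK_top

end Cfsg.Agent.Lib.Helper88.PIdx
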