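import Cfsg.Agent.Lib.Helper88.NormChiC

set_option autoImplicit false
open Cfsg

namespace Cfsg.Agent.Lib.Helper88.PIdx

open Cfsg.FusionSystem Cfsg.Agent.Lib.Helper90 Cfsg.Agent.Lib.Helper91 Cfsg.Agent.Lib.Helper88
open Cfsg.Agent.S5114 (opP Inv Good aF_mul aF_one aF_conj aF_mor)

variable {Ω : Type*} [Group Ω] {S T : Subgroup Ω} {F : FusionSystem S} {E : FusionSystem T}
  {p : ℕ} {N : Subgroup (MulAut T)} {P Q V M : Subgroup Ω} {f g : Ω → Ω}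

/-- The automorphisms in `Aut_F(S)` whose restriction to `T` lies in `N`. -/
def Hsub (h : Setup F E p N) : Subgroup (MulAut S) where
  carrier := {α | α ∈ F.autGroup S ∧ ∃ β ∈ N, ∀ x ∈ T, autFun T β x = autFun S α x}
  mul_mem' := by
    rintro α₁ α₂ ⟨h1, β₁, hβ₁, e1⟩ ⟨h2, β₂, hβ₂, e2⟩
    refine ⟨(F.autGroup S).mul_mem h1 h2, β₁ * β₂, N.mul_mem hβ₁ hβ₂, fun x hx => ?_⟩
    have hmem : autFun S α₂ x ∈ T := by
      rw [← e2 x hx]
      exact autFun_mem β₂ hx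
    rw [aF_mul β₁ β₂ hx, aF_mul α₁ α₂ (h.hTS hx), e2 x hx, e1 _ hmem]
  one_mem' := ⟨(F.autGroup S).one_mem, 1, N.one_mem, fun x hx => by
    rw [aF_one hx, aF_one (h.hTS hx)]⟩
  inv_mem' := by
    rintro α ⟨h1, β, hβ, e⟩
    refine ⟨(F.autGroup S).inv_mem h1, β⁻¹, N.inv_mem hβ, fun x hx => ?_⟩
    have hy : autFun T β⁻¹ x ∈ T := autFun_mem _ hx
    have e' := congrArg (autFun S α⁻¹) (e _ hy)
    rw [autFun_inv_apply β hx, autFun_inv_apply' α (h.hTS hy)] at e'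
    exact e'.symm

theorem mem_Hsub (h : Setup F E p N) (α : MulAut S) : α ∈ Hsub h ↔
    α ∈ F.autGroup S ∧ ∃ β ∈ N, ∀ x ∈ T, autFun T β x = autFun S α x := Iff.rfl

theorem Setup.Hsub_le (h : Setup F E p N) : Hsub h ≤ F.autGroup S := fun _ hα => hα.1

theorem Setup.Hsub_normal [Finite S] (h : Setup F E p N) :
    ∀ δ ∈ F.autGroup S, ∀ α ∈ Hsub h, δ * α * δ⁻¹ ∈ Hsub h := by
  rintro δ hδ α ⟨hα, β, hβ, e⟩
  obtain ⟨δT, hδT, eδ⟩ := h.exists_res hδ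
  refine ⟨(F.autGroup S).mul_mem ((F.autGroup S).mul_mem hδ hα) ((F.autGroup S).inv_mem hδ),
    δT * β * δT⁻¹, h.hN2 δT hδT β hβ, fun x hx => ?_⟩
  have hy : autFun T δT⁻¹ x ∈ T := autFun_mem _ hx
  have e1 : autFun S δ⁻¹ x = autFun T δT⁻¹ x := by
    have e2 := congrArg (autFun S δ⁻¹) (eδ _ hy)
    rw [autFun_inv_apply δT hx, autFun_inv_apply' δ (h.hTS hy)] at e2
    exact e2
  rw [aF_mul (δT * β) δT⁻¹ hx, aF_mul δT β hy, aF_mul (δ * α) δ⁻¹ (h.hTS hx),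
    aF_mul δ α (autFun_mem _ (h.hTS hx)), e1, ← e _ hy, eδ _ (autFun_mem β hy)]

theorem Setup.sys1_le_sysD [Finite S] [Fact p.Prime] (h : Setup F E p N)
    (hm : Mor (sys1 F p (KK F T)) P f) : Mor (sysD h) P f :=
  sys1_min hm (sysD h) (fun _ hQ => h.sysD_opP hQ.1.1)

theorem Setup.Hstar [Finite S] [Fact p.Prime] (h : Setup F E p N) :
    ∀ γ ∈ F.autGroup S, ∀ R ∈ KK F T, Mor (sys1 F p (KK F T)) R (autFun S γ) → γ ∈ Hsub h := by
  intro γ hγ R hR hm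
  obtain ⟨-, hT'⟩ := (mor_sysD_iff h).mp (h.sys1_le_sysD hm)
  obtain ⟨β, hβ, f₀, hf₀, hff⟩ := (mor_sysT_iff h).mp hT'
  obtain ⟨γT, hγT, eγ⟩ := h.exists_res hγ
  have hβF := h.hN1 hβ
  have h1 : Mor E (R ⊓ T) (autFun T (β⁻¹ * γT)) := by
    refine hf₀.congr (fun x hx => ?_)
    rw [aF_mul β⁻¹ γT hx.2, eγ x hx.2, hff x hx, autFun_inv_apply' β (hf₀.mem hx)]
  have h2 : β⁻¹ * γT ∈ N :=
    h.W _ _ rfl hR.2 _ ((F.autGroup T).mul_mem ((F.autGroup T).inv_mem hβF) hγT) h1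
  have h3 : γT = β * (β⁻¹ * γT) := by group
  exact ⟨hγ, γT, by rw [h3]; exact N.mul_mem hβ h2, eγ⟩

/-- The normal subsystem attached to `N`. -/
def sysF0 (h : Setup F E p N) : FusionSystem S :=
  sysH F p (KK F T) (Hsub h) h.Hsub_le

theorem mor_sysF0_iff (h : Setup F E p N) : Mor (sysF0 h) P f ↔
    ∃ α ∈ Hsub h, ∃ f₀, Mor (sys1 F p (KK F T)) P f₀ ∧ ∀ x ∈ P, f x = autFun S α (f₀ x) :=
  mor_sysH_iff _

/-- `E` is contained in the subsystem attached to `N`. -/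
theorem Setup.E_le [Finite S] [Fact p.Prime] (h : Setup F E p N) :
    ∀ (P : Subgroup Ω) (f : Ω → Ω), Mor E P f → Mor (sysF0 h) P f := by
  have hfinT : Finite T := finite_of_le h.hTS
  have hT : IsPGroup p T := h.hS.to_le h.hTS
  have hfam := h.famHyp
  have h_congr : ∀ (P : Subgroup Ω) (f g : Ω → Ω), Mor (sysF0 h) P f → (∀ x ∈ P, f x = g x) →
      Mor (sysF0 h) P g := fun _ _ _ hf hfg => hf.congr hfg
  have h_res : ∀ (P P₀ : Subgroup Ω) (f : Ω → Ω), Mor E P f → Mor (sysF0 h) P f → P₀ ≤ P →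
      Mor (sysF0 h) P₀ f := fun _ _ _ _ hf h0 => hf.restrict h0
  refine alperin_induction hT h.hEs (fun P f => Mor (sysF0 h) P f) h_congr h_res
    (fun _ _ _ _ _ _ hPQ hf hg => hf.comp hg hPQ) (fun _ _ _ hf => hf.inv) ?_
  intro P hfa hrec prem f hf hfP
  have hPT : P ≤ T := hf.le
  by_cases hC : centralizerIn T P ≤ P
  · have hPc : E.IsCentric P := centric_of_rec hrec hC
    have hPCT : CT F T P := h.CT_of_centric hPc
    have hfF : Mor F P f := mor_of_subsystem h.hsub hf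
    obtain ⟨α, hα, f₀, h0, hff⟩ :=
      sys1_decomp hfam.hS hfam.hF hfam.hKS hfam.hKconj hfam.hbad hfF
    obtain ⟨-, hT'⟩ := (mor_sysD_iff h).mp (h.sys1_le_sysD h0)
    have hT'' : Mor (sysT h) P f₀ := by
      have e : P ⊓ T = P := inf_eq_left.mpr hPT
      rwa [e] at hT'
    obtain ⟨β, hβ, e, he, hfe⟩ := (mor_sysT_iff h).mp hT''
    obtain ⟨αT, hαT, eα⟩ := h.exists_res hα
    have hβF := h.hN1 hβ
    have hf₀T : ∀ x ∈ P, f₀ x ∈ T := by
      intro x hx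
      rw [hfe x hx]
      exact autFun_mem β (he.mem hx)
    have h1 : Mor E (img P e) (autFun T (αT * β)) := by
      refine (he.inv.comp hf (fun y hy => he.invFn_mem hy)).congr (fun y hy => ?_)
      obtain ⟨x, hx, rfl⟩ := he.mem_img.mp hy
      show f (invFn P e (e x)) = autFun T (αT * β) (e x)
      rw [he.invFn_apply hx, aF_mul αT β (he.mem hx), ← hfe x hx, eα _ (hf₀T x hx)]
      exact hff x hx
    have h2 : αT * β ∈ N :=
      h.W _ _ rfl (h.CT_img hPCT (mor_of_subsystem h.hsub he)) _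
        ((F.autGroup T).mul_mem hαT hβF) h1
    have h3 : αT = αT * β * β⁻¹ := by group
    have hαH : α ∈ Hsub h := ⟨hα, αT, by rw [h3]; exact N.mul_mem h2 (N.inv_mem hβ), eα⟩
    exact (mor_sysF0_iff h).mpr ⟨α, hαH, f₀, h0, hff⟩
  · obtain ⟨a, ha, haP⟩ := SetLike.not_le_iff_exists.mp hC
    exact good_of_extFn (fun P f => Mor (sysF0 h) P f) h_congr h_res hrec hf hfP prem
      (hf.centralizerIn_le_extFn ha) haP

/-- The subsystem attached to `N` is proper when `N` is a proper subgroup of `Aut_F(T)`. -/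
theorem Setup.proper [Finite S] [Fact p.Prime] (h : Setup F E p N) {β₀ : MulAut T}
    (hβ₀ : β₀ ∈ F.autGroup T) (hβ₀N : β₀ ∉ N) :
    ¬ (∀ P : Subgroup Ω, (sysF0 h).Hom P = F.Hom P) := by
  intro heq
  have hfinT : Finite T := finite_of_le h.hTS
  have hm : Mor F T (autFun T β₀) := (mem_autGroup_iff F h.hTS β₀).mp hβ₀
  have hm0 : Mor (sysF0 h) T (autFun T β₀) := by
    obtain ⟨φ, hφ, hφf⟩ := hm
    refine ⟨φ, ?_, hφf⟩
    rw [heq T]
    exact hφ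
  obtain ⟨α, ⟨hα, αT, hαT, eα⟩, f₀, h0, hff⟩ := (mor_sysF0_iff h).mp hm0
  obtain ⟨-, hT'⟩ := (mor_sysD_iff h).mp (h.sys1_le_sysD h0)
  have hT'' : Mor (sysT h) T f₀ := by rwa [inf_idem] at hT'
  obtain ⟨β, hβ, e, he, hfe⟩ := (mor_sysT_iff h).mp hT''
  obtain ⟨ε, hε, hεe⟩ := exists_aut_of_mor he (fun x hx => he.mem hx)
  have hεN : ε ∈ N := h.hN3 hε
  have hprod : β₀ = αT * β * ε := by
    ext x
    have h1 := hff x x.2
    rw [autFun_apply] at h1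
    rw [h1, hfe x x.2, ← eα _ (autFun_mem β (he.mem x.2)), ← hεe x, autFun_apply, autFun_apply]
    rfl
  exact hβ₀N (hprod ▸ N.mul_mem (N.mul_mem hαT hβ) hεN)

end Cfsg.Agent.Lib.Helper88.PIdx
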