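import Cfsg.Agent.Lib.Helper88.PIdxK

set_option autoImplicit false
open Cfsg

namespace Cfsg.Agent.Lib.Helper88.PIdx

open Cfsg.FusionSystem Cfsg.Agent.Lib.Helper90 Cfsg.Agent.Lib.Helper91 Cfsg.Agent.Lib.Helper88
open Cfsg.Agent.S5114 (opP Inv Good aF_mul aF_one aF_conj aF_mor inv_id inv_res inv_comp inv_inv'
  inv_conj map_closure_eq closure_ppow_normal opP_map)

variable {Ω : Type*} [Group Ω] {S : Subgroup Ω} {F : FusionSystem S} {p : ℕ}
  {K : Set (Subgroup Ω)} {P Q : Subgroup Ω} {f g : Ω → Ω} {H : Subgroup (MulAut S)}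

/-! ### Invariance and normality for subsystems over the same group -/

theorem invariantIn_of_mor {E F : FusionSystem S} (hsub : E.IsSubsystemOf F)
    (hconj : ∀ (P : Subgroup Ω) (f : Ω → Ω), Mor E P f → ∀ α ∈ F.autGroup S,
      Mor E (img P (autFun S α)) (autFun S α ∘ f ∘ autFun S α⁻¹))
    (hfrat : ∀ (P : Subgroup Ω) (f : Ω → Ω), Mor F P f → ∃ α ∈ F.autGroup S, ∃ f₀, Mor E P f₀ ∧
      ∀ x ∈ P, f x = autFun S α (f₀ x)) : E.IsInvariantIn F := by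
  refine ⟨hsub, ⟨le_rfl, fun R _ φ hφ x => (F.le_of_mem hφ).2 x⟩, ?_, ?_⟩
  · intro P hPS φ hφ α hα
    have hm := hconj P _ (mor_of_hom hφ) α hα
    have key : ∀ Q : Subgroup Ω, Q = img P (autFun S α) →
        ∃ χ ∈ E.Hom Q, ∀ (x : P) (hφx : φ x ∈ S) (hαx : ((α ⟨x, hPS x.2⟩ : S) : Ω) ∈ Q),
          χ ⟨(α ⟨x, hPS x.2⟩ : S), hαx⟩ = ((α ⟨φ x, hφx⟩ : S) : Ω) := by
      intro Q hQ
      subst hQ
      obtain ⟨χ, hχ, hχf⟩ := hm
      refine ⟨χ, hχ, fun x hφx hαx => ?_⟩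
      rw [hχf]
      show autFun S α (extFun P φ (autFun S α⁻¹ ((α ⟨x, hPS x.2⟩ : S) : Ω))) = _
      rw [autFun_apply, show α⁻¹ (α ⟨x, hPS x.2⟩) = ⟨x, hPS x.2⟩ by simp]
      show autFun S α (extFun P φ ((x : P) : Ω)) = _
      rw [extFun_apply, autFun_apply' α hφx]
    exact key _ (map_subgroupOf_eq_img hPS α)
  · intro P _ φ hφ
    obtain ⟨α, hα, f₀, hf₀, hff⟩ := hfrat P _ (mor_of_hom hφ)
    obtain ⟨φ₀, hφ₀, hφ₀f⟩ := id hf₀
    refine ⟨α, hα, φ₀, hφ₀, fun x hx => ?_⟩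
    have h1 := hff x x.2
    rw [extFun_apply] at h1
    rw [h1, ← hφ₀f x, autFun_apply' α hx]

theorem normalIn_of_invariant {E F : FusionSystem S} (hEs : E.IsSaturated p)
    (hF : F.IsSaturated p) (hinv : E.IsInvariantIn F) : E.IsNormalIn F p := by
  refine ⟨⟨hEs, hF, hinv⟩, fun α hα => ?_⟩
  have hαF : α ∈ F.autGroup S := by
    have hsub : {β : MulAut S | S.subtype.comp β.toMonoidHom ∈ E.Hom S} ⊆
        {β : MulAut S | S.subtype.comp β.toMonoidHom ∈ F.Hom S} := fun β hβ => hinv.1 S hβ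
    exact Subgroup.closure_mono hsub hα
  have hle : centralizerIn S S ≤ S := inf_le_left
  have hsup : S ⊔ centralizerIn S S = S := sup_eq_left.mpr hle
  have key : ∀ W : Subgroup Ω, W = S → ∀ (hSW : S ≤ W), ∃ β ∈ F.autGroup W,
      (∀ x : S, ((β (Subgroup.inclusion hSW x) : W) : Ω) = ((α x : S) : Ω)) ∧
      ∀ c : W, (c : Ω) ∈ centralizerIn S S →
        (c : Ω)⁻¹ * ((β c : W) : Ω) ∈ S ⊓ Subgroup.centralizer (S : Set Ω) := by
    intro W hW hSW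
    subst hW
    refine ⟨α, hαF, fun x => rfl, fun c hc => ?_⟩
    have hαc : ((α c : W) : Ω) ∈ Subgroup.centralizer (W : Set Ω) := by
      rw [Subgroup.mem_centralizer_iff]
      intro s hs
      have h1 : α (α⁻¹ ⟨s, hs⟩) = ⟨s, hs⟩ := by simp
      have h2 : (α⁻¹ ⟨s, hs⟩ : W) * c = c * (α⁻¹ ⟨s, hs⟩ : W) := by
        apply Subtype.ext
        exact Subgroup.mem_centralizer_iff.mp hc.2 _ (α⁻¹ ⟨s, hs⟩ : W).2
      have h3 := congrArg (fun z : W => ((α z : W) : Ω)) h2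
      simp only [map_mul, h1, Subgroup.coe_mul] at h3
      exact h3
    exact ⟨W.mul_mem (W.inv_mem c.2) (α c).2,
      Subgroup.mul_mem _ (Subgroup.inv_mem _ hc.2) hαc⟩
  exact key _ hsup le_sup_left

/-! ### The system `H · sys1` -/

/-- The standing hypotheses on the family `K`. -/
structure FamHyp (F : FusionSystem S) (p : ℕ) (K : Set (Subgroup Ω)) : Prop where
  hS : IsPGroup p S
  hF : F.IsSaturated p
  hKc : ∀ P ∈ K, F.IsCentric P
  hKconj : ∀ P ∈ K, ∀ Q, F.IsConj P Q → Q ∈ K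
  hbad : BadHyp F p K
  hKtop : S ∈ K

theorem FamHyp.hKS (h : FamHyp F p K) : ∀ P ∈ K, P ≤ S := fun P hP => (h.hKc P hP).1

theorem prodHyp_sys1 (hHF : H ≤ F.autGroup S) : ProdHyp F (sys1 F p K) H where
  hTS := le_rfl
  hsub := hom_subset_of_mor' (fun _ _ h => sys1_mor h)
  hA := hHF
  hconj := fun _ _ hf _ hα => sys1_conj hf (hHF hα)

/-- The system `H · sys1`. -/
def sysH (F : FusionSystem S) (p : ℕ) (K : Set (Subgroup Ω)) (H : Subgroup (MulAut S))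
    (hHF : H ≤ F.autGroup S) : FusionSystem S :=
  prodSys (prodHyp_sys1 (p := p) (K := K) hHF)

theorem mor_sysH_iff (hHF : H ≤ F.autGroup S) : Mor (sysH F p K H hHF) P f ↔
    ∃ α ∈ H, ∃ f₀, Mor (sys1 F p K) P f₀ ∧ ∀ x ∈ P, f x = autFun S α (f₀ x) :=
  mor_prodSys_iff _

theorem sysH_mor (hHF : H ≤ F.autGroup S) (h : Mor (sysH F p K H hHF) P f) : Mor F P f :=
  prodSys_mor _ h

theorem sys1_le_sysH (hHF : H ≤ F.autGroup S) (h : Mor (sys1 F p K) P f) :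
    Mor (sysH F p K H hHF) P f :=
  le_prodSys _ h

theorem sysH_sub (hHF : H ≤ F.autGroup S) : (sysH F p K H hHF).IsSubsystemOf F :=
  hom_subset_of_mor' (fun _ _ h => sysH_mor hHF h)

theorem sysH_good [Finite S] [Fact p.Prime] (h : FamHyp F p K) (hHF : H ≤ F.autGroup S) :
    ∀ (P : Subgroup Ω) (f : Ω → Ω), Mor F P f → Good F (sysH F p K H hHF) P f := by
  intro P f hf
  obtain ⟨α, hα, f₀, h0, hff⟩ := sys1_decomp h.hS h.hF h.hKS h.hKconj h.hbad hf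
  exact ⟨α, hα, f₀, ⟨sys1_le_sysH hHF h0, fun β hβ => sys1_le_sysH hHF (sys1_conj h0 hβ)⟩, hff⟩

theorem sysH_index [Finite S] [Fact p.Prime] (h : FamHyp F p K) (hHF : H ≤ F.autGroup S) :
    (sysH F p K H hHF).HasPrimeToPIndexIn F p ∧
      ∀ P : Subgroup Ω, (sysH F p K H hHF).IsCentric P ↔ F.IsCentric P :=
  index_of_good h.hF (sysH_sub hHF) (sysH_good h hHF)

theorem sysH_saturated [Finite S] [Fact p.Prime] (h : FamHyp F p K) (hHF : H ≤ F.autGroup S)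
    (hHstar : ∀ γ ∈ F.autGroup S, ∀ R ∈ K, Mor (sys1 F p K) R (autFun S γ) → γ ∈ H) :
    (sysH F p K H hHF).IsSaturated p := by
  have hS := h.hS
  have hF := h.hF
  have hcent := (sysH_index h hHF).2
  have hconjF : ∀ {P Q : Subgroup Ω}, (sysH F p K H hHF).IsConj P Q → F.IsConj P Q := by
    rintro P Q ⟨φ, hφ, hr⟩
    exact ⟨φ, sysH_sub hHF P hφ, hr⟩
  refine Cfsg.Agent.S5110.result p hS (sysH F p K H hHF) K h.hKS
    (fun P hP Q hQ => h.hKconj P hP Q (hconjF hQ)) ?_ ?_ ?_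
  · intro P hP
    obtain ⟨f₀, h0, hQfn⟩ := exists_fn_img hS hF h.hKS h.hKconj h.hbad (h.hKS P hP)
    have h0F := sys1_mor h0
    have hQS : img P f₀ ≤ S := h0F.img_le
    have hQK : img P f₀ ∈ K := h.hKconj P hP _ (isConj_of_mor h0F)
    have hfin : Finite (img P f₀) := finite_of_le hQS
    obtain ⟨hfa, hrec⟩ := fa_rec_of_fullyNormalized hS hF hQfn
    refine ⟨img P f₀, isConj_of_mor (sys1_le_sysH hHF h0), ?_, ?_⟩
    · have hs := sylCard_of_fa hfa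
      have hle1 : autInducedBy S (img P f₀) ≤ (sysH F p K H hHF).autGroup (img P f₀) :=
        autInducedBy_le_autGroup _ hQS
      have hle2 : (sysH F p K H hHF).autGroup (img P f₀) ≤ F.autGroup (img P f₀) := by
        intro κ hκ
        rw [mem_autGroup_iff F hQS]
        exact sysH_mor hHF ((mem_autGroup_iff _ hQS κ).mp hκ)
      exact ⟨hQS, sylCard_exists (sylCard_mono hs hle1 hle2)⟩
    · apply isReceptive_of hQS
      intro R f' hm himg'
      have hmF := sysH_mor hHF hm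
      obtain ⟨ψ, hψ, hψR⟩ := receptive_extend' hrec hmF himg'
      obtain ⟨α', hα', ψ₀, hψ0, hψψ⟩ := sys1_decomp hS hF h.hKS h.hKconj h.hbad hψ
      obtain ⟨β, hβ, g₀, hg0, hgg⟩ := (mor_sysH_iff hHF).mp hm
      have hRN : R ≤ extFn S R f' := hmF.le_extFn
      have hRQ : F.IsConj R (img P f₀) := himg' ▸ isConj_of_mor hmF
      have hRK : R ∈ K := h.hKconj _ hQK R (isConj_symm' hRQ)
      have hψ0R : Mor (sys1 F p K) R ψ₀ := hψ0.restrict hRN
      have hψ0RF := sys1_mor hψ0R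
      have hR'K : img R ψ₀ ∈ K := h.hKconj R hRK _ (isConj_of_mor hψ0RF)
      have hg0F := sys1_mor hg0
      have hβF := hHF hβ
      have h1 : Mor (sys1 F p K) (img R ψ₀) (autFun S (β⁻¹ * α')) := by
        refine (hψ0R.inv.comp hg0 (fun y hy => hψ0RF.invFn_mem hy)).congr (fun y hy => ?_)
        obtain ⟨x, hx, rfl⟩ := hψ0RF.mem_img.mp hy
        show g₀ (invFn R ψ₀ (ψ₀ x)) = _
        rw [hψ0RF.invFn_apply hx, aF_mul β⁻¹ α' (hψ0RF.mem hx), ← hψψ x (hRN hx),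
          hψR x hx, hgg x hx, autFun_inv_apply' β (hg0F.mem hx)]
      have h2 : β⁻¹ * α' ∈ H :=
        hHstar _ ((F.autGroup S).mul_mem ((F.autGroup S).inv_mem hβF) hα') _ hR'K h1
      have h3 : α' = β * (β⁻¹ * α') := by group
      have hα'0 : α' ∈ H := by
        rw [h3]
        exact H.mul_mem hβ h2
      exact ⟨ψ, (mor_sysH_iff hHF).mpr ⟨α', hα'0, ψ₀, hψ0, hψψ⟩, hψR⟩
  · intro E' hE' P φ hφ
    have hE'mor : ∀ Q ∈ K, ∀ g, Mor (sysH F p K H hHF) Q g → Mor E' Q g := by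
      rintro Q hQ g ⟨ψ, hψ, hg⟩
      exact ⟨ψ, hE' Q hQ hψ, hg⟩
    have hfam : ∀ Q ∈ K, opP p (F.autGroup Q) ≤ E'.autGroup Q := by
      intro Q hQ κ hκ
      rw [mem_autGroup_iff E' (h.hKS Q hQ)]
      exact hE'mor Q hQ _ (sys1_le_sysH hHF
        ((mem_autGroup_iff _ (h.hKS Q hQ) κ).mp (sys1_opP h.hKS h.hKconj hQ hκ)))
    obtain ⟨α, hα, f₀, h0, hf⟩ := (mor_sysH_iff hHF).mp (mor_of_hom hφ)
    have h0F := sys1_mor h0
    have hαE' : Mor E' S (autFun S α) := hE'mor S h.hKtop _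
      ((mor_sysH_iff hHF).mpr ⟨α, hα, id, mor_id _ le_rfl, fun x _ => rfl⟩)
    have h0E' : Mor E' P f₀ := sys1_min h0 E' hfam
    exact ((h0E'.comp hαE' (fun x hx => h0F.mem hx)).congr (fun x hx => (hf x hx).symm)).hom φ
      (fun x => (extFun_apply P φ x).symm)
  · intro P hc hPK
    have hPc : F.IsCentric P := (hcent P).mp hc
    obtain ⟨f₀, h0, hQfn⟩ := exists_fn_img hS hF h.hKS h.hKconj h.hbad hPc.1
    have h0F := sys1_mor h0
    obtain ⟨hfa, hrec⟩ := fa_rec_of_fullyNormalized hS hF hQfn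
    have hQK : img P f₀ ∉ K :=
      fun hQ => hPK (h.hKconj _ hQ P (isConj_symm' (isConj_of_mor h0F)))
    exact ⟨img P f₀, isConj_of_mor (sys1_le_sysH hHF h0),
      h.hbad _ (centric_img hPc h0F) hQK hfa hrec _ (sysH_sub hHF)⟩

theorem aut_sysH (h : FamHyp F p K) (hHF : H ≤ F.autGroup S)
    (hHstar : ∀ γ ∈ F.autGroup S, ∀ R ∈ K, Mor (sys1 F p K) R (autFun S γ) → γ ∈ H)
    (α : MulAut S) : α ∈ (sysH F p K H hHF).autGroup S ↔ α ∈ H := by
  rw [mem_autGroup_iff _ le_rfl]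
  constructor
  · intro hm
    obtain ⟨β, hβ, f₀, h0, hf⟩ := (mor_sysH_iff hHF).mp hm
    have h0F := sys1_mor h0
    have hαF : α ∈ F.autGroup S := (mem_autGroup_iff F le_rfl α).mpr (sysH_mor hHF hm)
    have h1 : Mor (sys1 F p K) S (autFun S (β⁻¹ * α)) := by
      refine h0.congr (fun x hx => ?_)
      rw [aF_mul β⁻¹ α hx, hf x hx, autFun_inv_apply' β (h0F.mem hx)]
    have h2 : β⁻¹ * α ∈ H :=
      hHstar _ ((F.autGroup S).mul_mem ((F.autGroup S).inv_mem (hHF hβ)) hαF) S h.hKtop h1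
    have h3 : α = β * (β⁻¹ * α) := by group
    rw [h3]
    exact H.mul_mem hβ h2
  · intro hα
    exact (mor_sysH_iff hHF).mpr ⟨α, hα, id, mor_id _ le_rfl, fun x _ => rfl⟩

theorem sysH_invariant [Finite S] [Fact p.Prime] (h : FamHyp F p K) (hHF : H ≤ F.autGroup S)
    (hHn : ∀ δ ∈ F.autGroup S, ∀ α ∈ H, δ * α * δ⁻¹ ∈ H) :
    (sysH F p K H hHF).IsInvariantIn F := by
  refine invariantIn_of_mor (sysH_sub hHF) ?_ ?_
  · intro P f hf δ hδ
    obtain ⟨α, hα, f₀, h0, hff⟩ := (mor_sysH_iff hHF).mp hf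
    have h0F := sys1_mor h0
    have hPS : P ≤ S := h0F.le
    have hδP : Mor F P (autFun S δ) := (aF_mor hδ).restrict hPS
    refine (mor_sysH_iff hHF).mpr ⟨δ * α * δ⁻¹, hHn δ hδ α hα, _, sys1_conj h0 hδ,
      fun y hy => ?_⟩
    obtain ⟨x, hx, rfl⟩ := hδP.mem_img.mp hy
    show autFun S δ (f (autFun S δ⁻¹ (autFun S δ x))) =
      autFun S (δ * α * δ⁻¹) (autFun S δ (f₀ (autFun S δ⁻¹ (autFun S δ x))))
    rw [autFun_inv_apply' δ (hPS hx), hff x hx,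
      aF_mul (δ * α) δ⁻¹ (autFun_mem δ (h0F.mem hx)), autFun_inv_apply' δ (h0F.mem hx),
      aF_mul δ α (h0F.mem hx)]
  · intro P f hf
    obtain ⟨α, hα, f₀, h0, hff⟩ := sys1_decomp h.hS h.hF h.hKS h.hKconj h.hbad hf
    exact ⟨α, hα, f₀, sys1_le_sysH hHF h0, hff⟩

theorem sysH_normal [Finite S] [Fact p.Prime] (h : FamHyp F p K) (hHF : H ≤ F.autGroup S)
    (hHstar : ∀ γ ∈ F.autGroup S, ∀ R ∈ K, Mor (sys1 F p K) R (autFun S γ) → γ ∈ H)
    (hHn : ∀ δ ∈ F.autGroup S, ∀ α ∈ H, δ * α * δ⁻¹ ∈ H) :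
    (sysH F p K H hHF).IsNormalIn F p :=
  normalIn_of_invariant (sysH_saturated h hHF hHstar) h.hF (sysH_invariant h hHF hHn)

end Cfsg.Agent.Lib.Helper88.PIdx
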