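import Cfsg.Agent.Lib.Helper88.PIdxProd

set_option autoImplicit false
open Cfsg

namespace Cfsg.Agent.Lib.Helper88.PIdx

open Cfsg.FusionSystem Cfsg.Agent.Lib.Helper90 Cfsg.Agent.Lib.Helper91 Cfsg.Agent.Lib.Helper88
open Cfsg.Agent.S5114 (opP Inv Good aF_mul aF_one aF_conj aF_mor inv_id inv_res inv_comp inv_inv'
  inv_conj map_closure_eq closure_ppow_normal opP_map)

variable {Ω : Type*} [Group Ω] {S : Subgroup Ω} {F : FusionSystem S} {p : ℕ}
  {K : Set (Subgroup Ω)} {P Q : Subgroup Ω} {f g : Ω → Ω}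

/-! ### The decomposition `F = Aut_F(S) · E` relative to a family `K` -/

theorem inv_opP' [Finite S] {E : FusionSystem S}
    (hKS : ∀ P ∈ K, P ≤ S)
    (hKconj : ∀ P ∈ K, ∀ Q, F.IsConj P Q → Q ∈ K)
    (h : ∀ P ∈ K, opP p (F.autGroup P) ≤ E.autGroup P)
    (hP : P ∈ K) {κ : MulAut P} (hκ : κ ∈ opP p (F.autGroup P)) :
    Inv F E P (autFun P κ) := by
  have hPS : P ≤ S := hKS P hP
  refine ⟨(mem_autGroup_iff E hPS κ).mp (h P hP hκ), fun β hβ => ?_⟩
  have hβP : Mor F P (autFun S β) := (aF_mor hβ).restrict hPS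
  have hP' : img P (autFun S β) ∈ K := hKconj P hP _ (isConj_of_mor hβP)
  obtain ⟨e, he⟩ := hβP.exists_equiv rfl
  have hκ' : MulAut.congr e κ ∈ opP p (F.autGroup (img P (autFun S β))) :=
    opP_map p (MulAut.congr e) (fun a ha => congr_mem_autGroup hβP rfl e he a ha) hκ
  have hM : Mor E (img P (autFun S β)) (autFun (img P (autFun S β)) (MulAut.congr e κ)) :=
    (mem_autGroup_iff E (hKS _ hP') _).mp (h _ hP' hκ')
  refine hM.congr (fun y hy => ?_)
  obtain ⟨x, hx, rfl⟩ := hβP.mem_img.mp hy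
  show _ = autFun S β (autFun P κ (autFun S β⁻¹ (autFun S β x)))
  rw [autFun_inv_apply' β (hPS hx), autFun_apply' _ hy, congr_apply_coe, he]
  have e1 : e.symm ⟨autFun S β x, hy⟩ = ⟨x, hx⟩ := by
    rw [MulEquiv.symm_apply_eq]
    exact Subtype.ext (he ⟨x, hx⟩).symm
  rw [e1, autFun_apply' κ hx]

theorem good_congr {E : FusionSystem S} : ∀ (P : Subgroup Ω) (f g : Ω → Ω), Good F E P f →
    (∀ x ∈ P, f x = g x) → Good F E P g := by
  rintro P f g ⟨α, hα, f₀, hf₀, hff⟩ hfg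
  exact ⟨α, hα, f₀, hf₀, fun x hx => by rw [← hfg x hx]; exact hff x hx⟩

theorem good_res {E : FusionSystem S} : ∀ (P P₀ : Subgroup Ω) (f : Ω → Ω), Mor F P f →
    Good F E P f → P₀ ≤ P → Good F E P₀ f := by
  rintro P P₀ f - ⟨α, hα, f₀, hf₀, hff⟩ h0
  exact ⟨α, hα, f₀, inv_res hf₀ h0, fun x hx => hff x (h0 hx)⟩

theorem good_comp {E : FusionSystem S} : ∀ (P Q : Subgroup Ω) (f g : Ω → Ω), Mor F P f →
    Mor F Q g → (∀ x ∈ P, f x ∈ Q) → Good F E P f → Good F E Q g → Good F E P (g ∘ f) := by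
  rintro P Q f g hf hg hfg ⟨α₁, hα₁, f₀, hf₀, hff⟩ ⟨α₂, hα₂, g₀, hg₀, hgg⟩
  have hα₁inv : α₁⁻¹ ∈ F.autGroup S := (F.autGroup S).inv_mem hα₁
  have hαQ : Mor F Q (autFun S α₁⁻¹) := (aF_mor hα₁inv).restrict hg.le
  have hg₁ := inv_conj hg₀ hα₁inv
  rw [inv_inv] at hg₁
  have hf₀x : ∀ x ∈ P, f₀ x = autFun S α₁⁻¹ (f x) := by
    intro x hx
    rw [hff x hx, autFun_inv_apply' α₁ (hf₀.1.mem hx)]
  have hmem : ∀ x ∈ P, f₀ x ∈ img Q (autFun S α₁⁻¹) := by
    intro x hx
    rw [hf₀x x hx]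
    exact hαQ.mem_img_of_mem (hfg x hx)
  refine ⟨α₂ * α₁, (F.autGroup S).mul_mem hα₂ hα₁, _, inv_comp hf₀ hg₁ hmem, fun x hx => ?_⟩
  show g (f x) = autFun S (α₂ * α₁) (autFun S α₁⁻¹ (g₀ (autFun S α₁ (f₀ x))))
  rw [← hff x hx, aF_mul α₂ α₁ (autFun_mem _ (hg₀.1.mem (hfg x hx))),
    autFun_inv_apply α₁ (hg₀.1.mem (hfg x hx)), hgg _ (hfg x hx)]

theorem good_inv {E : FusionSystem S} : ∀ (P : Subgroup Ω) (f : Ω → Ω), Mor F P f →
    Good F E P f → Good F E (img P f) (invFn P f) := by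
  rintro P f hf ⟨α, hα, f₀, hf₀, hff⟩
  have hαinv : α⁻¹ ∈ F.autGroup S := (F.autGroup S).inv_mem hα
  have hαQ : Mor F (img P f₀) (autFun S α) := (aF_mor hα).restrict hf₀.1.img_le
  have h1 := inv_conj (inv_inv' hf₀) hα
  have himg : img (img P f₀) (autFun S α) = img P f := by
    ext y
    rw [hαQ.mem_img, hf.mem_img]
    constructor
    · rintro ⟨z, hz, rfl⟩
      obtain ⟨x, hx, rfl⟩ := hf₀.1.mem_img.mp hz
      exact ⟨x, hx, hff x hx⟩
    · rintro ⟨x, hx, rfl⟩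
      exact ⟨f₀ x, hf₀.1.mem_img_of_mem hx, (hff x hx).symm⟩
  rw [himg] at h1
  refine ⟨α⁻¹, hαinv, _, h1, fun y hy => ?_⟩
  obtain ⟨x, hx, rfl⟩ := hf.mem_img.mp hy
  show invFn P f (f x) = autFun S α⁻¹ (autFun S α (invFn P f₀ (autFun S α⁻¹ (f x))))
  rw [hf.invFn_apply hx, hff x hx, autFun_inv_apply' α (hf₀.1.mem hx), hf₀.1.invFn_apply hx,
    autFun_inv_apply' α (hf.le hx)]

/-- The hypothesis on the family `K` used throughout: an `F`-centric fully automized receptive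
subgroup outside `K` is not radical, witnessed in `Aut_S(P) ∩ O_p(Aut_D(P))` for every subsystem
`D` of `F` over `S`. -/
def BadHyp (F : FusionSystem S) (p : ℕ) (K : Set (Subgroup Ω)) : Prop :=
  ∀ P, F.IsCentric P → P ∉ K → F.IsFullyAutomized p P → F.IsReceptive P →
    ∀ D : FusionSystem S, D.IsSubsystemOf F →
      ¬ (autInducedBy S P ⊓ (pCore p (D.autGroup P)).map (D.autGroup P).subtype ≤ Inn P)

theorem rad_of_bad [Finite S] (hbad : BadHyp F p K) (hP : F.IsCentric P) (hPK : P ∉ K)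
    (hfa : F.IsFullyAutomized p P) (hrec : F.IsReceptive P) : ¬ plusSub F p P ≤ P := by
  intro hle
  have : Finite P := finite_of_le hP.1
  apply hbad P hP hPK hfa hrec F (fun _ => subset_rfl)
  rintro κ ⟨hκS, hκO⟩
  obtain ⟨a, ha, hκa⟩ := (mem_autInducedBy_iff S P κ).mp hκS
  have haN : a ∈ Subgroup.normalizer (P : Set Ω) :=
    mem_normalizer_of_finite (fun x hx => by rw [← hκa ⟨x, hx⟩]; exact (κ ⟨x, hx⟩).2)
  have haP : a ∈ P := hle ⟨⟨ha, haN⟩, κ, hκO, hκa⟩
  exact (mem_Inn_iff κ).mpr ⟨a, haP, hκa⟩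

theorem good_all' [Finite S] [Fact p.Prime] {E : FusionSystem S} (hS : IsPGroup p S)
    (hF : F.IsSaturated p) (hKS : ∀ P ∈ K, P ≤ S)
    (hKconj : ∀ P ∈ K, ∀ Q, F.IsConj P Q → Q ∈ K) (hbad : BadHyp F p K)
    (h : ∀ P ∈ K, opP p (F.autGroup P) ≤ E.autGroup P) :
    ∀ (P : Subgroup Ω) (f : Ω → Ω), Mor F P f → Good F E P f := by
  refine alperin_induction hS hF (Good F E) good_congr good_res good_comp good_inv ?_
  intro P hfa hrec prem f hf hfP
  have hP : P ≤ S := hf.le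
  have : Finite P := finite_of_le hP
  rcases eq_or_lt_of_le hP with heq | hlt
  · have hfS : Mor F S f := heq ▸ hf
    obtain ⟨α, hα, hαf⟩ := exists_aut_of_mor hfS (fun x hx => hfS.mem hx)
    refine ⟨α, hα, id, inv_id hP, fun x hx => ?_⟩
    rw [← hαf ⟨x, hP hx⟩, id, autFun_apply' α (hP hx)]
  · by_cases hC : centralizerIn S P ≤ P
    · have hcent : F.IsCentric P := centric_of_rec hrec hC
      by_cases hPK : P ∈ K
      · obtain ⟨α, hα, hαf⟩ := exists_aut_of_mor hf hfP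
        obtain ⟨-, R, hR⟩ := id hfa
        let K' : Subgroup (F.autGroup P) :=
          Subgroup.closure {α : ↥(F.autGroup P) | ∃ k : ℕ, orderOf α = p ^ k}
        have hKn : K'.Normal := closure_ppow_normal p _
        obtain ⟨ν, κ, hνκ, hκ, hν⟩ := frattini_decomp R K' ⟨α, hα⟩
        have hκ' : (κ : MulAut P) ∈ opP p (F.autGroup P) := by
          rw [← map_closure_eq]
          exact ⟨κ, hκ, rfl⟩
        have hκm : Mor F P (autFun P κ) := (mem_autGroup_iff F hP κ).mp κ.2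
        have hνm : Mor F P (autFun P ν) := (mem_autGroup_iff F hP ν).mp ν.2
        have gκ : Good F E P (autFun P κ) := by
          refine ⟨1, (F.autGroup S).one_mem, _, inv_opP' hKS hKconj h hPK hκ', fun x hx => ?_⟩
          rw [aF_one (hP (autFun_mem _ hx))]
        have gν : Good F E P (autFun P ν) := by
          obtain ⟨-, a, ha, haP⟩ := SetLike.lt_iff_le_and_exists.mp (lt_normalizerIn hS hlt)
          obtain ⟨β, hβF, hβ⟩ := exists_aut_of_mor (mor_conj F hP ha.1)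
            (fun y hy => conj_mem_of_mem_normalizer ha.2 hy)
          have hβS : β ∈ autInducedBy S P := (mem_autInducedBy_iff S P β).mpr ⟨a, ha.1, hβ⟩
          have hβR : (⟨β, hβF⟩ : F.autGroup P) ∈ (R : Subgroup (F.autGroup P)) := by
            rw [hR]
            exact Subgroup.mem_subgroupOf.mpr hβS
          have hβK : (⟨β, hβF⟩ : F.autGroup P) ∈ K' := by
            apply Subgroup.subset_closure
            obtain ⟨k, hk⟩ := (IsPGroup.iff_orderOf.mp R.isPGroup')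
              (⟨⟨β, hβF⟩, hβR⟩ : (R : Subgroup (F.autGroup P)))
            exact ⟨k, by
              rw [← hk]
              exact Subgroup.orderOf_coe (⟨⟨β, hβF⟩, hβR⟩ : (R : Subgroup (F.autGroup P)))⟩
          have h1 := (hν _ ⟨hβR, hβK⟩).1
          rw [hR] at h1
          have h2 : (ν : MulAut P) * β * (ν : MulAut P)⁻¹ ∈ autInducedBy S P :=
            Subgroup.mem_subgroupOf.mp h1
          have haE : a ∈ extFn S P (autFun P ν) := by
            refine Cfsg.Agent.Lib.Helper88.mem_extFn_of_aut hP ν.2 ha.1 ha.2 (fun γ hγ => ?_)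
            have : γ = β := by
              ext x
              rw [hγ, hβ]
            rw [this]
            exact h2
          exact good_of_extFn (Good F E) good_congr good_res hrec hνm
            (fun x hx => autFun_mem _ hx) prem haE haP
        have hcomp := good_comp P P _ _ hκm hνm (fun x hx => autFun_mem _ hx) gκ gν
        refine good_congr _ _ _ hcomp (fun x hx => ?_)
        show autFun P ν (autFun P κ x) = f x
        rw [← hαf ⟨x, hx⟩, autFun_apply' _ hx, autFun_apply]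
        have h5 : α = (ν : MulAut P) * (κ : MulAut P) := congrArg Subtype.val hνκ
        rw [h5]
        rfl
      · have hnot := rad_of_bad hbad hcent hPK hfa hrec
        obtain ⟨f', hf', hf'P, -⟩ :=
          extQ_plusSub hS hfa hrec le_rfl (extQ_of_le le_rfl hf hfP)
        have hlt' : P < P ⊔ plusSub F p P :=
          lt_of_le_of_ne le_sup_left (fun h => hnot (le_sup_right.trans h.ge))
        exact good_congr _ _ _ (good_res _ _ _ hf' (prem _ f' hlt' hf') le_sup_left) hf'P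
    · obtain ⟨a, ha, haP⟩ := SetLike.not_le_iff_exists.mp hC
      exact good_of_extFn (Good F E) good_congr good_res hrec hf hfP prem
        (hf.centralizerIn_le_extFn ha) haP

/-- Consequences of the decomposition: index prime to `p`, the Frattini form, and equality of the
centric subgroups. -/
theorem index_of_good [Finite S] [Fact p.Prime] (hF : F.IsSaturated p) {E : FusionSystem S}
    (hEF : E.IsSubsystemOf F) (hgood : ∀ (P : Subgroup Ω) (f : Ω → Ω), Mor F P f → Good F E P f) :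
    E.HasPrimeToPIndexIn F p ∧ ∀ P : Subgroup Ω, E.IsCentric P ↔ F.IsCentric P := by
  refine ⟨⟨hEF, ?_⟩, ?_⟩
  · intro P hP
    rw [map_closure_eq]
    unfold opP
    rw [Subgroup.closure_le]
    rintro α₀ ⟨hα₀, k, hk⟩
    show α₀ ∈ E.autGroup P
    have : Finite P := finite_of_le hP
    obtain ⟨Q, hconj, hfa, hrec⟩ := hF P hP
    obtain ⟨c, hc, hcimg⟩ := isConj_iff.mp hconj
    obtain ⟨e, he⟩ := hc.exists_equiv hcimg
    have hα₁ : MulAut.congr e α₀ ∈ F.autGroup Q := congr_mem_autGroup hc hcimg e he α₀ hα₀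
    have hA : IsPGroup p (Subgroup.zpowers (MulAut.congr e α₀)) := by
      apply IsPGroup.of_card (n := k)
      rw [Nat.card_zpowers, (MulAut.congr e).orderOf_eq, hk]
    obtain ⟨γ, hγ, hγA⟩ := exists_conj_le_autInducedBy hfa _ hA
      (by rw [Subgroup.zpowers_le]; exact hα₁)
    obtain ⟨s, hs, hsγ⟩ := (mem_autInducedBy_iff S Q _).mp (hγA _ (Subgroup.mem_zpowers _))
    have hγm : Mor F Q (autFun Q γ) := (mem_autGroup_iff F hfa.1 γ).mp hγ
    have hd : Mor F P (autFun Q γ ∘ c) :=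
      hc.comp hγm (fun x hx => hcimg ▸ hc.mem_img_of_mem hx)
    obtain ⟨β, hβ, d₀, hd₀, hdd⟩ := hgood P _ hd
    have key : ∀ x ∈ P, d₀ (autFun P α₀ x) =
        autFun S β⁻¹ s * d₀ x * (autFun S β⁻¹ s)⁻¹ := by
      intro x hx
      have hαx : autFun P α₀ x ∈ P := autFun_mem α₀ hx
      have h1 : autFun S β (d₀ (autFun P α₀ x)) = s * autFun S β (d₀ x) * s⁻¹ := by
        rw [← hdd _ hαx, ← hdd x hx]
        show autFun Q γ (c (autFun P α₀ x)) = s * autFun Q γ (c x) * s⁻¹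
        have hcx : c x ∈ Q := hcimg ▸ hc.mem_img_of_mem hx
        have h2 := hsγ (γ ⟨c x, hcx⟩)
        rw [autFun_apply' γ hcx, ← h2]
        simp only [MulAut.mul_apply, MulAut.inv_apply_self]
        rw [congr_apply_coe]
        have e1 : e.symm ⟨c x, hcx⟩ = ⟨x, hx⟩ := by
          rw [MulEquiv.symm_apply_eq]
          exact Subtype.ext (he ⟨x, hx⟩).symm
        rw [e1]
        have e2 : c (autFun P α₀ x) = ((e (α₀ ⟨x, hx⟩) : Q) : Ω) := by
          rw [he, autFun_apply' α₀ hx]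
        rw [e2, autFun_apply]
      have h3 := congrArg (autFun S β⁻¹) h1
      rw [autFun_inv_apply' β (hd₀.1.mem hαx),
        aF_conj β⁻¹ hs ((aF_mor hβ).mem (hd₀.1.mem hx)),
        autFun_inv_apply' β (hd₀.1.mem hx)] at h3
      exact h3
    have hs' : autFun S β⁻¹ s ∈ S := autFun_mem _ hs
    have hM : Mor E P (invFn P d₀ ∘ (fun y => autFun S β⁻¹ s * y * (autFun S β⁻¹ s)⁻¹) ∘ d₀) := by
      refine (hd₀.1.comp (mor_conj E hd₀.1.img_le hs')
        (fun x hx => hd₀.1.mem_img_of_mem hx)).comp hd₀.1.inv ?_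
      intro x hx
      show autFun S β⁻¹ s * d₀ x * (autFun S β⁻¹ s)⁻¹ ∈ img P d₀
      rw [← key x hx]
      exact hd₀.1.mem_img_of_mem (autFun_mem α₀ hx)
    rw [mem_autGroup_iff E hP]
    refine hM.congr (fun x hx => ?_)
    show invFn P d₀ (autFun S β⁻¹ s * d₀ x * (autFun S β⁻¹ s)⁻¹) = autFun P α₀ x
    rw [← key x hx, hd₀.1.invFn_apply (autFun_mem α₀ hx)]
  · intro P
    constructor
    · intro hE
      refine ⟨hE.1, fun Q hconj => ?_⟩
      obtain ⟨f, hf, hfimg⟩ := isConj_iff.mp hconj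
      obtain ⟨α, hα, f₀, hf₀, hff⟩ := hgood P f hf
      have hQ₀ : centralizerIn S (img P f₀) ≤ img P f₀ := hE.2 _ (isConj_of_mor hf₀.1)
      intro x hx
      have hxS : x ∈ S := hx.1
      have hmem : autFun S α⁻¹ x ∈ centralizerIn S (img P f₀) := by
        refine ⟨autFun_mem _ hxS, ?_⟩
        show autFun S α⁻¹ x ∈ Subgroup.centralizer ((img P f₀ : Subgroup Ω) : Set Ω)
        rw [Subgroup.mem_centralizer_iff]
        intro y hy
        obtain ⟨z, hz, rfl⟩ := hf₀.1.mem_img.mp hy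
        have hfz : f z ∈ Q := hfimg ▸ hf.mem_img_of_mem hz
        have hcomm : f z * x = x * f z := Subgroup.mem_centralizer_iff.mp hx.2 (f z) hfz
        have e1 : f₀ z = autFun S α⁻¹ (f z) := by
          rw [hff z hz, autFun_inv_apply' α (hf₀.1.mem hz)]
        rw [e1]
        have hm := aF_mor ((F.autGroup S).inv_mem hα)
        rw [← hm.map_mul (hf.mem hz) hxS, ← hm.map_mul hxS (hf.mem hz), hcomm]
      obtain ⟨z, hz, hzx⟩ := hf₀.1.mem_img.mp (hQ₀ hmem)
      have hxz : x = f z := by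
        rw [hff z hz, hzx, autFun_inv_apply α hxS]
      rw [hxz, ← hfimg]
      exact hf.mem_img_of_mem hz
    · intro hFc
      refine ⟨hFc.1, fun Q hconj => hFc.2 Q ?_⟩
      obtain ⟨f, hf, hfimg⟩ := isConj_iff.mp hconj
      exact isConj_iff.mpr ⟨f, mor_of_subsystem hEF hf, hfimg⟩

/-! ### The systems generated by the `p`-elements of the automorphism groups of members of `K` -/

/-- Maps lying in every fusion system over `S` whose automorphism groups of members of `K`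
contain the `p`-elements of those of `F`. -/
def C0 (F : FusionSystem S) (p : ℕ) (K : Set (Subgroup Ω)) (P : Subgroup Ω) (f : Ω → Ω) : Prop :=
  Mor F P f ∧ ∀ D : FusionSystem S,
    (∀ Q ∈ K, opP p (F.autGroup Q) ≤ D.autGroup Q) → Mor D P f

def sys0 (F : FusionSystem S) (p : ℕ) (K : Set (Subgroup Ω)) : FusionSystem S :=
  mkSys F S (C0 F p K)
    (fun _ _ _ h hfg => ⟨h.1.congr hfg, fun D hD => (h.2 D hD).congr hfg⟩)
    (fun _ _ h => h.1)
    (fun _ _ h => ⟨h.1.le, fun _ hx => h.1.mem hx⟩)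
    (fun _ _ hP ha => ⟨mor_conj F hP ha, fun D _ => mor_conj D hP ha⟩)
    (fun _ _ _ _ hf hg hPQ => ⟨hf.1.comp hg.1 hPQ, fun D hD => (hf.2 D hD).comp (hg.2 D hD) hPQ⟩)
    (fun _ _ h => ⟨h.1.inv, fun D hD => (h.2 D hD).inv⟩)

theorem mor_sys0_iff : Mor (sys0 F p K) P f ↔ C0 F p K P f :=
  mor_mkSys_iff _ _ _ _ _ _ _ _ _

theorem sys0_opP (hKS : ∀ P ∈ K, P ≤ S) (hQ : Q ∈ K) :
    opP p (F.autGroup Q) ≤ (sys0 F p K).autGroup Q := by
  intro κ hκ
  rw [mem_autGroup_iff _ (hKS Q hQ), mor_sys0_iff]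
  exact ⟨(mem_autGroup_iff F (hKS Q hQ) κ).mp (Cfsg.Agent.S5140.opP_le p _ hκ),
    fun D hD => (mem_autGroup_iff D (hKS Q hQ) κ).mp (hD Q hQ hκ)⟩

/-- The invariant part of `sys0`. -/
def sys1 (F : FusionSystem S) (p : ℕ) (K : Set (Subgroup Ω)) : FusionSystem S :=
  mkSys F S (Inv F (sys0 F p K))
    (fun _ _ _ h hfg => Cfsg.Agent.S5140.inv_congr h hfg)
    (fun _ _ h => (mor_sys0_iff.mp h.1).1)
    (fun _ _ h => ⟨h.1.le, fun _ hx => h.1.mem hx⟩)
    (fun _ _ hP ha => Cfsg.Agent.S5140.inv_conjMap hP ha)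
    (fun _ _ _ _ hf hg hPQ => inv_comp hf hg hPQ)
    (fun _ _ h => inv_inv' h)

theorem mor_sys1_iff : Mor (sys1 F p K) P f ↔ Inv F (sys0 F p K) P f :=
  mor_mkSys_iff _ _ _ _ _ _ _ _ _

theorem sys1_mor (h : Mor (sys1 F p K) P f) : Mor F P f :=
  (mor_sys0_iff.mp (mor_sys1_iff.mp h).1).1

theorem sys1_opP [Finite S] (hKS : ∀ P ∈ K, P ≤ S)
    (hKconj : ∀ P ∈ K, ∀ Q, F.IsConj P Q → Q ∈ K) (hQ : Q ∈ K) :
    opP p (F.autGroup Q) ≤ (sys1 F p K).autGroup Q := by
  intro κ hκ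
  rw [mem_autGroup_iff _ (hKS Q hQ), mor_sys1_iff]
  exact inv_opP' hKS hKconj (fun _ hP => sys0_opP hKS hP) hQ hκ

theorem sys1_conj (h : Mor (sys1 F p K) P f) {β : MulAut S} (hβ : β ∈ F.autGroup S) :
    Mor (sys1 F p K) (img P (autFun S β)) (autFun S β ∘ f ∘ autFun S β⁻¹) :=
  mor_sys1_iff.mpr (inv_conj (mor_sys1_iff.mp h) hβ)

theorem sys1_min (h : Mor (sys1 F p K) P f) (D : FusionSystem S)
    (hD : ∀ Q ∈ K, opP p (F.autGroup Q) ≤ D.autGroup Q) : Mor D P f :=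
  (mor_sys0_iff.mp (mor_sys1_iff.mp h).1).2 D hD

theorem sys1_decomp [Finite S] [Fact p.Prime] (hS : IsPGroup p S) (hF : F.IsSaturated p)
    (hKS : ∀ P ∈ K, P ≤ S) (hKconj : ∀ P ∈ K, ∀ Q, F.IsConj P Q → Q ∈ K)
    (hbad : BadHyp F p K) (h : Mor F P f) :
    ∃ α ∈ F.autGroup S, ∃ f₀, Mor (sys1 F p K) P f₀ ∧ ∀ x ∈ P, f x = autFun S α (f₀ x) := by
  obtain ⟨α, hα, f₀, hf₀, hff⟩ :=
    good_all' (E := sys1 F p K) hS hF hKS hKconj hbad (fun _ hP => sys1_opP hKS hKconj hP) P f h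
  exact ⟨α, hα, f₀, hf₀.1, hff⟩

/-- Every subgroup of `S` is conjugate by a map of `sys1` to a fully normalized subgroup. -/
theorem exists_fn_img [Finite S] [Fact p.Prime] (hS : IsPGroup p S) (hF : F.IsSaturated p)
    (hKS : ∀ P ∈ K, P ≤ S) (hKconj : ∀ P ∈ K, ∀ Q, F.IsConj P Q → Q ∈ K)
    (hbad : BadHyp F p K) (hP : P ≤ S) :
    ∃ f₀, Mor (sys1 F p K) P f₀ ∧ F.IsFullyNormalized (img P f₀) := by
  obtain ⟨P', hconj, hfn⟩ := exists_fullyNormalized_conj F hP
  obtain ⟨f, hf, himg⟩ := isConj_iff.mp hconj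
  obtain ⟨α, hα, f₀, h0, hff⟩ := sys1_decomp hS hF hKS hKconj hbad hf
  have h0F := sys1_mor h0
  have hQS : img P f₀ ≤ S := h0F.img_le
  have hαm := aF_mor hα
  have hαinv := aF_mor ((F.autGroup S).inv_mem hα)
  have hP'img : P' = img (img P f₀) (autFun S α) := by
    rw [← himg, ← Mor.img_comp h0F hαm (fun x hx => h0F.mem hx)]
    exact img_congr hff
  have hQP' : F.IsConj (img P f₀) P' := by
    rw [hP'img]
    exact isConj_of_mor (hαm.restrict hQS)
  have hfin : Finite (img P f₀) := finite_of_le hQS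
  have hcard : Nat.card (normalizerIn S P') ≤ Nat.card (normalizerIn S (img P f₀)) := by
    refine card_le_of_mor_into (hαinv.restrict (normalizerIn_le_S S P'))
      (normalizerIn_le_S S _) ?_
    intro a ha
    refine ⟨hαinv.mem ha.1, mem_normalizer_of_finite (fun q hq => ?_)⟩
    obtain ⟨x, hx, rfl⟩ := h0F.mem_img.mp hq
    have h1 : autFun S α (f₀ x) ∈ P' := by
      rw [← himg, ← hff x hx]
      exact hf.mem_img_of_mem hx
    have h2 : a * autFun S α (f₀ x) * a⁻¹ ∈ P' := conj_mem_of_mem_normalizer ha.2 h1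
    rw [← himg] at h2
    obtain ⟨x', hx', hx'e⟩ := hf.mem_img.mp h2
    have h3 : autFun S α⁻¹ a * f₀ x * (autFun S α⁻¹ a)⁻¹ = f₀ x' := by
      have h4 := aF_conj α⁻¹ ha.1 (hαm.mem (h0F.mem hx))
      rw [autFun_inv_apply' α (h0F.mem hx)] at h4
      rw [← h4, ← hx'e, hff x' hx', autFun_inv_apply' α (h0F.mem hx')]
    rw [h3]
    exact h0F.mem_img_of_mem hx'
  exact ⟨f₀, h0, hQS, fun R hR => (hfn.2 R (isConj_trans' (isConj_symm' hQP') hR)).trans hcard⟩

end Cfsg.Agent.Lib.Helper88.PIdx
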