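import Cfsg.Agent.S5140
import Cfsg.Agent.Lib.Helper90.Radical

set_option autoImplicit false
open Cfsg

namespace Cfsg.Agent.Lib.Helper88.PIdx

open Cfsg.FusionSystem Cfsg.Agent.Lib.Helper90 Cfsg.Agent.Lib.Helper91 Cfsg.Agent.Lib.Helper88
open Cfsg.Agent.S5114 (opP Inv Good aF_mul aF_one aF_conj aF_mor inv_id inv_res inv_comp inv_inv'
  inv_conj map_closure_eq closure_ppow_normal opP_map)

variable {Ω : Type*} [Group Ω] {S : Subgroup Ω} {F : FusionSystem S} {p : ℕ}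
  {K : Set (Subgroup Ω)} {P Q : Subgroup Ω} {f g : Ω → Ω}

/-! ### Products `A · E` of a group of automorphisms of `T` and a system over `T` -/

section prod

variable {T : Subgroup Ω} {E : FusionSystem T} {A : Subgroup (MulAut T)}

/-- The maps `α ∘ f₀` with `α ∈ A` and `f₀` a map of `E`. -/
def CP (E : FusionSystem T) (A : Subgroup (MulAut T)) (P : Subgroup Ω) (f : Ω → Ω) : Prop :=
  ∃ α ∈ A, ∃ f₀, Mor E P f₀ ∧ ∀ x ∈ P, f x = autFun T α (f₀ x)

/-- Hypotheses making `A · E` a fusion system over `T`. -/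
structure ProdHyp (F : FusionSystem S) (E : FusionSystem T) (A : Subgroup (MulAut T)) : Prop where
  hTS : T ≤ S
  hsub : E.IsSubsystemOf F
  hA : A ≤ F.autGroup T
  hconj : ∀ (P : Subgroup Ω) (f : Ω → Ω), Mor E P f → ∀ α ∈ A,
    Mor E (img P (autFun T α)) (autFun T α ∘ f ∘ autFun T α⁻¹)

theorem ProdHyp.autMor (h : ProdHyp F E A) {α : MulAut T} (hα : α ∈ A) :
    Mor F T (autFun T α) :=
  (mem_autGroup_iff F h.hTS α).mp (h.hA hα)

theorem CP_mor (h : ProdHyp F E A) (hf : CP E A P f) : Mor F P f := by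
  obtain ⟨α, hα, f₀, h0, hf⟩ := hf
  have h0F := mor_of_subsystem h.hsub h0
  exact (h0F.comp (h.autMor hα) (fun x hx => h0.mem hx)).congr (fun x hx => (hf x hx).symm)

theorem CP_comp (h : ProdHyp F E A) (hf : CP E A P f) (hg : CP E A Q g)
    (hPQ : ∀ x ∈ P, f x ∈ Q) : CP E A P (g ∘ f) := by
  obtain ⟨α, hα, f₀, h0, hf0⟩ := hf
  obtain ⟨β, hβ, g₀, hg0, hgg⟩ := hg
  have hQT : Q ≤ T := hg0.le
  have hc := h.hconj _ _ hg0 α⁻¹ (A.inv_mem hα)
  rw [inv_inv] at hc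
  have hαQ : Mor F Q (autFun T α⁻¹) := (h.autMor (A.inv_mem hα)).restrict hQT
  have hmem : ∀ x ∈ P, f₀ x ∈ img Q (autFun T α⁻¹) := by
    intro x hx
    refine hαQ.mem_img.mpr ⟨f x, hPQ x hx, ?_⟩
    rw [hf0 x hx, autFun_inv_apply' α (h0.mem hx)]
  refine ⟨β * α, A.mul_mem hβ hα, _, h0.comp hc hmem, fun x hx => ?_⟩
  have hfx : f x ∈ Q := hPQ x hx
  show g (f x) = autFun T (β * α) (autFun T α⁻¹ (g₀ (autFun T α (f₀ x))))
  rw [← hf0 x hx, aF_mul β α (autFun_mem α⁻¹ (hg0.mem hfx)),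
    autFun_inv_apply α (hg0.mem hfx), hgg _ hfx]

theorem CP_inv (h : ProdHyp F E A) (hf : CP E A P f) : CP E A (img P f) (invFn P f) := by
  have hfF := CP_mor h hf
  obtain ⟨α, hα, f₀, h0, hf0⟩ := hf
  have h0F := mor_of_subsystem h.hsub h0
  have hc := h.hconj _ _ h0.inv α hα
  have himg : img P f = img (img P f₀) (autFun T α) := by
    rw [← Mor.img_comp h0F (h.autMor hα) (fun x hx => h0.mem hx)]
    exact img_congr hf0
  rw [← himg] at hc
  refine ⟨α⁻¹, A.inv_mem hα, _, hc, fun y hy => ?_⟩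
  obtain ⟨x, hx, rfl⟩ := hfF.mem_img.mp hy
  show invFn P f (f x) = autFun T α⁻¹ (autFun T α (invFn P f₀ (autFun T α⁻¹ (f x))))
  rw [hfF.invFn_apply hx, hf0 x hx, autFun_inv_apply' α (h0.mem hx), h0.invFn_apply hx,
    autFun_inv_apply' α (h0.le hx)]

/-- The fusion system `A · E` over `T`. -/
def prodSys (h : ProdHyp F E A) : FusionSystem T :=
  mkSys F T (CP E A)
    (fun _ _ _ hc hfg => by
      obtain ⟨α, hα, f₀, h0, hf⟩ := hc
      exact ⟨α, hα, f₀, h0, fun x hx => (hfg x hx).symm.trans (hf x hx)⟩)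
    (fun _ _ hc => CP_mor h hc)
    (fun _ _ hc => by
      obtain ⟨α, hα, f₀, h0, hf⟩ := hc
      exact ⟨h0.le, fun x hx => by rw [hf x hx]; exact autFun_mem α (h0.mem hx)⟩)
    (fun P a hP ha => ⟨1, A.one_mem, _, mor_conj E hP ha, fun x hx =>
      (aF_one (T.mul_mem (T.mul_mem ha (hP hx)) (T.inv_mem ha))).symm⟩)
    (fun _ _ _ _ hf hg hPQ => CP_comp h hf hg hPQ)
    (fun _ _ hc => CP_inv h hc)

theorem mor_prodSys_iff (h : ProdHyp F E A) : Mor (prodSys h) P f ↔ CP E A P f :=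
  mor_mkSys_iff _ _ _ _ _ _ _ _ _

theorem prodSys_mor (h : ProdHyp F E A) (hf : Mor (prodSys h) P f) : Mor F P f :=
  CP_mor h ((mor_prodSys_iff h).mp hf)

theorem le_prodSys (h : ProdHyp F E A) (hf : Mor E P f) : Mor (prodSys h) P f :=
  (mor_prodSys_iff h).mpr ⟨1, A.one_mem, f, hf, fun _ hx => (aF_one (hf.mem hx)).symm⟩

theorem aut_prodSys (h : ProdHyp F E A) {α : MulAut T} (hα : α ∈ A) :
    Mor (prodSys h) T (autFun T α) :=
  (mor_prodSys_iff h).mpr ⟨α, hα, id, mor_id E le_rfl, fun _ _ => rfl⟩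

end prod

/-- Maps between subsystems over possibly different subgroups: inclusion of `Hom`-sets from an
inclusion of maps. -/
theorem hom_subset_of_mor' {T U : Subgroup Ω} {E : FusionSystem T} {D : FusionSystem U}
    (h : ∀ P f, Mor E P f → Mor D P f) (P : Subgroup Ω) : E.Hom P ⊆ D.Hom P := fun φ hφ =>
  (h P _ (mor_of_hom hφ)).hom φ (fun x => (extFun_apply P φ x).symm)

end Cfsg.Agent.Lib.Helper88.PIdx
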