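import Cfsg.Agent.Lib.Helper88.SSolDefs
import Cfsg.Agent.Lib.Helper87.Fusion13

set_option autoImplicit false

/-!
# S5287: the fusion system pulled back from a finite group, and two criteria excluding
supersoluble chains
-/

namespace Cfsg.Agent.Lib.Helper88.SSol

open Cfsg Cfsg.FusionSystem

variable {Ω : Type*} [Group Ω] {S : Subgroup Ω}

/-- The chain condition of S5287: a chain of strongly closed subgroups from `⊥` to `S` with
cyclic steps. -/
def HasChain (F : FusionSystem S) : Prop :=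
  ∃ (m : ℕ) (c : Fin (m + 1) → Subgroup Ω), c 0 = ⊥ ∧ c (Fin.last m) = S ∧
    (∀ i : Fin (m + 1), F.StronglyClosed (c i)) ∧
    ∀ i : Fin m, c i.castSucc ≤ c i.succ ∧ ∃ x ∈ S, c i.succ = c i.castSucc ⊔ Subgroup.zpowers x

/-- The fusion system on `S` induced by conjugation in `G` through an injective homomorphism
`ι : S →* G`. -/
def pullSys {G : Type*} [Group G] (ι : S →* G) (hι : Function.Injective ι) : FusionSystem S where
  Hom P := {φ | ∃ (hP : P ≤ S) (hφ : ∀ x : P, φ x ∈ S), ∃ g : G,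
    ∀ x : P, ι ⟨φ x, hφ x⟩ = g * ι ⟨x, hP x.2⟩ * g⁻¹}
  le_of_mem := by
    rintro P φ ⟨hP, hφ, -⟩
    exact ⟨hP, hφ⟩
  injective_of_mem := by
    rintro P φ ⟨hP, hφ, g, hg⟩ a b hab
    have h1 : ι ⟨φ a, hφ a⟩ = ι ⟨φ b, hφ b⟩ := by
      congr 1
      exact Subtype.ext hab
    rw [hg, hg] at h1
    have h2 : ι ⟨a, hP a.2⟩ = ι ⟨b, hP b.2⟩ := mul_left_cancel (mul_right_cancel h1)
    exact Subtype.ext (congrArg (fun z : S => (z : Ω)) (hι h2))
  conj_mem := by
    intro P g hP hg
    refine ⟨hP, fun x => S.mul_mem (S.mul_mem hg (hP x.2)) (S.inv_mem hg), ι ⟨g, hg⟩, fun x => ?_⟩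
    rw [← map_inv, ← map_mul, ← map_mul]
    rfl
  comp_mem := by
    rintro P Q φ ψ ⟨hP, hφS, g, hg⟩ ⟨hQ, hψS, k, hk⟩ h
    refine ⟨hP, fun x => hψS _, k * g, fun x => ?_⟩
    have h1 := hk (φ.codRestrict Q h x)
    have h2 : ι ⟨((φ.codRestrict Q h x : Q) : Ω), hQ (φ.codRestrict Q h x).2⟩ = ι ⟨φ x, hφS x⟩ :=
      rfl
    rw [h2, hg] at h1
    show ι ⟨ψ (φ.codRestrict Q h x), _⟩ = _
    rw [h1]
    group
  inv_mem := by
    rintro P φ ⟨hP, hφS, g, hg⟩
    have hinj : Function.Injective φ := by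
      intro a b hab
      have h1 : ι ⟨φ a, hφS a⟩ = ι ⟨φ b, hφS b⟩ := by
        congr 1
        exact Subtype.ext hab
      rw [hg, hg] at h1
      have h2 : ι ⟨a, hP a.2⟩ = ι ⟨b, hP b.2⟩ := mul_left_cancel (mul_right_cancel h1)
      exact Subtype.ext (congrArg (fun z : S => (z : Ω)) (hι h2))
    have hrS : φ.range ≤ S := by
      rintro _ ⟨x, rfl⟩
      exact hφS x
    have key : ∀ y : φ.range, φ ((MonoidHom.ofInjective hinj).symm y) = (y : Ω) := fun y =>
      congrArg Subtype.val ((MonoidHom.ofInjective hinj).apply_symm_apply y)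
    refine ⟨P.subtype.comp (MonoidHom.ofInjective hinj).symm.toMonoidHom,
      ⟨hrS, fun y => hP (Subtype.property _), g⁻¹, fun y => ?_⟩, fun x => ?_⟩
    · have h1 := hg ((MonoidHom.ofInjective hinj).symm y)
      have h2 : ι ⟨φ ((MonoidHom.ofInjective hinj).symm y), hφS _⟩ = ι ⟨(y : Ω), hrS y.2⟩ := by
        congr 1
        exact Subtype.ext (key y)
      rw [h2] at h1
      show ι ⟨(((MonoidHom.ofInjective hinj).symm y : P) : Ω), _⟩ = _
      rw [h1]
      group
    · show (((MonoidHom.ofInjective hinj).symm ⟨φ x, ⟨x, rfl⟩⟩ : P) : Ω) = x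
      have : (MonoidHom.ofInjective hinj).symm ⟨φ x, ⟨x, rfl⟩⟩ = x :=
        (MonoidHom.ofInjective hinj).symm_apply_apply x
      rw [this]

theorem pullSys_realized {G : Type*} [Group G] (ι : S →* G) (hι : Function.Injective ι) :
    (pullSys ι hι).IsRealizedBy ι :=
  ⟨hι, fun _ hP _ hφ => ⟨fun ⟨_, _, g, hg⟩ => ⟨g, hg⟩, fun ⟨g, hg⟩ => ⟨hP, hφ, g, hg⟩⟩⟩

theorem pullSys_saturated [Finite S] {G : Type*} [Group G] [Finite G] (ι : S →* G)
    (hι : Function.Injective ι) (p : ℕ) [Fact p.Prime] (T : Sylow p G)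
    (hT : (T : Subgroup G) = ι.range) : (pullSys ι hι).IsSaturated p :=
  Cfsg.Agent.Lib.Helper87.saturated_of_realized p _ (pullSys_realized ι hι) T hT

/-- In a system realized by `ι : S →* G`, a strongly closed subgroup contains every element of
`S` that is `G`-conjugate to one of its elements. -/
theorem mem_of_conj {F : FusionSystem S} {G : Type*} [Group G] {ι : S →* G}
    (hR : F.IsRealizedBy ι) {P : Subgroup Ω} (hP : F.StronglyClosed P) {x y : S}
    (hx : (x : Ω) ∈ P) {g : G} (h : ι y = g * ι x * g⁻¹) : (y : Ω) ∈ P := by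
  have hRP : Subgroup.zpowers (x : Ω) ≤ P := Subgroup.zpowers_le.mpr hx
  have hRS : Subgroup.zpowers (x : Ω) ≤ S := Subgroup.zpowers_le.mpr x.2
  have hg : ∀ z : Subgroup.zpowers (x : Ω), g * ι ⟨z, hRS z.2⟩ * g⁻¹ ∈ ι.range := by
    rintro ⟨z, hz⟩
    obtain ⟨k, rfl⟩ := Subgroup.mem_zpowers_iff.mp hz
    refine ⟨y ^ k, ?_⟩
    have h1 : (⟨(x : Ω) ^ k, hRS hz⟩ : S) = x ^ k := Subtype.ext (by simp)
    rw [h1, map_zpow, map_zpow, h]
    simp [conj_zpow]
  have hφ := Cfsg.Agent.Lib.Helper87.realHom_mem_hom F hR (Subgroup.zpowers (x : Ω)) hRS g hg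
  have h1 := hP.2 _ hRP _ hφ ⟨(x : Ω), Subgroup.mem_zpowers _⟩
  have h2 := Cfsg.Agent.Lib.Helper87.ι_realHom ι hR.1 (Subgroup.zpowers (x : Ω)) hRS g hg
    ⟨(x : Ω), Subgroup.mem_zpowers _⟩
  have h3 : (⟨(x : Ω), hRS (Subgroup.mem_zpowers _)⟩ : S) = x := Subtype.ext rfl
  rw [h3, ← h] at h2
  have h4 := hR.1 h2
  rw [← h4]
  exact h1

/-- In a finite cyclic group `⟨x⟩`, every element of order `p` lies in the subgroup generated by
any other element of order `p`. -/
theorem mem_zpowers_of_order_p {p : ℕ} [hp : Fact p.Prime] {x u y : Ω} (hx : IsOfFinOrder x)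
    (hu : u ∈ Subgroup.zpowers x) (hy : y ∈ Subgroup.zpowers x) (hou : orderOf u = p)
    (hoy : orderOf y = p) : y ∈ Subgroup.zpowers u := by
  classical
  have hfin : Finite (Subgroup.zpowers x) := by
    apply Nat.finite_of_card_ne_zero
    rw [Nat.card_zpowers]
    exact (orderOf_pos_iff.mpr hx).ne'
  have : Fintype (Subgroup.zpowers x) := Fintype.ofFinite _
  have hA := IsCyclic.card_pow_eq_one_le (α := Subgroup.zpowers x) hp.out.pos
  have hou' : orderOf (⟨u, hu⟩ : Subgroup.zpowers x) = p := by rw [Subgroup.orderOf_mk, hou]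
  have hoy' : orderOf (⟨y, hy⟩ : Subgroup.zpowers x) = p := by rw [Subgroup.orderOf_mk, hoy]
  set B : Finset (Subgroup.zpowers x) :=
    Finset.univ.filter (fun g => g ∈ Subgroup.zpowers (⟨u, hu⟩ : Subgroup.zpowers x)) with hB
  have hBcard : B.card = p := by
    have h1 : B.card = Nat.card (Subgroup.zpowers (⟨u, hu⟩ : Subgroup.zpowers x)) := by
      rw [Nat.card_eq_fintype_card, Fintype.card_subtype]
    rw [h1, Nat.card_zpowers, hou']
  have hBA : B ⊆ Finset.univ.filter (fun a : Subgroup.zpowers x => a ^ p = 1) := by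
    intro g hg
    rw [hB, Finset.mem_filter] at hg
    rw [Finset.mem_filter]
    refine ⟨Finset.mem_univ _, ?_⟩
    obtain ⟨k, rfl⟩ := Subgroup.mem_zpowers_iff.mp hg.2
    rw [← zpow_natCast, ← zpow_mul, mul_comm, zpow_mul, zpow_natCast, ← hou', pow_orderOf_eq_one,
      one_zpow]
  have hEq := Finset.eq_of_subset_of_card_le hBA (by rw [hBcard]; exact hA)
  have hyA : (⟨y, hy⟩ : Subgroup.zpowers x) ∈
      Finset.univ.filter (fun a : Subgroup.zpowers x => a ^ p = 1) := by
    rw [Finset.mem_filter]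
    exact ⟨Finset.mem_univ _, by rw [← hoy', pow_orderOf_eq_one]⟩
  rw [← hEq, hB, Finset.mem_filter] at hyA
  obtain ⟨k, hk⟩ := Subgroup.mem_zpowers_iff.mp hyA.2
  exact Subgroup.mem_zpowers_iff.mpr ⟨k, by simpa using congrArg Subtype.val hk⟩

/-- First criterion: if every strongly closed subgroup containing an element `x` of order `p`
contains an element of order `p` outside `⟨x⟩`, there is no chain. -/
theorem no_chain_of_cyc [Finite S] {p : ℕ} [hp : Fact p.Prime] (hS : IsPGroup p S)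
    (F : FusionSystem S) (hS1 : S ≠ ⊥)
    (h : ∀ P, F.StronglyClosed P → ∀ x ∈ P, orderOf x = p →
      ∃ y ∈ P, orderOf y = p ∧ y ∉ Subgroup.zpowers x) : ¬ HasChain F := by
  rintro ⟨m, c, h0, hm, hsc, hstep⟩
  have key : ∀ i : Fin (m + 1), c i = ⊥ := by
    intro i
    induction i using Fin.induction with
    | zero => exact h0
    | succ i ih =>
      obtain ⟨-, x, hxS, hx⟩ := hstep i
      rw [ih, bot_sup_eq] at hx
      by_contra hne
      have hx1 : x ≠ 1 := by
        rintro rfl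
        rw [Subgroup.zpowers_one_eq_bot] at hx
        exact hne hx
      obtain ⟨k, hk⟩ := (IsPGroup.iff_orderOf.mp hS) ⟨x, hxS⟩
      rw [Subgroup.orderOf_mk] at hk
      have hk0 : k ≠ 0 := by
        rintro rfl
        rw [pow_zero, orderOf_eq_one_iff] at hk
        exact hx1 hk
      obtain ⟨j, rfl⟩ := Nat.exists_eq_succ_of_ne_zero hk0
      have hou : orderOf (x ^ p ^ j) = p := by
        rw [orderOf_pow' x (pow_ne_zero j hp.out.ne_zero), hk, Nat.gcd_eq_right (pow_dvd_pow p (Nat.le_succ j)),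
          pow_succ, Nat.mul_div_cancel_left _ (pow_pos hp.out.pos j)]
      have huP : x ^ p ^ j ∈ c i.succ := by
        rw [hx]
        exact Subgroup.pow_mem _ (Subgroup.mem_zpowers x) _
      obtain ⟨y, hyP, hoy, hy⟩ := h _ (hsc i.succ) _ huP hou
      rw [hx] at hyP
      have hxfin : IsOfFinOrder x := by
        rw [← orderOf_pos_iff, hk]
        exact pow_pos hp.out.pos _
      exact hy (mem_zpowers_of_order_p hxfin (Subgroup.pow_mem _ (Subgroup.mem_zpowers x) _) hyP
        hou hoy)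
  exact hS1 (hm ▸ key (Fin.last m))

/-- Second criterion: if `S` is nonabelian and every abelian strongly closed subgroup is central
in `S`, there is no chain. -/
theorem no_chain_of_star (F : FusionSystem S) (hna : ∃ a ∈ S, ∃ b ∈ S, a * b ≠ b * a)
    (h : ∀ P, F.StronglyClosed P → (∀ a ∈ P, ∀ b ∈ P, a * b = b * a) →
      ∀ a ∈ P, ∀ s ∈ S, a * s = s * a) : ¬ HasChain F := by
  rintro ⟨m, c, h0, hm, hsc, hstep⟩
  have key : ∀ i : Fin (m + 1), ∀ a ∈ c i, ∀ s ∈ S, a * s = s * a := by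
    intro i
    induction i using Fin.induction with
    | zero =>
      intro a ha s _
      rw [h0, Subgroup.mem_bot] at ha
      rw [ha, one_mul, mul_one]
    | succ i ih =>
      obtain ⟨-, x, hxS, hx⟩ := hstep i
      apply h _ (hsc i.succ)
      have hle : c i.succ ≤ S := (hsc i.succ).1
      have hcS : c i.castSucc ≤ S := (hsc i.castSucc).1
      -- every element of `c i.succ` commutes with `x` and with `c i.castSucc`
      have h1 : c i.succ ≤ Subgroup.centralizer ({x} : Set Ω) := by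
        rw [hx]
        apply sup_le
        · intro a ha
          rw [Subgroup.mem_centralizer_iff]
          intro y hy
          rw [Set.mem_singleton_iff] at hy
          rw [hy]
          exact (ih a ha x hxS).symm
        · rw [Subgroup.zpowers_le]
          rw [Subgroup.mem_centralizer_iff]
          intro y hy
          rw [Set.mem_singleton_iff] at hy
          rw [hy]
      intro a ha b hb
      have hb' := hb
      rw [hx] at hb'
      -- induct on `b ∈ c i.castSucc ⊔ zpowers x`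
      have h2 : c i.castSucc ⊔ Subgroup.zpowers x ≤ Subgroup.centralizer ({a} : Set Ω) := by
        apply sup_le
        · intro z hz
          rw [Subgroup.mem_centralizer_iff]
          intro y hy
          rw [Set.mem_singleton_iff] at hy
          rw [hy]
          exact (ih z hz a (hle ha)).symm
        · rw [Subgroup.zpowers_le]
          rw [Subgroup.mem_centralizer_iff]
          intro y hy
          rw [Set.mem_singleton_iff] at hy
          rw [hy]
          have := Subgroup.mem_centralizer_iff.mp (h1 ha) x (Set.mem_singleton x)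
          exact this.symm
      exact Subgroup.mem_centralizer_iff.mp (h2 hb') a (Set.mem_singleton a)
  obtain ⟨a, ha, b, hb, hab⟩ := hna
  exact hab (key (Fin.last m) a (hm ▸ ha) b hb)

theorem exists_sat_noChain_of_cycModel [Finite S] (p : ℕ) [hp : Fact p.Prime] (hS : IsPGroup p S)
    (hS1 : S ≠ ⊥) (h : CycModel p ↥S) : ∃ F : FusionSystem S, F.IsSaturated p ∧ ¬ HasChain F := by
  obtain ⟨G, _, _, ι, hι, ⟨T, hT⟩, hcyc⟩ := h
  refine ⟨pullSys ι hι, pullSys_saturated ι hι p T hT, ?_⟩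
  apply no_chain_of_cyc hS _ hS1
  intro P hP x hx hox
  have hxS : x ∈ S := hP.1 hx
  have hox' : orderOf (⟨x, hxS⟩ : S) = p := by rw [Subgroup.orderOf_mk, hox]
  obtain ⟨y, hy, g, hg⟩ := hcyc ⟨x, hxS⟩ hox'
  refine ⟨(y : Ω), mem_of_conj (pullSys_realized ι hι) hP (x := ⟨x, hxS⟩) hx hg, ?_, ?_⟩
  · rw [Subgroup.orderOf_coe, ← orderOf_injective ι hι y, hg]
    have h1 : g * ι ⟨x, hxS⟩ * g⁻¹ = MulAut.conj g (ι ⟨x, hxS⟩) := rfl
    rw [h1, MulEquiv.orderOf_eq, orderOf_injective ι hι, hox']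
  · intro hmem
    apply hy
    obtain ⟨k, hk⟩ := Subgroup.mem_zpowers_iff.mp hmem
    exact Subgroup.mem_zpowers_iff.mpr ⟨k, Subtype.ext (by simpa using hk)⟩

theorem exists_sat_noChain_of_starModel [Finite S] (h : StarModel ↥S) :
    ∃ F : FusionSystem S, F.IsSaturated 2 ∧ ¬ HasChain F := by
  obtain ⟨G, _, _, ι, hι, ⟨T, hT⟩, ⟨a, b, hab⟩, hstar⟩ := h
  refine ⟨pullSys ι hι, pullSys_saturated ι hι 2 T hT, ?_⟩
  apply no_chain_of_star
  · refine ⟨a, a.2, b, b.2, fun h => hab (Subtype.ext h)⟩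
  · intro P hP hPab a ha s hs
    by_contra hne
    have hacen : (⟨a, hP.1 ha⟩ : S) ∉ Subgroup.center S := by
      intro hc
      have := Subgroup.mem_center_iff.mp hc ⟨s, hs⟩
      exact hne (congrArg Subtype.val this).symm
    obtain ⟨k, y₁, y₂, g₁, g₂, h1, h2, hy⟩ := hstar _ hacen
    have hk : (((⟨a, hP.1 ha⟩ : S) ^ k : S) : Ω) ∈ P := by
      simpa using P.pow_mem ha k
    have hy1 := mem_of_conj (pullSys_realized ι hι) hP hk h1
    have hy2 := mem_of_conj (pullSys_realized ι hι) hP hk h2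
    exact hy (Subtype.ext (hPab _ hy1 _ hy2))

end Cfsg.Agent.Lib.Helper88.SSol
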