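import Mathlib

/-! S1074 (helper99, project T2), piece T2-IDX: an index-2 subgroup contained in the commutator
subgroup is the commutator subgroup. -/

set_option autoImplicit false

namespace Cfsg.Agent.Lib.Helper99.T2

open scoped commutatorElement

theorem t2_comm_eq_of_index_two {Γ : Type*} [Group Γ] (G T : Subgroup Γ) (b : Γ) (hTG : T ≤ G)
    (hb : b ∈ G) (h1 : ∀ g ∈ G, g ∈ T ∨ ∃ k ∈ T, g = b * k) (h2 : b ∉ T)
    (h3 : ∀ x ∈ T, x ∈ (commutator ↥G).map G.subtype) :
    (commutator ↥G).map G.subtype = T ∧ (commutator ↥G).index = 2 := by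
  classical
  have hidx : (T.subgroupOf G).index = 2 := by
    rw [Subgroup.index_eq_two_iff]
    refine ⟨⟨b, hb⟩, fun x => ?_⟩
    simp only [Subgroup.mem_subgroupOf, Subgroup.coe_mul]
    by_cases hx : (x : Γ) ∈ T
    · right
      refine ⟨hx, fun hxb => h2 ?_⟩
      have hbe : b = (x : Γ)⁻¹ * ((x : Γ) * b) := by group
      rw [hbe]
      exact T.mul_mem (T.inv_mem hx) hxb
    · left
      refine ⟨?_, hx⟩
      obtain ⟨k, hk, hxk⟩ := (h1 x x.2).resolve_left hx
      rcases h1 ((x : Γ) * b) (G.mul_mem x.2 hb) with h | ⟨k', hk', h⟩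
      · exact h
      · exfalso
        apply h2
        rw [hxk] at h
        have h5 : k * b = k' := by
          have h6 : b * (k * b) = b * k' := by rw [← mul_assoc]; exact h
          exact mul_left_cancel h6
        have hbe : b = k⁻¹ * k' := by rw [← h5]; group
        rw [hbe]
        exact T.mul_mem (T.inv_mem hk) hk'
  have hnorm : (T.subgroupOf G).Normal := Subgroup.normal_of_index_eq_two hidx
  have hle : commutator ↥G ≤ T.subgroupOf G := by
    have hcard : Nat.card (↥G ⧸ T.subgroupOf G) = 2 := by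
      rw [← Subgroup.index_eq_card]
      exact hidx
    have hp : Fact (Nat.Prime 2) := ⟨Nat.prime_two⟩
    rw [← Subgroup.Normal.quotient_commutative_iff_commutator_le]
    exact (isCyclic_of_prime_card hcard).isMulCommutative
  have hge : T.subgroupOf G ≤ commutator ↥G := by
    intro x hx
    rw [Subgroup.mem_subgroupOf] at hx
    obtain ⟨y, hy, hyx⟩ := Subgroup.mem_map.1 (h3 _ hx)
    have hxy : y = x := Subtype.ext hyx
    rw [← hxy]
    exact hy
  have heq : commutator ↥G = T.subgroupOf G := le_antisymm hle hge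
  refine ⟨?_, ?_⟩
  · rw [heq]
    exact Subgroup.map_subgroupOf_eq_of_le hTG
  · rw [heq]
    exact hidx

end Cfsg.Agent.Lib.Helper99.T2
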