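import Mathlib
import Cfsg.Agent.Lib.Helper32.Uniq8
import Cfsg.Agent.S1451

set_option autoImplicit false

/-!
# S1402 (B&G 9.5), piece J7 (helper88, for helper3)
-/

open Cfsg Cfsg.Agent.Lib.Helper34 Cfsg.Agent.Lib.Helper32
open scoped commutatorElement

universe u

namespace Cfsg.Agent.Lib.Helper88.U95

variable {G : Type u} [Group G] [Finite G]

/-- **J7**: in a minimal simple group of odd order, a proper subgroup `H` whose Fitting subgroup
has rank at most 2 has nilpotent derived subgroup, contained in the Fitting subgroup. -/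
theorem comm_nilpotent_of_rankLE (hG : IsMinSimpleOddOrder G) {H : Subgroup G} (hH : H ≠ ⊤)
    (hr : ∀ r : ℕ, r.Prime → PRankLE r 2 ↥(fittingOf H)) :
    Group.IsNilpotent ↥⁅H, H⁆ ∧ ⁅H, H⁆ ≤ fittingOf H := by
  have : Group.IsSolvable ↥H := minSimple_solvable hG hH
  have hodd : Odd (Nat.card ↥H) := minSimple_odd_sub hG H
  have hrank : RankLE 2 ↥(fittingSubgroup ↥H) := by
    intro r hrp A hAc hAe
    let e : ↥(fittingSubgroup ↥H) ≃* ↥(fittingOf H) :=
      (fittingSubgroup ↥H).equivMapOfInjective H.subtype H.subtype_injective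
    have h1 := hr r hrp (A.map e.toMonoidHom) ?_ ?_
    · rwa [Subgroup.card_map_of_injective e.injective] at h1
    · refine ⟨⟨?_⟩⟩
      rintro ⟨_, a, ha, rfl⟩ ⟨_, b, hb, rfl⟩
      apply Subtype.ext
      show e.toMonoidHom a * e.toMonoidHom b = e.toMonoidHom b * e.toMonoidHom a
      rw [← map_mul, ← map_mul]
      congr 1
      have := hAc.is_comm.comm (⟨a, ha⟩ : A) ⟨b, hb⟩
      exact congrArg Subtype.val this
    · rintro _ ⟨a, ha, rfl⟩
      rw [← map_pow, hAe a ha, map_one]
  obtain ⟨hnil, -, -⟩ := Cfsg.Agent.S1451.result hodd (Or.inr hrank)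
  have hmap : (commutator ↥H).map H.subtype = ⁅H, H⁆ := Subgroup.map_subtype_commutator H
  constructor
  · rw [← hmap]
    exact (Group.isNilpotent_congr
      ((commutator ↥H).equivMapOfInjective H.subtype H.subtype_injective)).mp hnil
  · rw [← hmap]
    apply Subgroup.map_mono
    exact le_sSup ⟨inferInstance, hnil⟩

end Cfsg.Agent.Lib.Helper88.U95
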